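import Mathlib
import Cfsg.Agent.Lib.H41.LyG1
import Cfsg.Prelude.Def_Spor_Ly

set_option autoImplicit false
set_option maxRecDepth 100000

/-! Generators of `G₂(5)` satisfying the first 44 relations of the presentation of `Ly`. -/

namespace H41.LyG

open Matrix Cfsg.Lie Cfsg.Spor

theorem tab_ok (g : ℕ) : OKc (tab g) := by
  have h := okAll
  rw [Bool.and_eq_true, List.all_eq_true] at h
  unfold tab
  rw [List.getD_eq_getElem?_getD]
  cases h2 : tabL[g]? with
  | none => exact okC_spec h.2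
  | some r => exact okC_spec (h.1 r (List.mem_of_getElem? h2))

theorem chk_tab {w cols : List ℕ} (h : chk tab w cols = true) : (w.map fun g => matC (tab g)).prod = matC cols :=
  chk_spec (fun g _ => tab_ok g) h

theorem tab_ge {g : ℕ} (hg : 66 ≤ g) : tab g = idC := by
  unfold tab
  rw [List.getD_eq_getElem?_getD, List.getElem?_eq_none (by
    have : tabL.length = 66 := by decide +kernel
    omega)]
  rfl

theorem inv_both (g : ℕ) : matC (tab g) * matC (tab (ivl g)) = 1 ∧ matC (tab (ivl g)) * matC (tab g) = 1 := by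
  by_cases hg : g < 66
  · have h := invAll
    rw [List.all_eq_true] at h
    have h1 := h g (List.mem_range.2 hg)
    rw [Bool.and_eq_true] at h1
    have h2 := chk_tab h1.1
    have h3 := chk_tab h1.2
    rw [matC_id] at h2 h3
    simpa using And.intro h2 h3
  · have h1 : ivl g = g := by
      unfold ivl
      rw [if_neg (by omega), if_neg hg]
    rw [h1, tab_ge (by omega), matC_id, mul_one]
    exact ⟨rfl, rfl⟩

/-- the letters as elements of the general linear group -/
def LG (g : ℕ) : GL chevG2.Idx (ZMod 5) where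
  val := matC (tab g)
  inv := matC (tab (ivl g))
  val_inv := (inv_both g).1
  inv_val := (inv_both g).2

theorem LG_val (g : ℕ) : (LG g : Matrix chevG2.Idx chevG2.Idx (ZMod 5)) = matC (tab g) := rfl

theorem LG_inv (g : ℕ) : (LG g)⁻¹ = LG (ivl g) := Units.ext rfl

theorem LG_prod (w : List ℕ) : ((w.map LG).prod : Matrix chevG2.Idx chevG2.Idx (ZMod 5)) =
    (w.map fun g => matC (tab g)).prod := by
  induction w with
  | nil => rfl
  | cons g w ih =>
    rw [List.map_cons, List.prod_cons, List.map_cons, List.prod_cons, Units.val_mul, ih]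
    rfl

theorem LG_word {w : List ℕ} {g : ℕ} (h : chk tab w (tab g) = true) : LG g = (w.map LG).prod := by
  apply Units.ext
  rw [LG_prod, chk_tab h]
  rfl

theorem LG_one {w : List ℕ} (h : chk tab w idC = true) : (w.map LG).prod = 1 := by
  apply Units.ext
  rw [LG_prod, chk_tab h, matC_id]
  rfl

theorem xMat_eq (r : Fin 12) (t : ZMod 5) : chevG2.xMat (ZMod 5) r t =
    if t = 0 then 1 else matC (tab (4 * r.1 + (t.val - 1))) := by
  have ht : ∀ t : ZMod 5, t = 0 ∨ t = 1 ∨ t = 2 ∨ t = 3 ∨ t = 4 := by decide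
  have key : ∀ r : Fin 12, chevG2.xMat (ZMod 5) r 0 = 1 ∧ chevG2.xMat (ZMod 5) r 1 = matC (tab (4 * r.1)) ∧
      chevG2.xMat (ZMod 5) r 2 = matC (tab (4 * r.1 + 1)) ∧ chevG2.xMat (ZMod 5) r 3 = matC (tab (4 * r.1 + 2)) ∧
      chevG2.xMat (ZMod 5) r 4 = matC (tab (4 * r.1 + 3)) := by
    intro r
    fin_cases r
    · exact ⟨by rw [← matC_id]; exact (chkX_spec x0_0).symm, (chkX_spec x0_1).symm, (chkX_spec x0_2).symm, (chkX_spec x0_3).symm, (chkX_spec x0_4).symm⟩
    · exact ⟨by rw [← matC_id]; exact (chkX_spec x1_0).symm, (chkX_spec x1_1).symm, (chkX_spec x1_2).symm, (chkX_spec x1_3).symm, (chkX_spec x1_4).symm⟩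
    · exact ⟨by rw [← matC_id]; exact (chkX_spec x2_0).symm, (chkX_spec x2_1).symm, (chkX_spec x2_2).symm, (chkX_spec x2_3).symm, (chkX_spec x2_4).symm⟩
    · exact ⟨by rw [← matC_id]; exact (chkX_spec x3_0).symm, (chkX_spec x3_1).symm, (chkX_spec x3_2).symm, (chkX_spec x3_3).symm, (chkX_spec x3_4).symm⟩
    · exact ⟨by rw [← matC_id]; exact (chkX_spec x4_0).symm, (chkX_spec x4_1).symm, (chkX_spec x4_2).symm, (chkX_spec x4_3).symm, (chkX_spec x4_4).symm⟩
    · exact ⟨by rw [← matC_id]; exact (chkX_spec x5_0).symm, (chkX_spec x5_1).symm, (chkX_spec x5_2).symm, (chkX_spec x5_3).symm, (chkX_spec x5_4).symm⟩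
    · exact ⟨by rw [← matC_id]; exact (chkX_spec x6_0).symm, (chkX_spec x6_1).symm, (chkX_spec x6_2).symm, (chkX_spec x6_3).symm, (chkX_spec x6_4).symm⟩
    · exact ⟨by rw [← matC_id]; exact (chkX_spec x7_0).symm, (chkX_spec x7_1).symm, (chkX_spec x7_2).symm, (chkX_spec x7_3).symm, (chkX_spec x7_4).symm⟩
    · exact ⟨by rw [← matC_id]; exact (chkX_spec x8_0).symm, (chkX_spec x8_1).symm, (chkX_spec x8_2).symm, (chkX_spec x8_3).symm, (chkX_spec x8_4).symm⟩
    · exact ⟨by rw [← matC_id]; exact (chkX_spec x9_0).symm, (chkX_spec x9_1).symm, (chkX_spec x9_2).symm, (chkX_spec x9_3).symm, (chkX_spec x9_4).symm⟩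
    · exact ⟨by rw [← matC_id]; exact (chkX_spec x10_0).symm, (chkX_spec x10_1).symm, (chkX_spec x10_2).symm, (chkX_spec x10_3).symm, (chkX_spec x10_4).symm⟩
    · exact ⟨by rw [← matC_id]; exact (chkX_spec x11_0).symm, (chkX_spec x11_1).symm, (chkX_spec x11_2).symm, (chkX_spec x11_3).symm, (chkX_spec x11_4).symm⟩
  obtain ⟨k0, k1, k2, k3, k4⟩ := key r
  rcases ht t with rfl | rfl | rfl | rfl | rfl
  · rw [if_pos rfl, k0]
  · rw [if_neg (by decide), k1]; rfl
  · rw [if_neg (by decide), k2]; rfl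
  · rw [if_neg (by decide), k3]; rfl
  · rw [if_neg (by decide), k4]; rfl

theorem mem_root {g : ℕ} (hg : g < 48) : LG g ∈ chevG2.group (ZMod 5) := by
  apply Subgroup.subset_closure
  have hr : g / 4 < 12 := by omega
  have hv : ((g % 4 + 1 : ℕ) : ZMod 5).val = g % 4 + 1 := by
    rw [ZMod.val_natCast]
    exact Nat.mod_eq_of_lt (by omega)
  refine ⟨(⟨g / 4, hr⟩ : Fin 12), ((g % 4 + 1 : ℕ) : ZMod 5), ?_⟩
  rw [xMat_eq ⟨g / 4, hr⟩, if_neg (by
    intro h0
    rw [h0, ZMod.val_zero] at hv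
    omega), hv]
  change matC (tab g) = matC (tab (4 * (g / 4) + (g % 4 + 1 - 1)))
  congr 2
  omega

theorem mem_of_word {C : Subgroup (GL chevG2.Idx (ZMod 5))} {w : List ℕ} (h : ∀ g ∈ w, LG g ∈ C) :
    (w.map LG).prod ∈ C := by
  apply Subgroup.list_prod_mem
  intro x hx
  obtain ⟨g, hg, rfl⟩ := List.mem_map.1 hx
  exact h g hg

theorem mem_ivl {C : Subgroup (GL chevG2.Idx (ZMod 5))} {g : ℕ} (h : LG g ∈ C) : LG (ivl g) ∈ C := by
  rw [← LG_inv]; exact C.inv_mem h

theorem dw_spec {g : ℕ} {w : List ℕ} (h : (g, w) ∈ dw) : LG g = (w.map LG).prod := by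
  have h1 := dwAll
  rw [List.all_eq_true] at h1
  exact LG_word (h1 _ h)

/-- all letters lie in a subgroup containing `a, b, c, d` -/
theorem letters_mem {C : Subgroup (GL chevG2.Idx (ZMod 5))} (ha : LG 48 ∈ C) (hb : LG 50 ∈ C) (hc : LG 52 ∈ C)
    (hd : LG 54 ∈ C) : ∀ g, 48 ≤ g → g < 66 → LG g ∈ C := by
  have ha' : LG 49 ∈ C := mem_ivl (g := 48) ha
  have hb' : LG 51 ∈ C := mem_ivl (g := 50) hb
  have hc' : LG 53 ∈ C := mem_ivl (g := 52) hc
  have hd' : LG 55 ∈ C := mem_ivl (g := 54) hd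
  have h56 : LG 56 ∈ C := by
    rw [dw_spec (g := 56) (w := [49, 52, 48]) (by decide)]
    apply mem_of_word
    intro g hg
    simp only [List.mem_cons, List.not_mem_nil, or_false] at hg
    rcases hg with rfl | rfl | rfl <;> assumption
  have h57 : LG 57 ∈ C := mem_ivl (g := 56) h56
  have h58 : LG 58 ∈ C := by
    rw [dw_spec (g := 58) (w := [51, 52, 50]) (by decide)]
    apply mem_of_word
    intro g hg
    simp only [List.mem_cons, List.not_mem_nil, or_false] at hg
    rcases hg with rfl | rfl | rfl <;> assumption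
  have h59 : LG 59 ∈ C := mem_ivl (g := 58) h58
  have h60 : LG 60 ∈ C := by
    rw [dw_spec (g := 60) (w := [50, 52, 51]) (by decide)]
    apply mem_of_word
    intro g hg
    simp only [List.mem_cons, List.not_mem_nil, or_false] at hg
    rcases hg with rfl | rfl | rfl <;> assumption
  have h61 : LG 61 ∈ C := mem_ivl (g := 60) h60
  have h62 : LG 62 ∈ C := by
    rw [dw_spec (g := 62) (w := [53, 57, 52, 56]) (by decide)]
    apply mem_of_word
    intro g hg
    simp only [List.mem_cons, List.not_mem_nil, or_false] at hg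
    rcases hg with rfl | rfl | rfl | rfl <;> assumption
  have h63 : LG 63 ∈ C := mem_ivl (g := 62) h62
  have h64 : LG 64 ∈ C := by
    obtain ⟨w, hw1, hw2⟩ : ∃ w, (64, w) ∈ dw ∧ ∀ g ∈ w, 48 ≤ g ∧ g < 56 :=
      ⟨(dw.getD 8 (0, [])).2, by decide, by decide⟩
    rw [dw_spec hw1]
    apply mem_of_word
    intro g hg
    obtain ⟨h1, h2⟩ := hw2 g hg
    interval_cases g <;> assumption
  have h65 : LG 65 ∈ C := mem_ivl (g := 64) h64
  intro g h1 h2
  interval_cases g <;> assumption

theorem all_mem : ∀ g, LG g ∈ chevG2.group (ZMod 5) := by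
  intro g
  by_cases h1 : g < 48
  · exact mem_root h1
  by_cases h2 : g < 66
  · apply letters_mem _ _ _ _ g (by omega) h2
    · rw [dw_spec (g := 48) (w := (dw.getD 0 (0, [])).2) (by decide)]
      exact mem_of_word (fun g hg => mem_root ((by decide : ∀ g ∈ (dw.getD 0 (0, [])).2, g < 48) g hg))
    · rw [dw_spec (g := 50) (w := (dw.getD 1 (0, [])).2) (by decide)]
      exact mem_of_word (fun g hg => mem_root ((by decide : ∀ g ∈ (dw.getD 1 (0, [])).2, g < 48) g hg))
    · rw [dw_spec (g := 52) (w := (dw.getD 2 (0, [])).2) (by decide)]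
      exact mem_of_word (fun g hg => mem_root ((by decide : ∀ g ∈ (dw.getD 2 (0, [])).2, g < 48) g hg))
    · rw [dw_spec (g := 54) (w := (dw.getD 3 (0, [])).2) (by decide)]
      exact mem_of_word (fun g hg => mem_root ((by decide : ∀ g ∈ (dw.getD 3 (0, [])).2, g < 48) g hg))
  · have : LG g = 1 := by
      apply Units.ext
      rw [LG_val, tab_ge (by omega), matC_id]
      rfl
    rw [this]
    exact one_mem _

/-- the letter of a generator -/
def li : Ly.Gen → ℕ
  | .a => 48
  | .b => 50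
  | .c => 52
  | .c1 => 52
  | .d => 54
  | .c2 => 56
  | .c3 => 58
  | .c4 => 60
  | .c5 => 62
  | .e => 64
  | _ => 66

/-- the generators -/
def F (x : Ly.Gen) : chevG2.group (ZMod 5) := ⟨LG (li x), all_mem _⟩

/-- letters of a word -/
def exL (r : FreeGroup Ly.Gen) : List Nat := r.toWord.map fun p => if p.2 then li p.1 else ivl (li p.1)

theorem relAll : ((Ly.extra.take 44).all fun r => chk tab (exL r) idC) = true := by decide +kernel

theorem lift_F (r : FreeGroup Ly.Gen) : ((FreeGroup.lift F r : chevG2.group (ZMod 5)) : GL chevG2.Idx (ZMod 5)) =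
    ((exL r).map LG).prod := by
  have h1 : FreeGroup.lift F r = FreeGroup.lift F (FreeGroup.mk r.toWord) := by rw [FreeGroup.mk_toWord]
  rw [h1, FreeGroup.lift_mk, Subgroup.val_list_prod, exL, List.map_map, List.map_map]
  congr 1
  apply List.map_congr_left
  intro p _
  obtain ⟨x, b⟩ := p
  cases b with
  | true => rfl
  | false =>
    change ((F x)⁻¹ : GL chevG2.Idx (ZMod 5)) = LG (ivl (li x))
    rw [← LG_inv]
    rfl

theorem rel (r : FreeGroup Ly.Gen) (hr : r ∈ Ly.extra.take 44) : FreeGroup.lift F r = 1 := by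
  have h := relAll
  rw [List.all_eq_true] at h
  apply Subtype.ext
  rw [lift_F, LG_one (h r hr)]
  rfl

theorem xw_lt : ∀ r < 12, ∀ g ∈ xw.getD r [], 48 ≤ g ∧ g < 66 := by decide

theorem group_le {C : Subgroup (GL chevG2.Idx (ZMod 5))} (ha : LG 48 ∈ C) (hb : LG 50 ∈ C) (hc : LG 52 ∈ C)
    (hd : LG 54 ∈ C) : chevG2.group (ZMod 5) ≤ C := by
  have hl := letters_mem ha hb hc hd
  have h1 : ∀ r < 12, LG (4 * r) ∈ C := by
    intro r hr
    have h := xwAll
    rw [List.all_eq_true] at h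
    rw [LG_word (h r (List.mem_range.2 hr))]
    apply mem_of_word
    intro g hg
    obtain ⟨h1, h2⟩ := xw_lt r hr g hg
    exact hl g h1 h2
  have h2 : ∀ r < 12, LG (4 * r + 1) ∈ C ∧ LG (4 * r + 2) ∈ C ∧ LG (4 * r + 3) ∈ C := by
    intro r hr
    have h := powAll
    rw [List.all_eq_true] at h
    have h3 := h r (List.mem_range.2 hr)
    rw [Bool.and_eq_true, Bool.and_eq_true] at h3
    have h4 : ∀ w : List ℕ, (∀ g ∈ w, g = 4 * r) → (w.map LG).prod ∈ C := by
      intro w hw
      apply mem_of_word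
      intro g hg
      rw [hw g hg]
      exact h1 r hr
    refine ⟨?_, ?_, ?_⟩
    · rw [LG_word h3.1]; exact h4 _ (by simp)
    · rw [LG_word h3.2.1]; exact h4 _ (by simp)
    · rw [LG_word h3.2.2]; exact h4 _ (by simp)
  unfold ChevalleyDatum.group
  rw [Subgroup.closure_le]
  rintro g ⟨r, t, hg⟩
  have hr : r.1 < 12 := r.2
  rw [xMat_eq r t] at hg
  have ht : ∀ t : ZMod 5, t = 0 ∨ t = 1 ∨ t = 2 ∨ t = 3 ∨ t = 4 := by decide
  rcases ht t with rfl | rfl | rfl | rfl | rfl
  · rw [if_pos rfl] at hg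
    have : g = 1 := Units.ext hg
    rw [this]
    exact C.one_mem
  · rw [if_neg (by decide)] at hg
    have : g = LG (4 * r.1) := Units.ext hg
    rw [this]
    exact h1 r.1 hr
  · rw [if_neg (by decide)] at hg
    have : g = LG (4 * r.1 + 1) := Units.ext hg
    rw [this]
    exact (h2 r.1 hr).1
  · rw [if_neg (by decide)] at hg
    have : g = LG (4 * r.1 + 2) := Units.ext hg
    rw [this]
    exact (h2 r.1 hr).2.1
  · rw [if_neg (by decide)] at hg
    have : g = LG (4 * r.1 + 3) := Units.ext hg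
    rw [this]
    exact (h2 r.1 hr).2.2

theorem gen : Subgroup.closure {F .a, F .b, F .c, F .d} = ⊤ := by
  rw [eq_top_iff]
  intro x _
  have h1 : chevG2.group (ZMod 5) ≤ (Subgroup.closure {F .a, F .b, F .c, F .d}).map (chevG2.group (ZMod 5)).subtype := by
    apply group_le
    · exact ⟨F .a, Subgroup.subset_closure (by simp), rfl⟩
    · exact ⟨F .b, Subgroup.subset_closure (by simp), rfl⟩
    · exact ⟨F .c, Subgroup.subset_closure (by simp), rfl⟩
    · exact ⟨F .d, Subgroup.subset_closure (by simp), rfl⟩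
  obtain ⟨y, hy, hyx⟩ := h1 x.2
  have : y = x := Subtype.ext hyx
  rwa [← this]

/-- generators of `G₂(5)` satisfying the first 44 relations of `Ly` -/
theorem main : ∃ F : Ly.Gen → chevG2.group (ZMod 5), (∀ r ∈ Ly.extra.take 44, FreeGroup.lift F r = 1) ∧
    F .c1 = F .c ∧ Subgroup.closure {F .a, F .b, F .c, F .d} = ⊤ :=
  ⟨F, rel, rfl, gen⟩

end H41.LyG
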