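import Mathlib

/-! Square-zero linear maps: normal form, conjugacy in the general linear group, and determinant adjustments. -/

set_option autoImplicit false

namespace H41.NilSq

open Module

variable {K : Type*} [Field K] {V : Type*} [AddCommGroup V] [Module K V] [FiniteDimensional K V]

/-- Normal form of a square-zero map. -/
theorem exists_basis (N : V →ₗ[K] V) (hN2 : ∀ x, N (N x) = 0) :
    ∃ s : ℕ, 2 * finrank K (LinearMap.range N) + s = finrank K V ∧
      ∃ b : Basis (Fin (finrank K (LinearMap.range N)) ⊕ (Fin (finrank K (LinearMap.range N)) ⊕ Fin s)) K V,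
        (∀ i, N (b (Sum.inl i)) = b (Sum.inr (Sum.inl i))) ∧ (∀ i, N (b (Sum.inr i)) = 0) := by
  set r := finrank K (LinearMap.range N) with hr
  obtain ⟨X, hX⟩ := Submodule.exists_isCompl (LinearMap.ker N)
  obtain ⟨Z, hZ⟩ := Submodule.exists_isCompl (LinearMap.range N)
  have hle : LinearMap.range N ≤ LinearMap.ker N := by
    rintro _ ⟨x, rfl⟩
    exact hN2 x
  have h1 := Submodule.finrank_add_eq_of_isCompl hX
  have h2 := LinearMap.finrank_range_add_finrank_ker N
  have hXr : finrank K X = r := by omega
  set Y := Z ⊓ LinearMap.ker N with hY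
  have hdisj : Disjoint (LinearMap.range N) Y := hZ.disjoint.mono_right inf_le_left
  have hsup : LinearMap.range N ⊔ Y = LinearMap.ker N := by
    rw [hY, ← sup_inf_assoc_of_le Z hle, hZ.sup_eq_top, top_inf_eq]
  have hYr : r + finrank K Y = finrank K (LinearMap.ker N) := by
    rw [← hsup]
    have := Submodule.finrank_sup_add_finrank_inf_eq (LinearMap.range N) Y
    rw [hdisj.eq_bot, finrank_bot] at this
    omega
  let bX : Basis (Fin r) K X := finBasisOfFinrankEq K X hXr
  let bY : Basis (Fin (finrank K Y)) K Y := finBasis K Y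
  let u : Fin r → V := fun i => (bX i).1
  let w : Fin (finrank K Y) → V := fun i => (bY i).1
  have hu : LinearIndependent K u := by
    have := bX.linearIndependent.map' X.subtype (Submodule.ker_subtype X)
    exact this
  have hw : LinearIndependent K w := by
    have := bY.linearIndependent.map' Y.subtype (Submodule.ker_subtype Y)
    exact this
  have hspu : Submodule.span K (Set.range u) ≤ X := by
    rw [Submodule.span_le]; rintro _ ⟨i, rfl⟩; exact (bX i).2
  have hspw : Submodule.span K (Set.range w) ≤ Y := by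
    rw [Submodule.span_le]; rintro _ ⟨i, rfl⟩; exact (bY i).2
  have hspNu : Submodule.span K (Set.range (N ∘ u)) ≤ LinearMap.range N := by
    rw [Submodule.span_le]; rintro _ ⟨i, rfl⟩; exact ⟨_, rfl⟩
  have hNu : LinearIndependent K (N ∘ u) := by
    apply hu.map
    exact (hX.disjoint.symm).mono_left hspu
  have h3 : LinearIndependent K (Sum.elim (N ∘ u) w) :=
    hNu.sum_type hw (hdisj.mono hspNu hspw)
  have h3s : Submodule.span K (Set.range (Sum.elim (N ∘ u) w)) ≤ LinearMap.ker N := by
    rw [Submodule.span_le]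
    rintro _ ⟨i | i, rfl⟩
    · exact hN2 _
    · exact (bY i).2.2
  have h4 : LinearIndependent K (Sum.elim u (Sum.elim (N ∘ u) w)) :=
    hu.sum_type h3 (hX.disjoint.symm.mono hspu h3s)
  refine ⟨finrank K Y, by omega, basisOfLinearIndependentOfCardEqFinrank' _ h4 (by
    rw [Fintype.card_sum, Fintype.card_sum, Fintype.card_fin, Fintype.card_fin]; omega), ?_, ?_⟩
  · intro i
    simp
  · rintro (i | i)
    · simp [hN2]
    · simp only [coe_basisOfLinearIndependentOfCardEqFinrank', Sum.elim_inr]
      exact (bY i).2.2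

/-- Diagonal maps in a basis. -/
theorem exists_diag {I : Type*} [Fintype I] [DecidableEq I] (b : Basis I K V) (w : I → K) :
    ∃ h : V →ₗ[K] V, (∀ i, h (b i) = w i • b i) ∧ LinearMap.det h = ∏ i, w i := by
  refine ⟨Matrix.toLin b b (Matrix.diagonal w), fun i => ?_, ?_⟩
  · rw [Matrix.toLin_self]
    rw [Finset.sum_eq_single i]
    · rw [Matrix.diagonal_apply_eq]
    · intro j _ hj
      rw [Matrix.diagonal_apply_ne _ hj, zero_smul]
    · simp
  · rw [LinearMap.det_toLin, Matrix.det_diagonal]

/-- Conjugacy of square-zero maps of the same rank. -/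
theorem exists_conj (N N' : V →ₗ[K] V) (hN2 : ∀ x, N (N x) = 0) (hN2' : ∀ x, N' (N' x) = 0)
    (hr : finrank K (LinearMap.range N) = finrank K (LinearMap.range N')) :
    ∃ g : V ≃ₗ[K] V, ∀ x, g (N x) = N' (g x) := by
  obtain ⟨s, hs, b, hb1, hb2⟩ := exists_basis N hN2
  obtain ⟨s', hs', b', hb1', hb2'⟩ := exists_basis N' hN2'
  have hss : s = s' := by omega
  subst hss
  let e : (Fin (finrank K (LinearMap.range N)) ⊕ (Fin (finrank K (LinearMap.range N)) ⊕ Fin s)) ≃
    (Fin (finrank K (LinearMap.range N')) ⊕ (Fin (finrank K (LinearMap.range N')) ⊕ Fin s)) :=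
    Equiv.sumCongr (finCongr hr) (Equiv.sumCongr (finCongr hr) (Equiv.refl _))
  let g := b.equiv b' e
  have hg : ∀ i, g (b i) = b' (e i) := fun i => by simp [g]
  refine ⟨g, fun x => ?_⟩
  rw [← b.sum_repr x]
  simp only [map_sum, map_smul]
  apply Finset.sum_congr rfl
  rintro i _
  congr 1
  rcases i with i | i
  · rw [hb1, hg, hg]
    exact (hb1' _).symm
  · rw [hb2, map_zero, hg]
    exact (hb2' _).symm

/-- For a non-zero square-zero map and any scalar there is a commuting map of determinant the square of that scalar. -/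
theorem exists_comm_det (N : V →ₗ[K] V) (hN2 : ∀ x, N (N x) = 0) (hN : N ≠ 0) (c : K) :
    ∃ h : V →ₗ[K] V, (∀ x, h (N x) = N (h x)) ∧ LinearMap.det h = c ^ 2 := by
  obtain ⟨s, hs, b, hb1, hb2⟩ := exists_basis N hN2
  have hpos : 0 < finrank K (LinearMap.range N) := by
    rw [Nat.pos_iff_ne_zero]
    intro h0
    exact hN (LinearMap.range_eq_bot.mp (Submodule.finrank_eq_zero.mp h0))
  let i0 : Fin (finrank K (LinearMap.range N)) := ⟨0, hpos⟩
  let w : Fin (finrank K (LinearMap.range N)) ⊕ (Fin (finrank K (LinearMap.range N)) ⊕ Fin s) → K :=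
    Sum.elim (fun i => if i = i0 then c else 1) (Sum.elim (fun i => if i = i0 then c else 1) (fun _ => 1))
  obtain ⟨h, h1, h2⟩ := exists_diag b w
  refine ⟨h, fun x => ?_, ?_⟩
  · rw [← b.sum_repr x]
    simp only [map_sum, map_smul]
    apply Finset.sum_congr rfl
    rintro i _
    congr 1
    rcases i with i | i
    · rw [hb1, h1, h1, map_smul, hb1]
      rfl
    · rw [hb2, map_zero, h1, map_smul, hb2, smul_zero]
  · rw [h2, Fintype.prod_sum_type, Fintype.prod_sum_type]
    simp [w, pow_two]

end H41.NilSq
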