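import Mathlib
import Cfsg.Agent.Lib.H41.Sesq
import Cfsg.Agent.Lib.H41.Herm
import Cfsg.Agent.Lib.H41.SelfAdj
import Cfsg.Agent.Lib.H41.SpInv
import Cfsg.Agent.Lib.H41.NilSq

/-! Square-zero self-adjoint maps for a hermitian form over a finite field: normal form and conjugacy. -/

set_option autoImplicit false

namespace H41.HermInv

open Module H41.Sesq H41.SelfAdj

variable {K : Type*} [Field K] [Fintype K] {q : ℕ} {σ : K →+* K}

/-- Gram matrix of the normal form -/
def gram (K : Type*) [Field K] (r s : ℕ) : Matrix ((Fin r ⊕ Fin r) ⊕ Fin s) ((Fin r ⊕ Fin r) ⊕ Fin s) K :=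
  Matrix.fromBlocks (Matrix.fromBlocks 0 1 1 0) 0 0 1

omit [Fintype K] in
theorem gram_det (r s : ℕ) : IsUnit (gram K r s).det := by
  apply SpInv.det_blocks
  · exact det_double _ (by rw [Matrix.det_one]; exact isUnit_one)
  · rw [Matrix.det_one]; exact isUnit_one

theorem exists_nf (hK : Fintype.card K = q ^ 2) (hσ : ∀ x, σ x = x ^ q)
    {V : Type*} [AddCommGroup V] [Module K V] [FiniteDimensional K V]
    (B : V →ₗ[K] V →ₛₗ[σ] K) (hB : ∀ x y, B y x = σ (B x y)) (hnd : ∀ x, (∀ y, B x y = 0) → x = 0)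
    (N : V →ₗ[K] V) (hN2 : ∀ x, N (N x) = 0) (hadj : ∀ x y, B (N x) y = B x (N y)) (r : ℕ)
    (hr : finrank K (LinearMap.range N) = r) :
    ∃ s : ℕ, 2 * r + s = finrank K V ∧
      ∃ E : (Fin r ⊕ Fin r) ⊕ Fin s → V,
        (∀ i j, B (E i) (E j) = gram K r s i j) ∧
        (∀ i, N (E (Sum.inl (Sum.inl i))) = E (Sum.inl (Sum.inr i))) ∧
        (∀ i, N (E (Sum.inl (Sum.inr i))) = 0) ∧ (∀ i, N (E (Sum.inr i)) = 0) := by
  classical
  obtain ⟨X, hX1, hX2, hX3⟩ := exists_compl B N hadj hnd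
  rw [hr] at hX1
  obtain ⟨u0, hu0⟩ := Herm.exists_orthonormal hK hσ r (res (bN B N) X) (fun x y => by
    change B y.1 (N x.1) = σ (B x.1 (N y.1))
    rw [hB (N x.1) y.1, hadj]) hX2 hX1
  let u : Fin r → V := fun i => (u0 i).1
  have hG : ∀ i j, B (u i) (N (u j)) = (1 : Matrix (Fin r) (Fin r) K) i j := by
    intro i j
    rw [Matrix.one_apply]
    exact hu0 i j
  have hfix : ∀ i, (-(B (u i) (u i))) ^ q = -(B (u i) (u i)) := by
    intro i
    rw [← hσ, map_neg, ← hB]
  choose c hc using fun i => FieldQ.trace_surj hK _ (hfix i)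
  let C : Matrix (Fin r) (Fin r) K := fun i j => if i < j then -(B (u i) (u j)) else if i = j then c i else 0
  obtain ⟨u', hu1, -, hu2, hu3⟩ := correct B N hN2 hadj u 1 C hG (by
    intro i j
    have e1 : ∑ k, C i k * (1 : Matrix (Fin r) (Fin r) K) k j = C i j := by
      rw [← Matrix.mul_apply, Matrix.mul_one]
    have e2 : ∑ k, (1 : Matrix (Fin r) (Fin r) K) i k * σ (C j k) = σ (C j i) := by
      simp [Matrix.one_apply]
    rw [e1, e2]
    rcases lt_trichotomy i j with h | h | h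
    · simp only [C, h, if_true, not_lt.mpr h.le, if_false, h.ne', map_zero]
      ring
    · subst h
      simp only [C, lt_irrefl, if_false, if_true]
      have := hc i
      rw [hσ]
      linear_combination this
    · simp only [C, h, if_true, not_lt.mpr h.le, if_false, h.ne', map_neg]
      rw [hB (u j) (u i)]
      ring)
  have hdet1 : IsUnit (1 : Matrix (Fin r) (Fin r) K).det := by rw [Matrix.det_one]; exact isUnit_one
  have hgram := gram_double B N hN2 hadj u' 1 hu3 hu2
  have hdet := det_double (1 : Matrix (Fin r) (Fin r) K) hdet1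
  have hfin := finrank_orth B _ _ hdet hgram
  rw [Fintype.card_sum, Fintype.card_fin] at hfin
  obtain ⟨e, he⟩ := Herm.exists_orthonormal hK hσ _ (res B (orth B (Sum.elim u' (fun i => N (u' i)))))
    (fun x y => hB x.1 y.1) (res_orth_nondeg B _ _ hdet hgram hnd) rfl
  have he' : ∀ i j, B (e i).1 (e j).1 = if i = j then 1 else 0 := he
  have heo : ∀ i j, B (e i).1 (Sum.elim u' (fun i => N (u' i)) j) = 0 := fun i => (e i).2
  refine ⟨_, by omega, Sum.elim (Sum.elim u' (fun i => N (u' i))) (fun i => (e i).1), ?_, fun i => rfl,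
    fun i => hN2 _, ?_⟩
  · intro i j
    rcases i with i | i <;> rcases j with j | j
    · exact hgram i j
    · change B (Sum.elim u' (fun i => N (u' i)) i) (e j).1 = 0
      rw [hB (e j).1, heo, map_zero]
    · exact heo i j
    · change B (e i).1 (e j).1 = (1 : Matrix (Fin _) (Fin _) K) i j
      rw [he', Matrix.one_apply]
  · intro i
    exact N_orth B N hN2 hadj u' 1 hdet1 hu3 hu2 (by rw [Fintype.card_fin, hr]) (e i).1 (heo i)

theorem exists_conj (hK : Fintype.card K = q ^ 2) (hσ : ∀ x, σ x = x ^ q)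
    {V : Type*} [AddCommGroup V] [Module K V] [FiniteDimensional K V]
    (B : V →ₗ[K] V →ₛₗ[σ] K) (hB : ∀ x y, B y x = σ (B x y)) (hnd : ∀ x, (∀ y, B x y = 0) → x = 0)
    (N : V →ₗ[K] V) (hN2 : ∀ x, N (N x) = 0) (hadj : ∀ x y, B (N x) y = B x (N y))
    (N' : V →ₗ[K] V) (hN2' : ∀ x, N' (N' x) = 0) (hadj' : ∀ x y, B (N' x) y = B x (N' y))
    (hr : finrank K (LinearMap.range N) = finrank K (LinearMap.range N')) :
    ∃ g : V ≃ₗ[K] V, (∀ x y, B (g x) (g y) = B x y) ∧ (∀ x, g (N x) = N' (g x)) := by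
  obtain ⟨s, hs, E, hE1, hE2, hE3, hE4⟩ := exists_nf hK hσ B hB hnd N hN2 hadj _ rfl
  obtain ⟨s', hs', E', hE1', hE2', hE3', hE4'⟩ := exists_nf hK hσ B hB hnd N' hN2' hadj' _ hr.symm
  have : s' = s := by omega
  subst this
  obtain ⟨g, hg1, hg2, -⟩ := SpInv.exists_isometry' B N N' E E' _ (gram_det _ _) hE1 hE1' (by
      rw [Fintype.card_sum, Fintype.card_sum, Fintype.card_fin, Fintype.card_fin]; omega) (by
      rintro ((i | i) | i)
      · exact Or.inr ⟨Sum.inl (Sum.inr i), hE2 i, hE2' i⟩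
      · exact Or.inl ⟨hE3 i, hE3' i⟩
      · exact Or.inl ⟨hE4 i, hE4' i⟩)
  exact ⟨g, hg1, hg2⟩

/-- a commuting isometry with determinant the square of a norm-one scalar -/
theorem exists_comm_det (hK : Fintype.card K = q ^ 2) (hσ : ∀ x, σ x = x ^ q)
    {V : Type*} [AddCommGroup V] [Module K V] [FiniteDimensional K V]
    (B : V →ₗ[K] V →ₛₗ[σ] K) (hB : ∀ x y, B y x = σ (B x y)) (hnd : ∀ x, (∀ y, B x y = 0) → x = 0)
    (N : V →ₗ[K] V) (hN2 : ∀ x, N (N x) = 0) (hadj : ∀ x y, B (N x) y = B x (N y)) (hN : N ≠ 0)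
    (c : K) (hc : c * σ c = 1) :
    ∃ h : V →ₗ[K] V, (∀ x y, B (h x) (h y) = B x y) ∧ (∀ x, h (N x) = N (h x)) ∧ LinearMap.det h = c ^ 2 := by
  classical
  obtain ⟨r, hr⟩ : ∃ r, finrank K (LinearMap.range N) = r := ⟨_, rfl⟩
  obtain ⟨s, hs, E, hE1, hE2, hE3, hE4⟩ := exists_nf hK hσ B hB hnd N hN2 hadj r hr
  have hpos : 0 < r := by
    rw [Nat.pos_iff_ne_zero]
    intro h0
    rw [h0] at hr
    exact hN (LinearMap.range_eq_bot.mp (Submodule.finrank_eq_zero.mp hr))
  let i0 : Fin r := ⟨0, hpos⟩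
  have hli := linearIndependent_of_gram B E _ (gram_det _ _) hE1
  let b : Basis _ K V := basisOfLinearIndependentOfCardEqFinrank' E hli (by
      rw [Fintype.card_sum, Fintype.card_sum, Fintype.card_fin, Fintype.card_fin]; omega)
  have hb : ∀ i, b i = E i := fun i => by simp [b]
  let w : (Fin r ⊕ Fin r) ⊕ Fin s → K :=
    Sum.elim (Sum.elim (fun i => if i = i0 then c else 1) (fun i => if i = i0 then c else 1)) (fun _ => 1)
  obtain ⟨h, h1, h2⟩ := NilSq.exists_diag b w
  refine ⟨h, ?_, ?_, ?_⟩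
  · have key : ∀ i j, B (h (b i)) (h (b j)) = B (b i) (b j) := by
      intro j i
      rw [h1, h1, LinearMap.map_smulₛₗ, LinearMap.map_smul, LinearMap.smul_apply, hb, hb, hE1]
      rcases j with (j | j) | j <;> rcases i with (i | i) | i
      all_goals simp only [gram, w, Matrix.fromBlocks_apply₁₁, Matrix.fromBlocks_apply₁₂,
        Matrix.fromBlocks_apply₂₁, Matrix.fromBlocks_apply₂₂, Matrix.zero_apply, mul_zero, Sum.elim_inl,
        Sum.elim_inr, Matrix.one_apply, smul_eq_mul, map_one, one_mul]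
      all_goals
        by_cases hji : j = i
        · subst hji
          by_cases hj : j = i0
          · simp only [hj, if_true, mul_one]
            rw [mul_comm]; exact hc
          · simp [hj]
        · simp [hji]
    intro x y
    rw [← b.sum_repr x, ← b.sum_repr y]
    simp only [map_sum, map_smul, LinearMap.sum_apply, LinearMap.smul_apply, LinearMap.map_smulₛₗ, key]
  · intro x
    rw [← b.sum_repr x]
    simp only [map_sum, map_smul]
    apply Finset.sum_congr rfl
    rintro i _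
    congr 1
    have hb2 : ∀ i, N (b (Sum.inl (Sum.inl i))) = b (Sum.inl (Sum.inr i)) := fun i => by rw [hb, hE2, hb]
    have hb3 : ∀ i, N (b (Sum.inl (Sum.inr i))) = 0 := fun i => by rw [hb, hE3]
    have hb4 : ∀ i, N (b (Sum.inr i)) = 0 := fun i => by rw [hb, hE4]
    rcases i with (i | i) | i
    · rw [hb2, h1, h1, map_smul, hb2]
      rfl
    · rw [hb3, map_zero, h1, map_smul, hb3, smul_zero]
    · rw [hb4, map_zero, h1, map_smul, hb4, smul_zero]
  · rw [h2, Fintype.prod_sum_type, Fintype.prod_sum_type]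
    simp [w, pow_two]

end H41.HermInv
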