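import Mathlib
import Cfsg.Prelude.Def_Classical
import Cfsg.Agent.Lib.H41.HermInv

/-! The standard hermitian form `∑ u_i v_i ^ q` as a sesquilinear map, and membership in `Cfsg.SU`. -/

set_option autoImplicit false

namespace H41.HermMat

open Module

variable {F : Type*} [Field F] {σ : F →+* F} {n q : ℕ}

/-- the form `∑ u_i σ(v_i)` -/
noncomputable def bh (σ : F →+* F) (n : ℕ) : (Fin n → F) →ₗ[F] (Fin n → F) →ₛₗ[σ] F where
  toFun u :=
    { toFun := fun v => ∑ i, u i * σ (v i)
      map_add' := fun v w => by simp [mul_add, Finset.sum_add_distrib]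
      map_smul' := fun c v => by
        simp only [Pi.smul_apply, smul_eq_mul, map_mul, Finset.mul_sum]
        apply Finset.sum_congr rfl
        intro i _
        ring }
  map_add' u w := by
    ext v
    simp [add_mul, Finset.sum_add_distrib]
  map_smul' c u := by
    ext v
    simp only [Pi.smul_apply, smul_eq_mul, LinearMap.coe_mk, AddHom.coe_mk, RingHom.id_apply,
      LinearMap.smul_apply, Finset.mul_sum]
    apply Finset.sum_congr rfl
    intro i _
    ring

theorem bh_apply (u v : Fin n → F) : bh σ n u v = ∑ i, u i * σ (v i) := rfl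

theorem bh_eq_hermForm (hσ : ∀ x, σ x = x ^ q) (u v : Fin n → F) : bh σ n u v = Cfsg.hermForm n F q u v := by
  rw [bh_apply, Cfsg.hermForm]
  simp only [hσ]

theorem bh_herm (hσ2 : ∀ x, σ (σ x) = x) (u v : Fin n → F) : bh σ n v u = σ (bh σ n u v) := by
  rw [bh_apply, bh_apply, map_sum]
  apply Finset.sum_congr rfl
  intro i _
  rw [map_mul, hσ2, mul_comm]

theorem bh_nondeg (x : Fin n → F) (h : ∀ y, bh σ n x y = 0) : x = 0 := by
  ext i
  have := h (Pi.single i 1)
  rw [bh_apply, Finset.sum_eq_single i] at this
  · simpa using this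
  · intro j _ hj
    rw [Pi.single_eq_of_ne hj, map_zero, mul_zero]
  · simp

theorem mem_SU_iff (hσ : ∀ x, σ x = x ^ q) (A : Matrix.SpecialLinearGroup (Fin n) F) :
    A ∈ Cfsg.SU n F q ↔ ∀ u v, bh σ n (Matrix.mulVec (A : Matrix (Fin n) (Fin n) F) u)
      (Matrix.mulVec (A : Matrix (Fin n) (Fin n) F) v) = bh σ n u v := by
  simp only [bh_eq_hermForm hσ]
  rfl

/-- the determinant of an isometry has norm one -/
theorem det_norm (M : Matrix (Fin n) (Fin n) F)
    (hM : ∀ u v, bh σ n (Matrix.mulVec M u) (Matrix.mulVec M v) = bh σ n u v) : M.det * σ M.det = 1 := by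
  have h : M.transpose * M.map σ = 1 := by
    ext i j
    have := hM (Pi.single i 1) (Pi.single j 1)
    rw [bh_apply, bh_apply] at this
    rw [Matrix.mul_apply, Matrix.one_apply]
    simp only [Matrix.mulVec_single_one, Matrix.col_apply] at this
    simp only [Matrix.transpose_apply, Matrix.map_apply]
    rw [this]
    by_cases hij : i = j
    · subst hij
      rw [Finset.sum_eq_single i]
      · simp
      · intro k _ hk
        rw [Pi.single_eq_of_ne hk, zero_mul]
      · simp
    · rw [if_neg hij]
      apply Finset.sum_eq_zero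
      intro k _
      by_cases hk : k = i
      · subst hk
        rw [Pi.single_eq_of_ne hij, map_zero, mul_zero]
      · rw [Pi.single_eq_of_ne hk, zero_mul]
  have h2 := congrArg Matrix.det h
  rw [Matrix.det_mul, Matrix.det_transpose, Matrix.det_one] at h2
  rw [← h2]
  congr 1
  exact RingHom.map_det σ M

end H41.HermMat
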