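import Mathlib
import Cfsg.Prelude.Def_ChevG2
import Cfsg.Prelude.Def_ChevWords

set_option autoImplicit false

/-! Packed `14 × 14` matrices over the field with five elements (for kernel computation). -/

namespace H41.LyG

open Matrix Cfsg.Lie

/-- digit -/
def dg (x j : ℕ) : ℕ := x / 256 ^ j % 256

theorem dg_zero (x : ℕ) : dg x 0 = x % 256 := by simp [dg]

theorem dg_succ (x j : ℕ) : dg x (j + 1) = dg (x / 256) j := by
  unfold dg
  rw [pow_succ', Nat.div_div_eq_div_mul]

theorem dg_of_zero (j : ℕ) : dg 0 j = 0 := by simp [dg]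

theorem dg_add {x y : ℕ} (h : ∀ j, dg x j + dg y j ≤ 255) (j : ℕ) : dg (x + y) j = dg x j + dg y j := by
  have key : ∀ j, (x + y) / 256 ^ j = x / 256 ^ j + y / 256 ^ j := by
    intro j
    induction j with
    | zero => simp
    | succ j ih =>
      have h1 := h j
      unfold dg at h1
      rw [pow_succ, ← Nat.div_div_eq_div_mul, ← Nat.div_div_eq_div_mul, ← Nat.div_div_eq_div_mul, ih]
      omega
  have h1 := h j
  unfold dg at h1 ⊢
  rw [key]
  omega

theorem dg_mul {c : ℕ} (hc : ∀ j, dg c j ≤ 4) (m : ℕ) (hm : m ≤ 60) (j : ℕ) : dg (m * c) j = m * dg c j := by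
  induction m generalizing j with
  | zero => simp [dg_of_zero]
  | succ m ih =>
    have ih' := fun j => ih (by omega) j
    rw [Nat.succ_mul, dg_add (fun j => ?_), ih']
    · ring
    · rw [ih']
      have h1 := hc j
      have h2 : m * dg c j ≤ 60 * 4 := Nat.mul_le_mul (by omega) h1
      omega

/-- `Σ digit_k(v) * cols_k` -/
def sumc (cols : List Nat) : Nat → Nat :=
  List.rec (motive := fun _ => Nat → Nat) (fun _ => 0)
    (fun c _ ih v => Nat.add (Nat.mul (Nat.land v 255) c) (ih (Nat.shiftRight v 8))) cols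

theorem sumc_nil (v : ℕ) : sumc [] v = 0 := rfl

theorem sumc_cons (c : ℕ) (cs : List ℕ) (v : ℕ) : sumc (c :: cs) v = dg v 0 * c + sumc cs (v / 256) := by
  have h1 : sumc (c :: cs) v = (v &&& (2 ^ 8 - 1)) * c + sumc cs (v >>> 8) := rfl
  rw [h1, Nat.and_two_pow_sub_one_eq_mod, Nat.shiftRight_eq_div_pow, dg_zero]

/-- reduction of the digits modulo 5 -/
def redF (n : Nat) : Nat → Nat :=
  Nat.rec (motive := fun _ => Nat → Nat) (fun _ => 0)
    (fun _ ih s => Nat.add (Nat.mod (Nat.land s 255) 5) (Nat.shiftLeft (ih (Nat.shiftRight s 8)) 8)) n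

theorem redF_zero (s : ℕ) : redF 0 s = 0 := rfl

theorem redF_succ (n s : ℕ) : redF (n + 1) s = dg s 0 % 5 + 256 * redF n (s / 256) := by
  have h1 : redF (n + 1) s = (s &&& (2 ^ 8 - 1)) % 5 + (redF n (s >>> 8)) <<< 8 := rfl
  rw [h1, Nat.and_two_pow_sub_one_eq_mod, Nat.shiftRight_eq_div_pow, dg_zero, Nat.shiftLeft_eq]
  ring

theorem dg_redF (n s j : ℕ) : dg (redF n s) j = if j < n then dg s j % 5 else 0 := by
  induction n generalizing s j with
  | zero => rw [redF_zero, dg_of_zero]; simp
  | succ n ih =>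
    rw [redF_succ]
    have h5 : dg s 0 % 5 < 5 := Nat.mod_lt _ (by norm_num)
    cases j with
    | zero =>
      rw [dg_zero, if_pos (by omega)]
      omega
    | succ j =>
      rw [dg_succ, show (dg s 0 % 5 + 256 * redF n (s / 256)) / 256 = redF n (s / 256) by omega, ih]
      by_cases h : j < n
      · rw [if_pos h, if_pos (by omega), ← dg_succ]
      · rw [if_neg h, if_neg (by omega)]

/-- apply a packed matrix to a packed vector -/
def ap (cols : List Nat) (v : Nat) : Nat := redF 14 (sumc cols v)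

/-- apply a word (the last letter first) -/
def apW (tab : Nat → List Nat) (w : List Nat) (v : Nat) : Nat :=
  List.rec (motive := fun _ => Nat) v (fun g _ ih => ap (tab g) ih) w

def OKv (v : ℕ) : Prop := ∀ j, dg v j ≤ 4

def OKc (cols : List ℕ) : Prop := cols.length = 14 ∧ ∀ c ∈ cols, OKv c

theorem sumc_spec (cols : List ℕ) (hc : ∀ c ∈ cols, OKv c) (hl : cols.length ≤ 15) (v : ℕ) (hv : OKv v) (j : ℕ) :
    dg (sumc cols v) j = ∑ k ∈ Finset.range cols.length, dg v k * dg (cols.getD k 0) j ∧
      dg (sumc cols v) j ≤ 16 * cols.length := by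
  induction cols generalizing v j with
  | nil => simp [sumc_nil, dg_of_zero]
  | cons c cs ih =>
    have hv' : OKv (v / 256) := fun j => by rw [← dg_succ]; exact hv _
    have h1 := fun j => ih (fun x hx => hc x (List.mem_cons_of_mem _ hx)) (by simp at hl; omega) (v / 256) hv' j
    have h2 : ∀ j, dg (dg v 0 * c) j = dg v 0 * dg c j :=
      dg_mul (hc c List.mem_cons_self) (dg v 0) (by have := hv 0; omega)
    have h3 : ∀ j, dg v 0 * dg c j ≤ 16 := fun j => Nat.mul_le_mul (hv 0) (hc c List.mem_cons_self j)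
    have h4 : ∀ j, dg (sumc (c :: cs) v) j = dg v 0 * dg c j + dg (sumc cs (v / 256)) j := by
      intro j
      rw [sumc_cons, dg_add (fun j => ?_), h2]
      rw [h2]
      have a1 := h3 j
      have a2 := (h1 j).2
      simp at hl
      omega
    rw [h4]
    constructor
    · rw [(h1 j).1, List.length_cons, Finset.sum_range_succ']
      simp only [List.getD_cons_succ, List.getD_cons_zero, dg_succ]
      rw [add_comm]
    · have a1 := h3 j
      have a2 := (h1 j).2
      rw [List.length_cons]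
      omega

theorem ap_spec {cols : List ℕ} (hc : OKc cols) {v : ℕ} (hv : OKv v) (j : ℕ) :
    dg (ap cols v) j = if j < 14 then (∑ k ∈ Finset.range 14, dg v k * dg (cols.getD k 0) j) % 5 else 0 := by
  unfold ap
  rw [dg_redF, (sumc_spec cols hc.2 (by rw [hc.1]; omega) v hv j).1, hc.1]

theorem ap_ok {cols : List ℕ} (hc : OKc cols) {v : ℕ} (hv : OKv v) : OKv (ap cols v) := by
  intro j
  rw [ap_spec hc hv]
  split_ifs
  · have := Nat.mod_lt (∑ k ∈ Finset.range 14, dg v k * dg (cols.getD k 0) j) (by norm_num : 0 < 5)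
    omega
  · omega

/-- index -/
def enc : chevG2.Idx → ℕ := Sum.elim (fun i => i.1) (fun j => 2 + j.1)

theorem enc_lt (i : chevG2.Idx) : enc i < 14 := by
  rcases i with ⟨i, hi⟩ | ⟨i, hi⟩
  · have hi : i < 2 := hi
    change i < 14
    omega
  · have hi : i < 12 := hi
    change 2 + i < 14
    omega

/-- inverse of `enc` -/
def ix (a : ℕ) : chevG2.Idx :=
  if h : a < 2 then Sum.inl ⟨a, h⟩ else Sum.inr ⟨(a - 2) % 12, Nat.mod_lt _ (by norm_num)⟩

theorem ix_enc (i : chevG2.Idx) : ix (enc i) = i := by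
  rcases i with ⟨i, hi⟩ | ⟨i, hi⟩
  · have hi : i < 2 := hi
    change ix i = _
    unfold ix
    rw [dif_pos hi]
  · have hi : i < 12 := hi
    change ix (2 + i) = _
    unfold ix
    rw [dif_neg (by omega)]
    congr 2
    omega

theorem sum_enc {M : Type*} [AddCommMonoid M] (f : ℕ → M) : ∑ i : chevG2.Idx, f (enc i) = ∑ k ∈ Finset.range 14, f k := by
  rw [Fintype.sum_sum_type]
  change ∑ i : Fin 2, f i.1 + ∑ j : Fin 12, f (2 + j.1) = _
  rw [← Finset.sum_range (fun i => f i), ← Finset.sum_range (fun i => f (2 + i)), show (14 : ℕ) = 2 + 12 from rfl,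
    Finset.sum_range_add]

/-- unpacking -/
def dec (v : ℕ) : chevG2.Idx → ZMod 5 := fun i => (dg v (enc i) : ZMod 5)

def matC (cols : List ℕ) : Matrix chevG2.Idx chevG2.Idx (ZMod 5) := fun i j => (dg (cols.getD (enc j) 0) (enc i) : ZMod 5)

theorem dec_ap {cols : List ℕ} (hc : OKc cols) {v : ℕ} (hv : OKv v) : dec (ap cols v) = matC cols *ᵥ dec v := by
  ext i
  unfold dec matC Matrix.mulVec dotProduct
  rw [ap_spec hc hv, if_pos (enc_lt i), ZMod.natCast_mod,
    sum_enc (fun k => (dg (cols.getD k 0) (enc i) : ZMod 5) * (dg v k : ZMod 5))]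
  push_cast
  exact Finset.sum_congr rfl (fun k _ => mul_comm _ _)

theorem apW_spec {tab : ℕ → List ℕ} (w : List ℕ) (hw : ∀ g ∈ w, OKc (tab g)) {v : ℕ} (hv : OKv v) :
    OKv (apW tab w v) ∧ dec (apW tab w v) = (w.map fun g => matC (tab g)).prod *ᵥ dec v := by
  induction w with
  | nil =>
    refine ⟨hv, ?_⟩
    change dec v = _
    rw [List.map_nil, List.prod_nil, Matrix.one_mulVec]
  | cons g w ih =>
    obtain ⟨h1, h2⟩ := ih (fun x hx => hw x (List.mem_cons_of_mem _ hx))
    have hg := hw g List.mem_cons_self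
    refine ⟨ap_ok hg h1, ?_⟩
    change dec (ap (tab g) (apW tab w v)) = _
    rw [dec_ap hg h1, h2, List.map_cons, List.prod_cons, Matrix.mulVec_mulVec]

theorem okv_pow {a : ℕ} (ha : a < 14) : OKv (256 ^ a) ∧ ∀ i, dg (256 ^ a) i = if i = a then 1 else 0 := by
  have h : ∀ i, dg (256 ^ a) i = if i = a then 1 else 0 := by
    intro i
    unfold dg
    rcases lt_trichotomy i a with h | h | h
    · rw [if_neg h.ne]
      obtain ⟨c, rfl⟩ := Nat.exists_eq_add_of_lt h
      rw [show i + c + 1 = i + (c + 1) by ring, pow_add, Nat.mul_div_cancel_left _ (by positivity), pow_succ]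
      simp
    · rw [if_pos h, h, Nat.div_self (by positivity)]
    · rw [if_neg h.ne', Nat.div_eq_of_lt (Nat.pow_lt_pow_right (by norm_num) h)]
  refine ⟨fun j => ?_, h⟩
  rw [h]
  split_ifs <;> omega

theorem enc_inj {i j : chevG2.Idx} (h : enc i = enc j) : i = j := by
  rw [← ix_enc i, h, ix_enc]

theorem dec_pow (j : chevG2.Idx) : dec (256 ^ enc j) = Pi.single j 1 := by
  ext i
  unfold dec
  rw [(okv_pow (enc_lt j)).2]
  by_cases h : i = j
  · subst h; simp
  · rw [if_neg (fun h' => h (enc_inj h')), Pi.single_eq_of_ne h]; simp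

/-- the kernel check: the word has matrix `cols` -/
def chk (tab : Nat → List Nat) (w : List Nat) (cols : List Nat) : Bool :=
  (List.range 14).all fun a => Nat.beq (apW tab w (Nat.pow 256 a)) (cols.getD a 0)

theorem chk_spec {tab : ℕ → List ℕ} {w : List ℕ} (hw : ∀ g ∈ w, OKc (tab g)) {cols : List ℕ}
    (h : chk tab w cols = true) : (w.map fun g => matC (tab g)).prod = matC cols := by
  unfold chk at h
  rw [List.all_eq_true] at h
  ext i j
  have h1 := Nat.eq_of_beq_eq_true (h (enc j) (List.mem_range.2 (enc_lt j)))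
  have h2 := (apW_spec w hw (okv_pow (enc_lt j)).1).2
  rw [dec_pow, Matrix.mulVec_single_one] at h2
  have h3 := congrFun h2 i
  rw [show (256 ^ enc j : ℕ) = Nat.pow 256 (enc j) from rfl, h1] at h3
  exact h3.symm

/-- the identity -/
def idC : List ℕ := (List.range 14).map fun a => Nat.pow 256 a

theorem matC_id : matC idC = 1 := by
  ext i j
  unfold matC idC
  rw [List.getD_eq_getElem?_getD, List.getElem?_map, List.getElem?_range (enc_lt j)]
  change ((dg (256 ^ enc j) (enc i) : ℕ) : ZMod 5) = _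
  rw [(okv_pow (enc_lt j)).2]
  by_cases h : i = j
  · subst h; simp
  · rw [if_neg (fun h' => h (enc_inj h')), Matrix.one_apply_ne h]; simp

/-- check of the digits of a table entry -/
def okC (cols : List Nat) : Bool :=
  Nat.beq cols.length 14 && cols.all fun c => Nat.beq (redF 14 c) c

theorem okC_spec {cols : List ℕ} (h : okC cols = true) : OKc cols := by
  unfold okC at h
  rw [Bool.and_eq_true, List.all_eq_true] at h
  refine ⟨Nat.eq_of_beq_eq_true h.1, fun c hc j => ?_⟩
  have h1 := Nat.eq_of_beq_eq_true (h.2 c hc)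
  rw [← h1, dg_redF]
  split_ifs
  · have := Nat.mod_lt (dg c j) (by norm_num : 0 < 5)
    omega
  · omega

end H41.LyG
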