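import Mathlib
import Cfsg.Agent.Lib.H54.RA0

/-! # S3330 piece U1 -/

set_option autoImplicit false
set_option maxRecDepth 100000

namespace H41.RU1

open Equiv Subgroup H54.RA

/-- `S6` is invariant under conjugation -/
theorem S6.conj {G : Type*} [Group G] {t : G} (h : S6 t) (g : G) : S6 (g * t * g⁻¹) := by
  obtain ⟨π, hs, hk⟩ := h
  have hmem : ∀ x : centralizer ({g * t * g⁻¹} : Set G), g⁻¹ * (x : G) * g ∈ centralizer ({t} : Set G) := by
    intro x
    have hx := mem_centralizer_singleton_iff.1 x.2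
    rw [mem_centralizer_singleton_iff]
    calc g⁻¹ * (x : G) * g * t = g⁻¹ * ((x : G) * (g * t * g⁻¹)) * g := by group
      _ = g⁻¹ * ((g * t * g⁻¹) * (x : G)) * g := by rw [hx]
      _ = t * (g⁻¹ * (x : G) * g) := by group
  let φ : centralizer ({g * t * g⁻¹} : Set G) →* centralizer ({t} : Set G) :=
    { toFun := fun x => ⟨g⁻¹ * (x : G) * g, hmem x⟩
      map_one' := by apply Subtype.ext; simp
      map_mul' := fun x y => by
        apply Subtype.ext
        show g⁻¹ * ((x : G) * (y : G)) * g = (g⁻¹ * (x : G) * g) * (g⁻¹ * (y : G) * g)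
        group }
  refine ⟨π.comp φ, ?_, ?_⟩
  · intro σ
    obtain ⟨y, hy⟩ := hs σ
    have hy' : g * (y : G) * g⁻¹ ∈ centralizer ({g * t * g⁻¹} : Set G) := by
      rw [mem_centralizer_singleton_iff]
      have h1 := mem_centralizer_singleton_iff.1 y.2
      calc g * (y : G) * g⁻¹ * (g * t * g⁻¹) = g * ((y : G) * t) * g⁻¹ := by group
        _ = g * (t * (y : G)) * g⁻¹ := by rw [h1]
        _ = g * t * g⁻¹ * (g * (y : G) * g⁻¹) := by group
    refine ⟨⟨g * (y : G) * g⁻¹, hy'⟩, ?_⟩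
    rw [MonoidHom.comp_apply, ← hy]
    congr 1
    apply Subtype.ext
    show g⁻¹ * (g * (y : G) * g⁻¹) * g = (y : G)
    group
  · intro x
    rw [MonoidHom.comp_apply, hk]
    show g⁻¹ * (x : G) * g = 1 ∨ g⁻¹ * (x : G) * g = t ↔ (x : G) = 1 ∨ (x : G) = g * t * g⁻¹
    constructor
    · rintro (h1 | h1)
      · left
        calc (x : G) = g * (g⁻¹ * (x : G) * g) * g⁻¹ := by group
          _ = 1 := by rw [h1]; group
      · right
        calc (x : G) = g * (g⁻¹ * (x : G) * g) * g⁻¹ := by group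
          _ = g * t * g⁻¹ := by rw [h1]
    · rintro (h1 | h1)
      · left; rw [h1]; group
      · right; rw [h1]; group

theorem p1 : (swap 0 1 * swap 4 2 : Perm (Fin 5)) * t5 * (swap 0 1 * swap 4 2)⁻¹ = swap 1 2 := by decide +kernel

theorem p2 : (swap 0 2 * swap 4 3 : Perm (Fin 5)) * t5 * (swap 0 2 * swap 4 3)⁻¹ = swap 2 3 := by decide +kernel

/-- a 5-cycle -/
def c5 : Perm (Fin 5) := swap 0 1 * swap 1 2 * swap 2 3 * swap 3 4

theorem c5_pow : c5 ^ 5 = 1 := by decide +kernel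

theorem c5_ne : c5 ≠ 1 := by decide +kernel

theorem u1 {G : Type*} [Group G] [Finite G] {ψ : PP →* G} {n : G} (h : UD ψ n)
    (hd : (∀ g : G, g * ψ (1, t5) = ψ (1, t5) * g → g ∈ normalizer (DD ψ : Set G)) ∨ S6 (ψ (1, t5)))
    (hN : Nat.card (normalizer (DD ψ : Set G)) = 144) :
    S6 (ψ (1, t5)) ∧ S6 (ψ (swap 0 1, 1)) ∧ S6 (ψ (1, swap 2 3)) := by
  have e1 : ψ (1, swap 0 1 * swap 4 2) * ψ (1, t5) * (ψ (1, swap 0 1 * swap 4 2))⁻¹ = ψ (1, swap 1 2) := by
    rw [← map_inv, ← map_mul, ← map_mul]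
    congr 1
    exact Prod.ext (by simp) p1
  have e2 : ψ (1, swap 0 2 * swap 4 3) * ψ (1, t5) * (ψ (1, swap 0 2 * swap 4 3))⁻¹ = ψ (1, swap 2 3) := by
    rw [← map_inv, ← map_mul, ← map_mul]
    congr 1
    exact Prod.ext (by simp) p2
  have e3 : (n * ψ (1, swap 0 1 * swap 4 2)) * ψ (1, t5) * (n * ψ (1, swap 0 1 * swap 4 2))⁻¹ =
      ψ (swap 0 1, 1) := by
    rw [← h.n3, ← e1]; group
  have h6 : S6 (ψ (1, t5)) := by
    rcases hd with hd | hd
    · exfalso
      have hc : ψ (1, c5) * ψ (swap 0 1, 1) = ψ (swap 0 1, 1) * ψ (1, c5) := by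
        rw [← map_mul, ← map_mul]
        rw [Prod.mk_mul_mk, Prod.mk_mul_mk, one_mul, one_mul, mul_one, mul_one]
      generalize n * ψ (1, swap 0 1 * swap 4 2) = k at e3
      have hy : (k⁻¹ * ψ (1, c5) * k) * ψ (1, t5) = ψ (1, t5) * (k⁻¹ * ψ (1, c5) * k) := by
        calc (k⁻¹ * ψ (1, c5) * k) * ψ (1, t5) = k⁻¹ * (ψ (1, c5) * (k * ψ (1, t5) * k⁻¹)) * k := by group
          _ = k⁻¹ * ((k * ψ (1, t5) * k⁻¹) * ψ (1, c5)) * k := by rw [e3, hc]
          _ = ψ (1, t5) * (k⁻¹ * ψ (1, c5) * k) := by group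
      have hm := hd _ hy
      have ho : orderOf (k⁻¹ * ψ (1, c5) * k) = 5 := by
        haveI : Fact (Nat.Prime 5) := ⟨by norm_num⟩
        apply orderOf_eq_prime
        · have h1 : (k⁻¹ * ψ (1, c5) * k) ^ 5 = k⁻¹ * (ψ (1, c5)) ^ 5 * k := by
            simp only [pow_succ, pow_zero, one_mul]; group
          rw [h1, ← map_pow]
          have h2 : ((1 : Perm (Fin 3)), c5) ^ 5 = 1 := Prod.ext (by simp) c5_pow
          rw [h2, map_one]; group
        · intro h1
          have h2 : ψ (1, c5) = 1 := by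
            calc ψ (1, c5) = k * (k⁻¹ * ψ (1, c5) * k) * k⁻¹ := by group
              _ = 1 := by rw [h1]; group
          have h3 : ((1 : Perm (Fin 3)), c5) = 1 := h.inj (by rw [h2, map_one])
          exact c5_ne (congrArg Prod.snd h3)
      have h4 := (normalizer (DD ψ : Set G)).orderOf_dvd_natCard hm
      rw [ho, hN] at h4
      revert h4; decide
    · exact hd
  refine ⟨h6, ?_, ?_⟩
  · rw [← e3]; exact S6.conj h6 _
  · rw [← e2]; exact S6.conj h6 _

end H41.RU1
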