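import Mathlib

/-! The isometry group of an alternating form as a subgroup of `V ≃ₗ[F] V`, with the elements
`e v w c : x ↦ x + B x v • w + B x w • v + (c * B x v) • v` for `B w v = 0`. -/

set_option autoImplicit false

namespace H41.SpA

open Module

variable {F V : Type*} [Field F] [AddCommGroup V] [Module F V]

/-- the isometry group of a bilinear form -/
def Sp (B : LinearMap.BilinForm F V) : Subgroup (V ≃ₗ[F] V) where
  carrier := {g | ∀ x y, B (g x) (g y) = B x y}
  mul_mem' := by
    intro g h hg hh x y
    rw [LinearEquiv.mul_apply, LinearEquiv.mul_apply, hg, hh]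
  one_mem' := fun x y => rfl
  inv_mem' := by
    intro g hg x y
    have h := hg (g⁻¹ x) (g⁻¹ y)
    have e : ∀ z, g (g⁻¹ z) = z := fun z => g.apply_symm_apply z
    rw [e, e] at h
    exact h.symm

variable {B : LinearMap.BilinForm F V}

theorem smul_def (g : Sp B) (x : V) : g • x = g.1 x := rfl

theorem iso (g : Sp B) (x y : V) : B (g • x) (g • y) = B x y := g.2 x y

theorem iso_left (g : Sp B) (x y : V) : B (g • x) y = B x (g⁻¹ • y) := by
  rw [← iso g x (g⁻¹ • y), smul_inv_smul]

theorem iso_right (g : Sp B) (x y : V) : B x (g • y) = B (g⁻¹ • x) y := by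
  rw [← iso g (g⁻¹ • x) y, smul_inv_smul]

theorem ext_smul {g h : Sp B} (e : ∀ x : V, g • x = h • x) : g = h :=
  Subtype.ext (LinearEquiv.ext e)

theorem smul_comm' (g : Sp B) (c : F) (x : V) : g • (c • x) = c • (g • x) := g.1.map_smul c x

theorem smul_eq_zero_iff' (g : Sp B) (x : V) : g • x = 0 ↔ x = 0 := smul_eq_zero_iff_eq g

theorem finite_Sp [Finite V] : Finite (Sp B) := by
  have h : Function.Injective (fun (g : Sp B) (x : V) => g • x) := fun g h e => ext_smul (fun x => congrFun e x)
  exact Finite.of_injective _ h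

/-- an isometric endomorphism gives an element of `Sp` -/
theorem exists_Sp [FiniteDimensional F V] (hnd : ∀ x, (∀ y, B x y = 0) → x = 0) (L : V →ₗ[F] V)
    (hL : ∀ x y, B (L x) (L y) = B x y) : ∃ g : Sp B, ∀ x, g • x = L x := by
  have hinj : Function.Injective L := by
    rw [← LinearMap.ker_eq_bot, LinearMap.ker_eq_bot']
    intro x hx
    apply hnd
    intro y
    rw [← hL, hx, map_zero, LinearMap.zero_apply]
  refine ⟨⟨LinearEquiv.ofInjectiveEndo L hinj, ?_⟩, ?_⟩
  · intro x y
    exact hL x y
  · intro x
    rfl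

/-- `x ↦ x + B x v • w + B x w • v + (c * B x v) • v` -/
def eL (B : LinearMap.BilinForm F V) (v w : V) (c : F) : V →ₗ[F] V where
  toFun x := x + B x v • w + B x w • v + (c * B x v) • v
  map_add' x y := by
    simp only [map_add, LinearMap.add_apply]
    module
  map_smul' r x := by
    simp only [map_smul, LinearMap.smul_apply, smul_eq_mul, RingHom.id_apply]
    module

theorem eL_apply (v w : V) (c : F) (x : V) : eL B v w c x = x + B x v • w + B x w • v + (c * B x v) • v := rfl

theorem swap (halt : ∀ x, B x x = 0) (x y : V) : B x y = - B y x := by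
  have h := halt (x + y)
  rw [map_add, map_add, LinearMap.add_apply, LinearMap.add_apply, halt, halt, zero_add, add_zero] at h
  rw [add_comm] at h
  exact eq_neg_of_add_eq_zero_left h

theorem eL_iso (halt : ∀ x, B x x = 0) {v w : V} (c : F) (hw : B w v = 0) (x y : V) :
    B (eL B v w c x) (eL B v w c y) = B x y := by
  have hw' : B v w = 0 := by rw [swap halt, hw, neg_zero]
  simp only [eL_apply, map_add, map_smul, LinearMap.add_apply, LinearMap.smul_apply, smul_eq_mul, hw, hw', halt]
  rw [swap halt w y, swap halt v y]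
  ring

open Classical in
/-- the element `e v w c` -/
noncomputable def e (B : LinearMap.BilinForm F V) (v w : V) (c : F) : Sp B :=
  if h : ∃ g : Sp B, ∀ x, g • x = eL B v w c x then h.choose else 1

structure Good (B : LinearMap.BilinForm F V) : Prop where
  fin : FiniteDimensional F V
  alt : ∀ x, B x x = 0
  nd : ∀ x, (∀ y, B x y = 0) → x = 0

theorem e_smul (hB : Good B) {v w : V} (hw : B w v = 0) (c : F) (x : V) :
    e B v w c • x = x + B x v • w + B x w • v + (c * B x v) • v := by
  have := hB.fin
  have h : ∃ g : Sp B, ∀ x, g • x = eL B v w c x := exists_Sp hB.nd _ (eL_iso hB.alt c hw)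
  rw [e, dif_pos h]
  exact h.choose_spec x

theorem Good.swap' (hB : Good B) (x y : V) : B x y = - B y x := SpA.swap hB.alt x y

theorem Good.symm0 (hB : Good B) {x y : V} (h : B x y = 0) : B y x = 0 := by rw [hB.swap', h, neg_zero]

theorem e_mul (hB : Good B) {v w w' : V} (hw : B w v = 0) (hw' : B w' v = 0) (c c' : F) :
    e B v w c * e B v w' c' = e B v (w + w') (c + c' + B w' w) := by
  apply ext_smul
  intro x
  have h0 : B (w + w') v = 0 := by rw [map_add, LinearMap.add_apply, hw, hw', add_zero]
  have hw2 : B v w = 0 := hB.symm0 hw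
  rw [mul_smul, e_smul hB hw', e_smul hB hw, e_smul hB h0]
  simp only [map_add, map_smul, LinearMap.add_apply, LinearMap.smul_apply, smul_eq_mul, hw', hw2, hB.alt]
  module

theorem e_zero (hB : Good B) (v : V) : e B v 0 0 = 1 := by
  apply ext_smul
  intro x
  rw [e_smul hB (by rw [map_zero, LinearMap.zero_apply]), one_smul]
  simp

theorem e_fix (hB : Good B) {v w : V} (hw : B w v = 0) (c : F) : e B v w c • v = v := by
  rw [e_smul hB hw, hB.alt, hB.symm0 hw]
  simp

theorem conj_e (hB : Good B) (g : Sp B) {v w : V} (hw : B w v = 0) (c : F) :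
    g * e B v w c * g⁻¹ = e B (g • v) (g • w) c := by
  apply ext_smul
  intro x
  rw [mul_smul, mul_smul, e_smul hB hw, e_smul hB (by rw [iso, hw]), smul_add, smul_add, smul_add, smul_inv_smul,
    smul_comm', smul_comm', smul_comm', iso_right, iso_right]

end H41.SpA
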