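import Cfsg.Agent.Lib.H41.SpA
import Cfsg.Agent.Lib.H16.Symp

/-! `Matrix.symplecticGroup (Fin m) F` as the isometry group `Sp (sympBilin m F)`. -/

set_option autoImplicit false

namespace H41.SpMatEquiv

open Matrix H41.SpA H16.Symp

variable (m : ℕ) (F : Type*) [Field F]

theorem good : Good (sympBilin m F) where
  fin := inferInstance
  alt := sympForm_self
  nd := fun _ h => eq_zero_of_forall_sympForm_right h

variable {m F}

theorem mul_inv' (A : symplecticGroup (Fin m) F) : A.1 * (A⁻¹ : symplecticGroup (Fin m) F).1 = 1 :=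
  congrArg Subtype.val (mul_inv_cancel A)

theorem inv_mul' (A : symplecticGroup (Fin m) F) : (A⁻¹ : symplecticGroup (Fin m) F).1 * A.1 = 1 :=
  congrArg Subtype.val (inv_mul_cancel A)

/-- the linear equivalence of a symplectic matrix -/
def toLE (A : symplecticGroup (Fin m) F) : (Fin m ⊕ Fin m → F) ≃ₗ[F] (Fin m ⊕ Fin m → F) where
  toFun x := A.1 *ᵥ x
  invFun x := (A⁻¹ : symplecticGroup (Fin m) F).1 *ᵥ x
  map_add' x y := mulVec_add _ _ _
  map_smul' c x := mulVec_smul _ _ _
  left_inv x := by
    change (A⁻¹ : symplecticGroup (Fin m) F).1 *ᵥ (A.1 *ᵥ x) = x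
    rw [mulVec_mulVec, inv_mul', one_mulVec]
  right_inv x := by
    change A.1 *ᵥ ((A⁻¹ : symplecticGroup (Fin m) F).1 *ᵥ x) = x
    rw [mulVec_mulVec, mul_inv', one_mulVec]

theorem toLE_apply (A : symplecticGroup (Fin m) F) (x : Fin m ⊕ Fin m → F) : toLE A x = A.1 *ᵥ x := rfl

variable (m F)

/-- the hom to the isometry group -/
noncomputable def hom : symplecticGroup (Fin m) F →* Sp (sympBilin m F) where
  toFun A := ⟨toLE A, (mem_symplecticGroup_iff A.1).mp A.2⟩
  map_one' := by
    apply ext_smul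
    intro x
    change toLE (1 : symplecticGroup (Fin m) F) x = x
    rw [toLE_apply]
    change (1 : Matrix _ _ F) *ᵥ x = x
    rw [one_mulVec]
  map_mul' A A' := by
    apply ext_smul
    intro x
    change toLE (A * A') x = toLE A (toLE A' x)
    rw [toLE_apply, toLE_apply, toLE_apply, mulVec_mulVec]
    rfl

theorem hom_smul (A : symplecticGroup (Fin m) F) (x : Fin m ⊕ Fin m → F) : hom m F A • x = A.1 *ᵥ x := rfl

theorem hom_bijective : Function.Bijective (hom m F) := by
  constructor
  · intro A A' h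
    apply Subtype.ext
    apply mulVec_ext
    intro x
    rw [← hom_smul, ← hom_smul, h]
  · intro g
    have hM : LinearMap.toMatrix' (g.1 : (Fin m ⊕ Fin m → F) →ₗ[F] _) ∈ symplecticGroup (Fin m) F := by
      rw [mem_symplecticGroup_iff]
      intro u v
      rw [← Matrix.toLin'_apply, ← Matrix.toLin'_apply, Matrix.toLin'_toMatrix']
      exact g.2 u v
    refine ⟨⟨_, hM⟩, ?_⟩
    apply ext_smul
    intro x
    rw [hom_smul]
    change LinearMap.toMatrix' (g.1 : (Fin m ⊕ Fin m → F) →ₗ[F] _) *ᵥ x = g.1 x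
    rw [← Matrix.toLin'_apply, Matrix.toLin'_toMatrix']
    rfl

/-- symplectic matrices = isometries -/
noncomputable def equiv : symplecticGroup (Fin m) F ≃* Sp (sympBilin m F) :=
  MulEquiv.ofBijective (hom m F) (hom_bijective m F)

end H41.SpMatEquiv
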