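import Cfsg.Agent.Lib.H41.Td9
import Cfsg.Agent.Lib.H22.ChevField

/-!
Subgroups of `³D₄(q)` containing the group of fixed points of a field automorphism: calculations.
-/

set_option autoImplicit false
set_option linter.unusedSectionVars false

namespace H41.Te1

open H22.ChevRel H22.ChevSys H22.ChevStd H22.RCCheck H22.Coord H41.Td6 H41.Td7 H41.Td8 H41.Td1
open Cfsg.Lie (ChevalleyDatum)
open scoped MatrixGroups Matrix

local notation "D4" => Cfsg.Lie.chevD4

variable {K : Type*} [Field K] (φ : K →+* K)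

theorem okW : oks 12 19 20 1 1 = true ∧ oks 13 20 22 1 1 = true ∧ oks 18 17 22 (-1) (-1) = true ∧
    oks 12 16 17 1 1 = true ∧ oks 13 15 17 1 1 = true ∧ oks 18 15 20 (-1) (-1) = true ∧
    oks 12 14 15 1 1 = true ∧ oks 13 14 16 1 1 = true ∧ oks 18 16 21 (-1) (-1) = true := by decide +kernel

theorem nG_W (t : K) : nG K * eW φ t * (nG K)⁻¹ = eU φ (-t) := by
  obtain ⟨o1, o2, o3, o4, o5, o6, o7, o8, o9⟩ := okW
  have e1 : nG K * x 19 t * (nG K)⁻¹ = x 17 t := by
    rw [nG_conj, nr_up o1, nr_up o2, nr_down o3]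
    congr 1; push_cast; ring
  have e2 : nG K * x 16 (-φ t) * (nG K)⁻¹ = x 20 (-φ t) := by
    rw [nG_conj, nr_up o4, nr_down o5, nr_up o6]
    congr 1; push_cast; ring
  have e3 : nG K * x 15 (-φ (φ t)) * (nG K)⁻¹ = x 21 (-φ (φ t)) := by
    rw [nG_conj, nr_down o7, nr_up o8, nr_up o9]
    congr 1; push_cast; ring
  unfold eW eU
  rw [conj_mul' (nG K) (x 19 t * _), conj_mul' (nG K) (x 19 t), e1, e2, e3]
  simp only [map_neg, neg_neg]

theorem eM_add (s t : K) : eM φ (s + t) = eM φ s * eM φ t := by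
  have h := nG_G φ (-(s + t))
  rw [neg_neg, show -(s + t) = -s + -t by ring, eG_add, conj_mul', nG_G, nG_G, neg_neg, neg_neg] at h
  exact h.symm

theorem eU_zero : eU φ (0 : K) = 1 := by
  unfold eU; simp only [map_zero, neg_zero, x_zero', mul_one]
theorem eW_zero : eW φ (0 : K) = 1 := by
  unfold eW; simp only [map_zero, neg_zero, x_zero', mul_one]
theorem eG_zero : eG φ (0 : K) = 1 := by
  unfold eG; simp only [map_zero, x_zero', mul_one]

theorem eG_inv (t : K) : (eG φ t)⁻¹ = eG φ (-t) := by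
  rw [inv_eq_iff_mul_eq_one, ← eG_add, add_neg_cancel, eG_zero]
theorem eU_inv (t : K) : (eU φ t)⁻¹ = eU φ (-t) := by
  rw [inv_eq_iff_mul_eq_one, ← eU_add, add_neg_cancel, eU_zero]
theorem eW_inv (t : K) : (eW φ t)⁻¹ = eW φ (-t) := by
  rw [inv_eq_iff_mul_eq_one, ← eW_add, add_neg_cancel, eW_zero]

/-- the commutator of the lowest long root groups -/
theorem c23_1 (t u : K) : x 23 t * x 1 u * (x 23 t)⁻¹ = x 1 u * x 14 (t * u) := by
  have h : okd 23 1 14 1 = true := by decide +kernel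
  have h := of_decide_eq_true h
  have := cj1 (H22.TwD4.RR K) h.1 h.2.1 h.2.2.1 h.2.2.2.1 h.2.2.2.2 t u
  rw [Int.cast_one, one_mul] at this
  exact this

/-- the field automorphism -/
noncomputable def ph : GL (D4).Idx K →* GL (D4).Idx K := Matrix.GeneralLinearGroup.map φ

theorem ph_x (r : ℕ) (t : K) : ph φ (x r t) = x r (φ t) := Units.ext (H22.ChevField.x_map φ r t)

theorem ph_eG (t : K) : ph φ (eG φ t) = eG φ (φ t) := by
  unfold eG; simp only [map_mul, ph_x]
theorem ph_eM (t : K) : ph φ (eM φ t) = eM φ (φ t) := by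
  unfold eM; simp only [map_mul, ph_x]
theorem ph_eW (t : K) : ph φ (eW φ t) = eW φ (φ t) := by
  unfold eW; simp only [map_mul, ph_x, map_neg]
theorem ph_eU (t : K) : ph φ (eU φ t) = eU φ (φ t) := by
  unfold eU; simp only [map_mul, ph_x, map_neg]
theorem ph_nr (r : ℕ) : ph φ (nr K r) = nr K r := by
  unfold nr; simp only [map_mul, ph_x, map_one, map_neg]
theorem ph_nG : ph φ (nG K) = nG K := by
  unfold nG; simp only [map_mul, ph_nr]

/-- three elements spanning the field -/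
theorem span3 (h3 : ∀ t : K, φ (φ (φ t)) = t) [Finite K] {q : ℕ} (hK : Nat.card K = q ^ 3)
    (hF : Nat.card (Fx φ) = q) {t : K} (ht : φ t ≠ t) (w : K) :
    ∃ a b c : Fx φ, w = a + b * t + c * (φ t * φ (φ t)) := by
  let f : (Fx φ × Fx φ × Fx φ) →+ K :=
    { toFun := fun p => p.1 + p.2.1 * t + p.2.2 * (φ t * φ (φ t))
      map_zero' := by simp
      map_add' := by
        rintro ⟨a, b, c⟩ ⟨a', b', c'⟩
        simp only [Prod.fst_add, Prod.snd_add, Subfield.coe_add]
        ring }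
  have hinj : Function.Injective f := by
    rw [injective_iff_map_eq_zero]
    rintro ⟨a, b, c⟩ h
    have h : (a : K) + b * t + c * (φ t * φ (φ t)) = 0 := h
    have ha : φ (a : K) = a := a.2
    have hb : φ (b : K) = b := b.2
    have hc : φ (c : K) = c := c.2
    have h1 : (a : K) + b * φ t + c * (φ (φ t) * t) = 0 := by
      have := congrArg φ h
      simp only [map_add, map_mul, map_zero, ha, hb, hc, h3] at this
      exact this
    have h2 : (a : K) + b * φ (φ t) + c * (t * φ t) = 0 := by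
      have := congrArg φ h1
      simp only [map_add, map_mul, map_zero, ha, hb, hc, h3] at this
      exact this
    have n1 : t - φ t ≠ 0 := sub_ne_zero.2 (Ne.symm ht)
    have n2 : φ t - φ (φ t) ≠ 0 := by
      intro h
      have := congrArg φ (congrArg φ (sub_eq_zero.1 h))
      rw [h3] at this
      exact ht this.symm
    have n3 : φ (φ t) - t ≠ 0 := by
      intro h
      have := congrArg φ (sub_eq_zero.1 h)
      rw [h3] at this
      exact ht this.symm
    -- differences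
    have g1 : (b : K) - c * φ (φ t) = 0 := by
      have : (t - φ t) * ((b : K) - c * φ (φ t)) = 0 := by linear_combination h - h1
      exact (mul_eq_zero.1 this).resolve_left n1
    have g2 : (b : K) - c * t = 0 := by
      have : (φ t - φ (φ t)) * ((b : K) - c * t) = 0 := by linear_combination h1 - h2
      exact (mul_eq_zero.1 this).resolve_left n2
    have g3 : (c : K) = 0 := by
      have : (φ (φ t) - t) * (c : K) = 0 := by linear_combination g2 - g1
      exact (mul_eq_zero.1 this).resolve_left n3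
    have g4 : (b : K) = 0 := by rw [g3, zero_mul, sub_zero] at g2; exact g2
    have g5 : (a : K) = 0 := by rw [g3, g4, zero_mul, zero_mul, add_zero, add_zero] at h; exact h
    rw [Prod.mk_eq_zero, Prod.mk_eq_zero]
    exact ⟨Subtype.ext g5, Subtype.ext g4, Subtype.ext g3⟩
  have hfin : Finite (Fx φ) := Subtype.finite
  have hcard : Nat.card (Fx φ × Fx φ × Fx φ) = Nat.card K := by
    rw [Nat.card_prod, Nat.card_prod, hF, hK]; ring
  have hbij := (Nat.bijective_iff_injective_and_card f).2 ⟨hinj, hcard⟩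
  obtain ⟨⟨a, b, c⟩, h⟩ := hbij.2 w
  exact ⟨a, b, c, h.symm⟩

variable {φ} {q : ℕ}

/-- the elements needed from a subgroup -/
structure Has (φ : K →+* K) (Y : Subgroup (GL (D4).Idx K)) : Prop where
  B : ∀ a, φ a = a → x 14 a ∈ Y
  N : ∀ a, φ a = a → x 9 a ∈ Y
  A : ∀ a, φ a = a → x 22 a ∈ Y
  R : ∀ a, φ a = a → x 23 a ∈ Y
  W : ∀ a, φ a = a → eW φ a ∈ Y
  U : ∀ a, φ a = a → eU φ a ∈ Y
  Mm : ∀ a, φ a = a → eM φ a ∈ Y
  nB : nr K 14 ∈ Y
  nG : nG K ∈ Y

theorem conj_iff {G : Type*} [Group G] {Y : Subgroup G} {n y : G} (hn : n ∈ Y) : n * y * n⁻¹ ∈ Y ↔ y ∈ Y := by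
  rw [Subgroup.mul_mem_cancel_right _ (inv_mem hn), Subgroup.mul_mem_cancel_left _ hn]

theorem tr_fix (h3 : ∀ t : K, φ (φ (φ t)) = t) (t : K) : φ (t + φ t + φ (φ t)) = t + φ t + φ (φ t) := by
  simp only [map_add, h3]; ring

theorem nm_fix (h3 : ∀ t : K, φ (φ (φ t)) = t) (t : K) : φ (t * φ t * φ (φ t)) = t * φ t * φ (φ t) := by
  simp only [map_mul, h3]; ring

/-- the Heisenberg part of the conjugate -/
theorem part (h3 : ∀ t : K, φ (φ (φ t)) = t) {Y : Subgroup (GL (D4).Idx K)} (h : Has φ Y) {t a : K}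
    (ha : φ a = a) (hy : eM φ t * x 22 a * (eM φ t)⁻¹ ∈ Y) :
    eW φ (a * (φ t * φ (φ t))) * eU φ (a * t) ∈ Y := by
  rw [conjM φ h3 t a ha] at hy
  have hn := nm_fix h3 t
  have m1 : x 14 (-1 * (a * (t * φ t * φ (φ t)))) ∈ Y := h.B _ (by simp only [map_mul, map_neg, map_one, h3, ha]; ring)
  have m2 : x 23 (-1 * (a * a * (t * φ t * φ (φ t)))) ∈ Y := h.R _ (by simp only [map_mul, map_neg, map_one, h3, ha]; ring)
  have m3 := (Subgroup.mul_mem_cancel_right _ m2).1 hy
  have m4 := (Subgroup.mul_mem_cancel_right _ (h.A a ha)).1 m3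
  rw [mul_assoc] at m4
  exact (Subgroup.mul_mem_cancel_left _ m1).1 m4

/-- a subgroup containing a conjugate of the root group of `α` -/
theorem lemT (hφ : ∀ t, φ t = t ^ q) (h3 : ∀ t : K, φ (φ (φ t)) = t) [Finite K] (hK : Nat.card K = q ^ 3)
    (hF : Nat.card (Fx φ) = q) {Y : Subgroup (GL (D4).Idx K)} (h : Has φ Y) {t : K} (ht : φ t ≠ t)
    (hy : ∀ a, φ a = a → eM φ t * x 22 a * (eM φ t)⁻¹ ∈ Y) : Cfsg.Lie.twistedD4 K q ≤ Y := by
  -- `eW (s t) ∈ Y`
  have p0 := part h3 h (map_one φ) (hy 1 (map_one φ))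
  rw [one_mul, one_mul] at p0
  have w1 : ∀ s, φ s = s → eW φ (s * t) ∈ Y := by
    intro s hs
    have hy' : eM φ (s + t) * x 22 1 * (eM φ (s + t))⁻¹ ∈ Y := by
      have e : eM φ (s + t) * x 22 1 * (eM φ (s + t))⁻¹ =
          eM φ s * (eM φ t * x 22 1 * (eM φ t)⁻¹) * (eM φ s)⁻¹ := by
        rw [eM_add]; simp only [mul_assoc, mul_inv_rev]
      rw [e]
      exact (conj_iff (h.Mm s hs)).2 (hy 1 (map_one φ))
    have p1 := part h3 h (map_one φ) hy'
    rw [one_mul, one_mul] at p1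
    have e1 : φ (s + t) * φ (φ (s + t)) = (s * s + s * (t + φ t + φ (φ t))) + (-(s * t)) + φ t * φ (φ t) := by
      simp only [map_add, hs]; ring
    rw [e1, eW_add, eW_add, eU_add, mul_assoc, mul_assoc] at p1
    have hm : eW φ (s * s + s * (t + φ t + φ (φ t))) ∈ Y :=
      h.W _ (by rw [map_add, map_mul, map_mul, hs, tr_fix h3])
    have p2 := (Subgroup.mul_mem_cancel_left _ hm).1 p1
    -- `eW (-(s t)) * (eW (φtφφt) * (eU s * eU t)) ∈ Y`
    have hc := cUW φ (-s) (-(φ t * φ (φ t)))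
    have hfx : ∀ v : K, φ (-1 * (v + φ v + φ (φ v))) = -1 * (v + φ v + φ (φ v)) := by
      intro v; simp only [map_mul, map_neg, map_one, map_add, h3]; ring
    have hz := h.R _ (hfx (-s * -(φ t * φ (φ t))))
    have e2 : eW φ (φ t * φ (φ t)) * (eU φ s * eU φ t) =
        eU φ s * (x 23 (-1 * (-s * -(φ t * φ (φ t)) + φ (-s * -(φ t * φ (φ t))) +
          φ (φ (-s * -(φ t * φ (φ t)))))))⁻¹ * (eW φ (φ t * φ (φ t)) * eU φ t) := by
      have h4 : eW φ (φ t * φ (φ t)) * eU φ s = eU φ s * (x 23 (-1 * (-s * -(φ t * φ (φ t)) + φ (-s * -(φ t * φ (φ t))) +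
          φ (φ (-s * -(φ t * φ (φ t)))))))⁻¹ * eW φ (φ t * φ (φ t)) := by
        rw [← eU_inv, ← eW_inv] at hc
        set u := eU φ s
        set w := eW φ (φ t * φ (φ t))
        set z := x 23 (-1 * (-s * -(φ t * φ (φ t)) + φ (-s * -(φ t * φ (φ t))) +
          φ (φ (-s * -(φ t * φ (φ t))))))
        have h5 : z = (w⁻¹ * u⁻¹)⁻¹ * (u⁻¹ * w⁻¹) := by rw [hc]; group
        have h6 : z⁻¹ = w * (u * (w⁻¹ * u⁻¹)) := by rw [h5]; group
        have h7 : z⁻¹ * w = w * z⁻¹ := by
          have := cRW φ (-1 * (-s * -(φ t * φ (φ t)) + φ (-s * -(φ t * φ (φ t))) +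
            φ (φ (-s * -(φ t * φ (φ t)))))) (φ t * φ (φ t))
          have h8 : Commute z w := this
          exact h8.inv_left.eq
        have h9 : z⁻¹ * u = u * z⁻¹ := by
          have := cRU φ (-1 * (-s * -(φ t * φ (φ t)) + φ (-s * -(φ t * φ (φ t))) +
            φ (φ (-s * -(φ t * φ (φ t)))))) s
          have h8 : Commute z u := this
          exact h8.inv_left.eq
        rw [← h9, mul_assoc]
        -- goal: `w * u = z⁻¹ * (u * w)`
        rw [h6]; group
      rw [← mul_assoc, h4, mul_assoc]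
    rw [e2] at p2
    have m5 : eU φ s * (x 23 (-1 * (-s * -(φ t * φ (φ t)) + φ (-s * -(φ t * φ (φ t))) +
          φ (φ (-s * -(φ t * φ (φ t)))))))⁻¹ * (eW φ (φ t * φ (φ t)) * eU φ t) ∈ Y :=
      mul_mem (mul_mem (h.U s hs) (inv_mem hz)) p0
    have p3 := (Subgroup.mul_mem_cancel_right _ m5).1 p2
    rw [← eW_inv] at p3
    exact (Subgroup.inv_mem_iff _).1 p3
  have w2 : ∀ s, φ s = s → eW φ (s * (φ t * φ (φ t))) ∈ Y := by
    intro s hs
    have p1 := part h3 h hs (hy s hs)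
    have p2 : eU φ (s * t) ∈ Y := by
      have := (conj_iff (y := eW φ (-s * t)) h.nG).2 (w1 (-s) (by rw [map_neg, hs]))
      rw [nG_W] at this
      rwa [show -(-s * t) = s * t by ring] at this
    exact (Subgroup.mul_mem_cancel_right _ p2).1 p1
  have w3 : ∀ w, eW φ w ∈ Y := by
    intro w
    obtain ⟨a, b, c, rfl⟩ := span3 φ h3 hK hF ht w
    rw [eW_add, eW_add]
    exact mul_mem (mul_mem (h.W _ a.2) (w1 _ b.2)) (w2 _ c.2)
  have g1 : ∀ w, eG φ w ∈ Y := by
    intro w
    have := w3 w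
    rw [← nB_G] at this
    exact (conj_iff h.nB).1 this
  have g2 : ∀ w, eM φ w ∈ Y := by
    intro w
    have := (conj_iff h.nG).2 (g1 (-w))
    rwa [nG_G, neg_neg] at this
  intro g hg
  have := H41.Td9.gen_aux φ hφ (Y.subgroupOf (Cfsg.Lie.twistedD4 K q))
    (fun a ha hm => Subgroup.mem_subgroupOf.2 (h.B a ha)) (fun a ha hm => Subgroup.mem_subgroupOf.2 (h.N a ha))
    (fun a hm => Subgroup.mem_subgroupOf.2 (g1 a)) (fun a hm => Subgroup.mem_subgroupOf.2 (g2 a)) g hg
  exact Subgroup.mem_subgroupOf.1 this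

end H41.Te1
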