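import Cfsg.Agent.Lib.H41.Te1

/-!
The root subgroups of `³D₄(q)`.
-/

set_option autoImplicit false
set_option linter.unusedSectionVars false
set_option linter.unusedVariables false

namespace H41.Te2

open H22.RGD H22.Coord H22.RCCheck H22.RCComb H22.ChevTri H22.ChevRel H22.ChevSys H22.ChevMain
open H22.ChevStd H22.ChevSolv H22.ChevUni H22.St H22.TwChev H22.TwSt H22.RCPack H22.TwTab H22.TwX
open H22.TwDat H22.TwAut H22.ChevTorus H22.TwThm H22.TwPerf H22.TwMisc H22.TwD4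
open H41.Td6 H41.Td7 H41.Td8 H41.Td1 H41.Te1
open Cfsg.Lie (ChevalleyDatum)
open scoped MatrixGroups Matrix

local notation "D4" => Cfsg.Lie.chevD4
local notation "X4" => H22.PoinD4.rcxD4
local notation "G2X" => H22.PoinG2.rcxG2
local notation "Z4" => H22.ChevLex.lexD4
local notation "W4" => H22.TwD4.certD4'
local notation "C2" => comb G2X

/-- multiplicativity -/
theorem hm (K : Type*) [Field K] : ∀ r < (D4).nroots, ∀ c d : K, c ≠ 0 → d ≠ 0 →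
    (D4).hMat K r c * (D4).hMat K r d = (D4).hMat K r (c * d) := H22.St.hmul_all _ H22.TwD4.memD4

variable {K : Type*} [Field K] [Finite K] (φ : K →+* K) (hφ : Function.Surjective φ)

/-- the system of root subgroups -/
noncomputable abbrev S : Sys (GL (D4).Idx K) C2 := H22.TwD4.SM (H22.TwD4.RR K) (hm K) φ hφ

/-- the classes -/
noncomputable abbrev X1' (c : Fin 12) : Subgroup ↥((D4).group K) :=
  X1 ((St (RR K) (hm K)).stSys X4 Z4 W4) (A (RR K) (hm K) φ hφ).σ (E (RR K) (hm K) φ hφ).clF c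

theorem mX {c : Fin 12} {g : GL (D4).Idx K} : g ∈ (S φ hφ).X c ↔ ∃ g' ∈ X1' φ hφ c, (g' : GL (D4).Idx K) = g :=
  Subgroup.mem_map

theorem xb_val (r : ℕ) (t : K) : (((St (RR K) (hm K)).xb r t : ↥((D4).group K)) : GL (D4).Idx K) = x r t := rfl

theorem mX_long {c : Fin 12} {r : ℕ} (hb : ttD4.bk.getD c [] = [r]) (h1 : (A (RR K) (hm K) φ hφ).ρ r = r)
    (h2 : (A (RR K) (hm K) φ hφ).ε r = 1) (h3 : ∀ t, (A (RR K) (hm K) φ hφ).φ r t = φ t) {g : GL (D4).Idx K} :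
    g ∈ (S φ hφ).X c ↔ ∃ t, φ t = t ∧ g = x r t := by
  rw [mX]
  have h : ∀ g', g' ∈ X1' φ hφ c ↔ _ := fun g' => X1_single Z4 W4 (E := E (RR K) (hm K) φ hφ) (c := c)
    (ord_single Z4 W4 (r := r) hb) hb h1 h2 (g := g')
  constructor
  · rintro ⟨g', hg', rfl⟩
    obtain ⟨t, ht, rfl⟩ := (h g').1 hg'
    exact ⟨t, by rw [← h3]; exact ht, rfl⟩
  · rintro ⟨t, ht, rfl⟩
    exact ⟨(St (RR K) (hm K)).xb r t, (h _).2 ⟨t, by rw [h3]; exact ht, rfl⟩, rfl⟩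

theorem X11 {g : GL (D4).Idx K} : g ∈ (S φ hφ).X (11 : Fin 12) ↔ ∃ t, φ t = t ∧ g = x 23 t :=
  mX_long φ hφ (c := 11) (r := 23) rfl rfl (Int.cast_one (R := K)) (fun _ => rfl)
theorem X10 {g : GL (D4).Idx K} : g ∈ (S φ hφ).X (10 : Fin 12) ↔ ∃ t, φ t = t ∧ g = x 22 t :=
  mX_long φ hφ (c := 10) (r := 22) rfl rfl (Int.cast_one (R := K)) (fun _ => rfl)
theorem X6 {g : GL (D4).Idx K} : g ∈ (S φ hφ).X (6 : Fin 12) ↔ ∃ t, φ t = t ∧ g = x 14 t :=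
  mX_long φ hφ (c := 6) (r := 14) rfl rfl (Int.cast_one (R := K)) (fun _ => rfl)
theorem X5 {g : GL (D4).Idx K} : g ∈ (S φ hφ).X (5 : Fin 12) ↔ ∃ t, φ t = t ∧ g = x 9 t :=
  mX_long φ hφ (c := 5) (r := 9) rfl rfl (Int.cast_one (R := K)) (fun _ => rfl)
theorem X1_ {g : GL (D4).Idx K} : g ∈ (S φ hφ).X (1 : Fin 12) ↔ ∃ t, φ t = t ∧ g = x 1 t :=
  mX_long φ hφ (c := 1) (r := 1) rfl rfl (Int.cast_one (R := K)) (fun _ => rfl)

variable (h3 : ∀ t : K, φ (φ (φ t)) = t)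

theorem xs_val (t : K) : ((xs (RR K) (hm K) φ 18 13 12 t : ↥((D4).group K)) : GL (D4).Idx K) = eG φ t := rfl
theorem xs_val' (t : K) : ((xs (RR K) (hm K) φ 5 10 11 t : ↥((D4).group K)) : GL (D4).Idx K) = eM φ t := rfl

include h3

theorem X7 {g : GL (D4).Idx K} : g ∈ (S φ hφ).X (7 : Fin 12) ↔ ∃ t, g = eG φ t := by
  rw [mX]
  have h : ∀ g', g' ∈ X1' φ hφ 7 ↔ _ := fun g' => m0 (RR K) (hm K) φ hφ (g := g')
  constructor
  · rintro ⟨g', hg', rfl⟩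
    obtain ⟨t, ht, rfl⟩ := (h g').1 hg'
    exact ⟨t, rfl⟩
  · rintro ⟨t, rfl⟩
    exact ⟨xs (RR K) (hm K) φ 18 13 12 t, (h _).2 ⟨t, h3 t, rfl⟩, rfl⟩

omit h3

theorem simple0 : (C2).simple (0 : Fin 2) = (7 : Fin 12) := rfl
theorem simple1 : (C2).simple (1 : Fin 2) = (6 : Fin 12) := rfl

theorem nb_val (r : ℕ) : (((St (RR K) (hm K)).nb r 1 : ↥((D4).group K)) : GL (D4).Idx K) = nr K r := by
  rw [(St (RR K) (hm K)).nb_def, inv_one]
  rfl

theorem n1_eq : (S φ hφ).n (1 : Fin 2) = nr K 14 := by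
  have h : (((St (RR K) (hm K)).stSys X4 Z4 W4).nw ((E (RR K) (hm K) φ hφ).wd (1 : Fin 2)) : ↥((D4).group K)) =
      (St (RR K) (hm K)).nb 14 1 := by
    have e : (E (RR K) (hm K) φ hφ).wd (1 : Fin 2) = [(1 : Fin 4)] := rfl
    rw [e]
    exact Sys.nw_singleton _ _
  have h' := congrArg (fun z : ↥((D4).group K) => (z : GL (D4).Idx K)) h
  exact h'.trans (nb_val 14)

theorem n0_eq : (S φ hφ).n (0 : Fin 2) = nG K := by
  have h : (((St (RR K) (hm K)).stSys X4 Z4 W4).nw ((E (RR K) (hm K) φ hφ).wd (0 : Fin 2)) : ↥((D4).group K)) =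
      (St (RR K) (hm K)).nb 18 1 * ((St (RR K) (hm K)).nb 13 1 * (St (RR K) (hm K)).nb 12 1) := by
    have e : (E (RR K) (hm K) φ hφ).wd (0 : Fin 2) = [(0 : Fin 4), 2, 3] := rfl
    rw [e]
    refine (Sys.nw_cons _ _ _).trans ?_
    congr 1
    refine (Sys.nw_cons _ _ _).trans ?_
    congr 1
    exact Sys.nw_singleton _ _
  have h' := congrArg (fun z : ↥((D4).group K) => (z : GL (D4).Idx K)) h
  refine h'.trans ?_
  simp only [Subgroup.coe_mul, nb_val]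
  unfold nG
  rw [mul_assoc]

/-- the action of the reflections -/
def t0 : Fin 12 → Fin 12 := ![0, 5, 3, 2, 7, 1, 10, 4, 9, 8, 6, 11]
/-- the action of the reflections -/
def t1 : Fin 12 → Fin 12 := ![1, 0, 2, 4, 3, 6, 5, 8, 7, 9, 11, 10]

theorem tab0' : ∀ c : Fin 12, Cfsg.Lie.chevG2.reflectRoot 0 c = (t0 c : ℕ) := by decide +kernel
theorem tab1' : ∀ c : Fin 12, Cfsg.Lie.chevG2.reflectRoot 1 c = (t1 c : ℕ) := by decide +kernel

theorem tab0 (c : Fin 12) : (C2).refl (0 : Fin 2) c = t0 c :=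
  Fin.ext (n := Cfsg.Lie.chevG2.nroots) (tab0' c)

theorem tab1 (c : Fin 12) : (C2).refl (1 : Fin 2) c = t1 c :=
  Fin.ext (n := Cfsg.Lie.chevG2.nroots) (tab1' c)

theorem pos_iff (c : Fin 12) : (C2).pos c ↔ 6 ≤ c.val := Iff.rfl

theorem cjB (c : Fin 12) : cj (nr K 14) ((S φ hφ).X c) = (S φ hφ).X (t1 c) := by
  have h := (S φ hφ).cj_n (1 : Fin 2) c
  rw [n1_eq] at h
  exact h.trans (congrArg (S φ hφ).X (tab1 c))

theorem cjG (c : Fin 12) : cj (nG K) ((S φ hφ).X c) = (S φ hφ).X (t0 c) := by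
  have h := (S φ hφ).cj_n (0 : Fin 2) c
  rw [n0_eq] at h
  exact h.trans (congrArg (S φ hφ).X (tab0 c))

include h3

theorem X8 {g : GL (D4).Idx K} : g ∈ (S φ hφ).X (8 : Fin 12) ↔ ∃ t, g = eW φ t := by
  have h : (S φ hφ).X (8 : Fin 12) = cj (nr K 14) ((S φ hφ).X (7 : Fin 12)) := (cjB φ hφ 7).symm
  rw [h]
  constructor
  · rintro ⟨g', hg', rfl⟩
    obtain ⟨t, rfl⟩ := (X7 φ hφ h3).1 hg'
    exact ⟨t, nB_G φ t⟩
  · rintro ⟨t, rfl⟩
    rw [← nB_G]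
    exact conj_mem_cj ((X7 φ hφ h3).2 ⟨t, rfl⟩)

theorem X9 {g : GL (D4).Idx K} : g ∈ (S φ hφ).X (9 : Fin 12) ↔ ∃ t, g = eU φ t := by
  have h : (S φ hφ).X (9 : Fin 12) = cj (nG K) ((S φ hφ).X (8 : Fin 12)) := (cjG φ hφ 8).symm
  rw [h]
  constructor
  · rintro ⟨g', hg', rfl⟩
    obtain ⟨t, rfl⟩ := (X8 φ hφ h3).1 hg'
    exact ⟨-t, nG_W φ t⟩
  · rintro ⟨t, rfl⟩
    have := nG_W φ (-t)
    rw [_root_.neg_neg] at this
    rw [← this]
    exact conj_mem_cj ((X8 φ hφ h3).2 ⟨-t, rfl⟩)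

/-- induction over the positive root groups -/
theorem pos_le {L : Subgroup (GL (D4).Idx K)} (h6 : (S φ hφ).X (6 : Fin 12) ≤ L)
    (h7 : (S φ hφ).X (7 : Fin 12) ≤ L) (h8 : (S φ hφ).X (8 : Fin 12) ≤ L)
    (h9 : (S φ hφ).X (9 : Fin 12) ≤ L) (h10 : (S φ hφ).X (10 : Fin 12) ≤ L)
    (h11 : (S φ hφ).X (11 : Fin 12) ≤ L) : (S φ hφ).U ≤ L := by
  refine (S φ hφ).U_le fun c hc => ?_
  have key : ∀ c : Fin 12, (C2).pos c → (S φ hφ).X c ≤ L := by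
    intro c hc
    rw [pos_iff] at hc
    have : c = 6 ∨ c = 7 ∨ c = 8 ∨ c = 9 ∨ c = 10 ∨ c = 11 := by
      revert c; decide
    rcases this with rfl | rfl | rfl | rfl | rfl | rfl
    · exact h6
    · exact h7
    · exact h8
    · exact h9
    · exact h10
    · exact h11
  exact key c hc

theorem Ui0_le {L : Subgroup (GL (D4).Idx K)} (h6 : (S φ hφ).X (6 : Fin 12) ≤ L)
    (h8 : (S φ hφ).X (8 : Fin 12) ≤ L) (h9 : (S φ hφ).X (9 : Fin 12) ≤ L)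
    (h10 : (S φ hφ).X (10 : Fin 12) ≤ L) (h11 : (S φ hφ).X (11 : Fin 12) ≤ L) : (S φ hφ).Ui (0 : Fin 2) ≤ L := by
  refine (S φ hφ).Ui_le fun c hc hne => ?_
  have key : ∀ c : Fin 12, (C2).pos c → c ≠ 7 → (S φ hφ).X c ≤ L := by
    intro c hc hne
    rw [pos_iff] at hc
    have : c = 6 ∨ c = 8 ∨ c = 9 ∨ c = 10 ∨ c = 11 := by
      revert c; decide
    rcases this with rfl | rfl | rfl | rfl | rfl
    · exact h6
    · exact h8
    · exact h9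
    · exact h10
    · exact h11
  exact key c hc hne

end H41.Te2
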