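import Cfsg.Agent.Lib.H41.Te2

/-!
Subgroups of `³D₄(q)` containing the fixed points: the long root groups inside them.
-/

set_option autoImplicit false
set_option linter.unusedSectionVars false
set_option linter.unusedVariables false

namespace H41.Te3

open H22.RGD H22.Coord H22.RCCheck H22.RCComb H22.ChevRel H22.ChevSys
open H41.Td6 H41.Td7 H41.Td8 H41.Td1 H41.Te1 H41.Te2
open Cfsg.Lie (ChevalleyDatum)
open scoped MatrixGroups Matrix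

local notation "D4" => Cfsg.Lie.chevD4
local notation "G2X" => H22.PoinG2.rcxG2
local notation "C2" => comb G2X

variable {K : Type*} [Field K] [Finite K] (φ : K →+* K) (hφ : Function.Surjective φ)
  (h3 : ∀ t : K, φ (φ (φ t)) = t)

omit [Finite K] in
/-- elements moving the elements of a root group by elements of the highest one -/
def P (r : ℕ) : Subgroup (GL (D4).Idx K) where
  carrier := {g | (∀ t : K, g * x 23 t * g⁻¹ = x 23 t) ∧ ∀ b : K, φ b = b → ∃ z : K, φ z = z ∧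
    g * x r b * g⁻¹ = x r b * x 23 z}
  one_mem' := ⟨fun t => by simp, fun b _ => ⟨0, map_zero φ, by simp [x_zero']⟩⟩
  mul_mem' := by
    rintro g1 g2 ⟨h1, k1⟩ ⟨h2, k2⟩
    refine ⟨fun t => ?_, fun b hb => ?_⟩
    · have e : g1 * g2 * x 23 t * (g1 * g2)⁻¹ = g1 * (g2 * x 23 t * g2⁻¹) * g1⁻¹ := by
        simp only [mul_assoc, mul_inv_rev]
      rw [e, h2, h1]
    · obtain ⟨z1, hz1, e1⟩ := k1 b hb
      obtain ⟨z2, hz2, e2⟩ := k2 b hb
      refine ⟨z1 + z2, by rw [map_add, hz1, hz2], ?_⟩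
      have e : g1 * g2 * x r b * (g1 * g2)⁻¹ = g1 * (g2 * x r b * g2⁻¹) * g1⁻¹ := by
        simp only [mul_assoc, mul_inv_rev]
      rw [e, e2, conj_mul', e1, h1, x_add, mul_assoc]
  inv_mem' := by
    rintro g ⟨h1, k1⟩
    have h1' : ∀ t : K, g⁻¹ * x 23 t * g⁻¹⁻¹ = x 23 t := by
      intro t
      rw [inv_inv, mul_assoc, inv_mul_eq_iff_eq_mul]
      exact (mul_inv_eq_iff_eq_mul.1 (h1 t)).symm
    refine ⟨h1', fun b hb => ?_⟩
    obtain ⟨z, hz, e⟩ := k1 b hb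
    refine ⟨-z, by rw [map_neg, hz], ?_⟩
    have e2 : x r b = g⁻¹ * (x r b * x 23 z) * g⁻¹⁻¹ := by rw [← e]; group
    rw [conj_mul', h1'] at e2
    rw [← x_inv, eq_mul_inv_iff_mul_eq]
    exact e2.symm

omit [Finite K] in
theorem conj_of_comm {G : Type*} [Group G] {g y : G} (h : g * y = y * g) : g * y * g⁻¹ = y := by
  rw [h, mul_inv_cancel_right]

omit [Finite K] in
theorem mem_P {r : ℕ} {g : GL (D4).Idx K} (h1 : ∀ t : K, x 23 t * g = g * x 23 t)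
    (h2 : ∀ b : K, x r b * g = g * x r b) : g ∈ P φ r :=
  ⟨fun t => conj_of_comm (h1 t).symm, fun b _ => ⟨0, map_zero φ, by
    rw [conj_of_comm (h2 b).symm, x_zero', mul_one]⟩⟩

omit [Finite K] in
theorem cxx (r : ℕ) (s t : K) : x r s * x r t = x r t * x r s := by
  rw [← x_add, ← x_add, add_comm]

include h3

theorem U_le_P22 : (S φ hφ).U ≤ P φ 22 := by
  apply pos_le φ hφ h3
  · intro g hg
    obtain ⟨b, hb, rfl⟩ := (X6 φ hφ).1 hg
    refine ⟨fun t => conj_of_comm (cRB t b).symm, fun a ha => ⟨a * b, by rw [map_mul, ha, hb], ?_⟩⟩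
    have h := cAB a b
    have h2 : x 14 b * x 22 a = x 22 a * x 14 b * x 23 (a * b) := by
      rw [h, mul_assoc, ← x_add, show -1 * (a * b) + a * b = 0 by ring, x_zero', mul_one]
    rw [h2, mul_assoc (x 22 a), mul_assoc (x 22 a), ← cRB, mul_inv_cancel_right]
  · intro g hg
    obtain ⟨t, rfl⟩ := (X7 φ hφ h3).1 hg
    exact mem_P φ (fun s => cRG φ s t) (fun s => cAG φ s t)
  · intro g hg
    obtain ⟨t, rfl⟩ := (X8 φ hφ h3).1 hg
    exact mem_P φ (fun s => cRW φ s t) (fun s => cAW φ s t)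
  · intro g hg
    obtain ⟨t, rfl⟩ := (X9 φ hφ h3).1 hg
    exact mem_P φ (fun s => cRU φ s t) (fun s => cAU φ s t)
  · intro g hg
    obtain ⟨t, ht, rfl⟩ := (X10 φ hφ).1 hg
    exact mem_P φ (fun s => cRA s t) (fun s => cxx 22 s t)
  · intro g hg
    obtain ⟨t, ht, rfl⟩ := (X11 φ hφ).1 hg
    exact mem_P φ (fun s => cxx 23 s t) (fun s => (cRA t s).symm)

theorem Ui_le_P14 : (S φ hφ).Ui (0 : Fin 2) ≤ P φ 14 := by
  apply Ui0_le φ hφ h3
  · intro g hg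
    obtain ⟨b, hb, rfl⟩ := (X6 φ hφ).1 hg
    exact mem_P φ (fun s => cRB s b) (fun s => cxx 14 s b)
  · intro g hg
    obtain ⟨t, rfl⟩ := (X8 φ hφ h3).1 hg
    exact mem_P φ (fun s => cRW φ s t) (fun s => cBW φ s t)
  · intro g hg
    obtain ⟨t, rfl⟩ := (X9 φ hφ h3).1 hg
    exact mem_P φ (fun s => cRU φ s t) (fun s => cBU φ s t)
  · intro g hg
    obtain ⟨a, ha, rfl⟩ := (X10 φ hφ).1 hg
    refine ⟨fun t => conj_of_comm (cRA t a).symm, fun b hb => ⟨-1 * (a * b), by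
      rw [map_mul, map_mul, ha, hb, map_neg, map_one], ?_⟩⟩
    rw [cAB a b, mul_assoc (x 14 b), ← cRA, ← mul_assoc, mul_inv_cancel_right]
  · intro g hg
    obtain ⟨t, ht, rfl⟩ := (X11 φ hφ).1 hg
    exact mem_P φ (fun s => cxx 23 s t) (fun s => (cRB t s).symm)

/-- the highest root group is normalised by the Borel subgroup -/
theorem cj_U_11 {u : GL (D4).Idx K} (hu : u ∈ (S φ hφ).U) : cj u ((S φ hφ).X (11 : Fin 12)) = (S φ hφ).X (11 : Fin 12) := by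
  have h := (S φ hφ).U_le (K := stabSub ((S φ hφ).X (11 : Fin 12))) (fun r hr => ?_) hu
  · exact h
  · apply le_stabSub_of_conj
    intro a ha y hy
    obtain ⟨t, ht, rfl⟩ := (X11 φ hφ).1 hy
    have := (U_le_P22 φ hφ h3 ((S φ hφ).X_le_U hr ha)).1 t
    rw [this]; exact hy

theorem cj_B_11 {b : GL (D4).Idx K} (hb : b ∈ (S φ hφ).B) : cj b ((S φ hφ).X (11 : Fin 12)) = (S φ hφ).X (11 : Fin 12) := by
  obtain ⟨u, hu, h, hh, rfl⟩ := (S φ hφ).mem_B.1 hb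
  have h2 : cj h ((S φ hφ).X (11 : Fin 12)) = (S φ hφ).X (11 : Fin 12) := (S φ hφ).cj_H _ hh
  rw [cj_mul, h2, cj_U_11 φ hφ h3 hu]

variable {φ}

omit h3 in
/-- the main property of a root -/
def FP (Y M : Subgroup (GL (D4).Idx K)) (c : Fin 12) : Prop :=
  ∀ u ∈ (S φ hφ).U, cj u ((S φ hφ).X c) ≤ Y → ∃ m ∈ M, cj u ((S φ hφ).X c) = cj m ((S φ hφ).X (11 : Fin 12))

variable {q : ℕ} (hφq : ∀ t, φ t = t ^ q) (hK : Nat.card K = q ^ 3) (hF : Nat.card (Fx φ) = q)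
  {Y : Subgroup (GL (D4).Idx K)} (hY : Has φ Y) (hYn : ¬ Cfsg.Lie.twistedD4 K q ≤ Y)

include hφq hK hF hY hYn

/-- a conjugate of the root group of `β` in `Y` -/
theorem dich {u : GL (D4).Idx K} (hu : u ∈ (S φ hφ).U) (h : cj u ((S φ hφ).X (6 : Fin 12)) ≤ Y) :
    ∃ t, φ t = t ∧ ∃ v ∈ (S φ hφ).Ui (0 : Fin 2), u = eG φ t * v := by
  have hu' : u ∈ (S φ hφ).Ui (0 : Fin 2) ⊔ (S φ hφ).X (7 : Fin 12) := by
    have := (S φ hφ).U_eq_sup (0 : Fin 2)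
    rw [← this] at hu
    exact hu
  obtain ⟨g, hg, v, hv, rfl⟩ := (mem_sup_of_normalizes' (K := (S φ hφ).Ui (0 : Fin 2))
    (L := (S φ hφ).X (7 : Fin 12)) ((S φ hφ).simple_le (0 : Fin 2))).1 hu'
  obtain ⟨t, rfl⟩ := (X7 φ hφ h3).1 hg
  refine ⟨t, ?_, v, hv, rfl⟩
  by_contra ht
  apply hYn
  have ht' : φ (-t) ≠ -t := by rw [map_neg]; exact fun h => ht (neg_inj.1 h)
  refine lemT hφq h3 hK hF hY ht' fun a ha => ?_
  have ha' : φ (-a) = -a := by rw [map_neg, ha]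
  have h1 : eG φ t * v * x 14 (-a) * (eG φ t * v)⁻¹ ∈ Y := h (conj_mem_cj ((X6 φ hφ).2 ⟨-a, ha', rfl⟩))
  obtain ⟨hv1, hv2⟩ := Ui_le_P14 φ hφ h3 hv
  obtain ⟨z, hz, e⟩ := hv2 (-a) ha'
  have e1 : eG φ t * v * x 14 (-a) * (eG φ t * v)⁻¹ = (eG φ t * x 14 (-a) * (eG φ t)⁻¹) * x 23 z := by
    have e2 : eG φ t * v * x 14 (-a) * (eG φ t * v)⁻¹ = eG φ t * (v * x 14 (-a) * v⁻¹) * (eG φ t)⁻¹ := by
      simp only [mul_assoc, mul_inv_rev]
    rw [e2, e, conj_mul']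
    congr 1
    exact conj_of_comm (cRG φ z t).symm
  rw [e1] at h1
  have h2 := (Subgroup.mul_mem_cancel_right _ (hY.R z hz)).1 h1
  have h4 := (conj_iff hY.nG).2 h2
  rw [conj_mul', conj_mul', nG_G, nG_B, _root_.neg_neg] at h4
  have e3 : nG K * (eG φ t)⁻¹ * (nG K)⁻¹ = (eM φ (-t))⁻¹ := by
    rw [← nG_G]; group
  rwa [e3] at h4

variable {M : Subgroup (GL (D4).Idx K)} (hMY : M ≤ Y) (hM : Has φ M) (hMG : ∀ t, φ t = t → eG φ t ∈ M)

omit h3 hφq hK hF hY hYn in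
include hMY in
theorem move (i : Fin 2) {c c' : Fin 12} (hc : (C2).refl i c = c') (hn : (S φ hφ).n i ∈ M)
    (hF : FP hφ Y M c') (hu : ∀ u ∈ (S φ hφ).U, cj u ((S φ hφ).X c) ≤ Y →
      ∃ g ∈ M, ∃ v ∈ (S φ hφ).Ui i, u = g * v) : FP hφ Y M c := by
  intro u hu' hY
  obtain ⟨g, hg, v, hv, rfl⟩ := hu u hu' hY
  set n := (S φ hφ).n i with hn'
  have hv' : n * v * n⁻¹ ∈ (S φ hφ).Ui i := by
    have := (S φ hφ).n_stab_Ui i
    rw [← this]
    exact conj_mem_cj hv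
  have e1 : cj (n * v * n⁻¹) ((S φ hφ).X c') = cj (n * g⁻¹) (cj (g * v) ((S φ hφ).X c)) := by
    have h1 : (S φ hφ).X c' = cj n ((S φ hφ).X c) := by
      have := (S φ hφ).cj_n i c
      rw [hc] at this
      exact this.symm
    have h2 : n * v * n⁻¹ * n = n * g⁻¹ * (g * v) := by group
    rw [h1, ← cj_mul, ← cj_mul, h2]
  have h2 : cj (n * v * n⁻¹) ((S φ hφ).X c') ≤ Y := by
    rw [e1]
    have h3 : n * g⁻¹ ∈ Y := mul_mem (hMY hn) (inv_mem (hMY hg))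
    exact (cj_mono hY).trans (le_of_eq (cj_eq_self_of_mem h3))
  obtain ⟨m, hm, e⟩ := hF _ ((S φ hφ).Ui_le_U i hv') h2
  refine ⟨g * n⁻¹ * m, mul_mem (mul_mem hg (inv_mem hn)) hm, ?_⟩
  have e3 : cj (g * n⁻¹ * m) ((S φ hφ).X (11 : Fin 12)) = cj (g * n⁻¹) (cj m ((S φ hφ).X (11 : Fin 12))) :=
    cj_mul _ _ _
  have e4 : g * n⁻¹ * (n * g⁻¹) = 1 := by group
  rw [e3, ← e, e1, ← cj_mul, e4, cj_one]

omit h3 hφq hK hF hY hYn in
include hMY hM in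
theorem moveB {c c' : Fin 12} (hc : t1 c = c') (hF : FP hφ Y M c') : FP hφ Y M c := by
  refine move hφ hMY (1 : Fin 2) (c' := c') ((tab1 c).trans hc) (by rw [n1_eq]; exact hM.nB) hF ?_
  intro u hu _
  have hu' : u ∈ (S φ hφ).Ui (1 : Fin 2) ⊔ (S φ hφ).X (6 : Fin 12) := by
    have := (S φ hφ).U_eq_sup (1 : Fin 2)
    rw [← this] at hu
    exact hu
  obtain ⟨g, hg, v, hv, rfl⟩ := (mem_sup_of_normalizes' (K := (S φ hφ).Ui (1 : Fin 2))
    (L := (S φ hφ).X (6 : Fin 12)) ((S φ hφ).simple_le (1 : Fin 2))).1 hu'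
  obtain ⟨t, ht, rfl⟩ := (X6 φ hφ).1 hg
  exact ⟨_, hM.B t ht, v, hv, rfl⟩

include hMY hM hMG

/-- all long roots -/
theorem FPall {c : Fin 12} (hc : c ∈ [(0 : Fin 12), 1, 5, 6, 10, 11]) : FP hφ Y M c := by
  have f11 : FP hφ Y M 11 := fun u hu _ => ⟨1, one_mem _, by rw [cj_U_11 φ hφ h3 hu, cj_one]⟩
  have f10 : FP hφ Y M 10 := moveB hφ hMY hM (c' := 11) rfl f11
  have hdi : ∀ u ∈ (S φ hφ).U, cj u ((S φ hφ).X (6 : Fin 12)) ≤ Y →
      ∃ g ∈ M, ∃ v ∈ (S φ hφ).Ui (0 : Fin 2), u = g * v := by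
    intro u hu h
    obtain ⟨t, ht, v, hv, rfl⟩ := dich hφ h3 hφq hK hF hY hYn hu h
    exact ⟨_, hMG t ht, v, hv, rfl⟩
  have hn : (S φ hφ).n (0 : Fin 2) ∈ M := by rw [n0_eq]; exact hM.nG
  have f6 : FP hφ Y M 6 := move hφ hMY (0 : Fin 2) (c' := 10) (tab0 6) hn f10 hdi
  have f5 : FP hφ Y M 5 := moveB hφ hMY hM (c' := 6) rfl f6
  have f1 : FP hφ Y M 1 := by
    refine move hφ hMY (0 : Fin 2) (c' := 5) (tab0 1) hn f5 fun u hu h => ?_
    apply hdi u hu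
    rintro y ⟨g, hg, rfl⟩
    obtain ⟨b, hb, rfl⟩ := (X6 φ hφ).1 hg
    -- `x14 b` is a commutator
    have h1 : u * x 1 1 * u⁻¹ ∈ Y := h (conj_mem_cj ((X1_ φ hφ).2 ⟨1, map_one φ, rfl⟩))
    have h2 : x 23 b ∈ Y := hY.R b hb
    have h4 : u * x 23 b * u⁻¹ = x 23 b := (U_le_P22 φ hφ h3 hu).1 b
    have e := c23_1 b (1 : K)
    rw [mul_one] at e
    have e2 : x 14 b = (x 1 1)⁻¹ * (x 23 b * x 1 1 * (x 23 b)⁻¹) := by rw [e]; group
    have e3 : (MulAut.conj u).toMonoidHom (x 14 b) = (u * x 1 1 * u⁻¹)⁻¹ * (x 23 b * (u * x 1 1 * u⁻¹) * (x 23 b)⁻¹) := by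
      calc u * x 14 b * u⁻¹ = (u * x 1 1 * u⁻¹)⁻¹ * ((u * x 23 b * u⁻¹) * (u * x 1 1 * u⁻¹) *
            (u * x 23 b * u⁻¹)⁻¹) := by rw [e2]; group
        _ = _ := by rw [h4]
    rw [e3]
    exact mul_mem (inv_mem h1) (mul_mem (mul_mem h2 h1) (inv_mem h2))
  have f0 : FP hφ Y M 0 := moveB hφ hMY hM (c' := 1) rfl f1
  simp only [List.mem_cons, List.not_mem_nil, or_false] at hc
  rcases hc with rfl | rfl | rfl | rfl | rfl | rfl
  · exact f0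
  · exact f1
  · exact f5
  · exact f6
  · exact f10
  · exact f11

omit h3 hφq hK hF hY hYn hMY hM hMG in
theorem long_W {w : Equiv.Perm (Fin 12)} (hw : w ∈ (C2).W) : w 11 ∈ [(0 : Fin 12), 1, 5, 6, 10, 11] := by
  obtain ⟨L, rfl⟩ := (C2).exists_word hw
  induction L with
  | nil => decide
  | cons i L ih =>
    have ih := ih ((C2).w_mem L)
    rw [RootComb.w_cons]
    change (C2).refl i ((C2).w L (11 : Fin 12)) ∈ [(0 : Fin 12), 1, 5, 6, 10, 11]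
    have key : ∀ c : Fin 12, c ∈ [(0 : Fin 12), 1, 5, 6, 10, 11] → t0 c ∈ [(0 : Fin 12), 1, 5, 6, 10, 11] ∧
        t1 c ∈ [(0 : Fin 12), 1, 5, 6, 10, 11] := by decide
    have k := key _ ih
    rcases H22.TwD4.two i with rfl | rfl
    · have := tab0 ((C2).w L (11 : Fin 12))
      exact (congrArg (fun c : Fin 12 => c ∈ [(0 : Fin 12), 1, 5, 6, 10, 11]) this).mpr k.1
    · have := tab1 ((C2).w L (11 : Fin 12))
      exact (congrArg (fun c : Fin 12 => c ∈ [(0 : Fin 12), 1, 5, 6, 10, 11]) this).mpr k.2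

/-- conjugates of the highest root group inside `Y` -/
theorem main1 {g : GL (D4).Idx K} (hg : g ∈ (S φ hφ).Γ) (h : cj g ((S φ hφ).X (11 : Fin 12)) ≤ Y) :
    ∃ m ∈ M, cj g ((S φ hφ).X (11 : Fin 12)) = cj m ((S φ hφ).X (11 : Fin 12)) := by
  obtain ⟨b1, hb1, n, hn, b2, hb2, rfl⟩ := (S φ hφ).bruhat hg
  obtain ⟨w, hw⟩ := (S φ hφ).exists_rep hn
  obtain ⟨u, hu, k, hk, rfl⟩ := (S φ hφ).mem_B.1 hb1
  have e : cj (u * k * n * b2) ((S φ hφ).X (11 : Fin 12)) = cj u ((S φ hφ).X (w (11 : Fin 12))) := by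
    rw [cj_mul, cj_B_11 φ hφ h3 hb2, cj_mul, cj_mul]
    have h1 : cj n ((S φ hφ).X (11 : Fin 12)) = (S φ hφ).X (w (11 : Fin 12)) := hw.2.2 _
    rw [h1, (S φ hφ).cj_H _ hk]
  rw [e] at h ⊢
  exact FPall hφ h3 hφq hK hF hY hYn hMY hM hMG (c := w (11 : Fin 12)) (long_W hw.2.1) u hu h

end H41.Te3
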