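import Cfsg.Agent.Lib.H41.Te3

/-!
The centraliser of the long root elements over the small field is trivial.
-/

set_option autoImplicit false
set_option linter.unusedSectionVars false
set_option linter.unusedVariables false

namespace H41.Te4

open H22.RGD H22.Coord H22.RCCheck H22.RCComb H22.ChevTri H22.ChevRel H22.ChevSys H22.ChevMain
open H22.ChevStd H22.ChevSolv H22.ChevUni H22.St H22.TwChev H22.TwSt H22.RCPack H22.TwTab H22.TwX
open H22.TwDat H22.TwAut H22.ChevTorus H22.TwThm H22.TwPerf H22.TwMisc H22.TwD4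
open H41.Td6 H41.Td7 H41.Td8 H41.Td1 H41.Te1 H41.Te2 H41.Te3
open Cfsg.Lie (ChevalleyDatum)
open scoped MatrixGroups Matrix

local notation "D4" => Cfsg.Lie.chevD4
local notation "X4" => H22.PoinD4.rcxD4
local notation "G2X" => H22.PoinG2.rcxG2
local notation "Z4" => H22.ChevLex.lexD4
local notation "W4" => H22.TwD4.certD4'
local notation "C2" => comb G2X

/-! ### the Weyl group -/

/-- tables of reflections -/
def s0 (n : ℕ) : ℕ := [0, 5, 3, 2, 7, 1, 10, 4, 9, 8, 6, 11].getD n 0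
/-- tables of reflections -/
def s1 (n : ℕ) : ℕ := [1, 0, 2, 4, 3, 6, 5, 8, 7, 9, 11, 10].getD n 0

theorem s0_eq : ∀ c : Fin 12, (t0 c : ℕ) = s0 c := by decide
theorem s1_eq : ∀ c : Fin 12, (t1 c : ℕ) = s1 c := by decide

/-- the elements of the Weyl group -/
def Wl : List (List ℕ) :=
  [[0, 1, 2, 3, 4, 5, 6, 7, 8, 9, 10, 11],
    [0, 5, 3, 2, 7, 1, 10, 4, 9, 8, 6, 11],
    [1, 0, 2, 4, 3, 6, 5, 8, 7, 9, 11, 10],
    [1, 6, 4, 2, 8, 0, 11, 3, 9, 7, 5, 10],
    [5, 0, 3, 7, 2, 10, 1, 9, 4, 8, 11, 6],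
    [5, 10, 7, 3, 9, 0, 11, 2, 8, 4, 1, 6],
    [6, 1, 4, 8, 2, 11, 0, 9, 3, 7, 10, 5],
    [6, 11, 8, 4, 9, 1, 10, 2, 7, 3, 0, 5],
    [10, 5, 7, 9, 3, 11, 0, 8, 2, 4, 6, 1],
    [10, 11, 9, 7, 8, 5, 6, 3, 4, 2, 0, 1],
    [11, 6, 8, 9, 4, 10, 1, 7, 2, 3, 5, 0],
    [11, 10, 9, 8, 7, 6, 5, 4, 3, 2, 1, 0]]

theorem Wl_closed : ∀ l ∈ Wl, l.map s0 ∈ Wl ∧ l.map s1 ∈ Wl := by decide +kernel

theorem Wl_fix : ∀ l ∈ Wl, l.getD 11 0 = 11 → l = (List.finRange 12).map Fin.val ∨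
    l = (List.finRange 12).map (fun c => (t0 c : ℕ)) := by decide +kernel

/-- the table of a permutation -/
def tb (w : Equiv.Perm (Fin 12)) : List ℕ := (List.finRange 12).map (fun c => (w c : ℕ))

theorem mem_Wl {w : Equiv.Perm (Fin 12)} (hw : w ∈ (C2).W) : tb w ∈ Wl := by
  obtain ⟨L, rfl⟩ := (C2).exists_word hw
  clear hw
  induction L with
  | nil =>
    have : (List.finRange 12).map Fin.val ∈ Wl := by decide +kernel
    exact this
  | cons i L ih =>
    rw [RootComb.w_cons]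
    have k := Wl_closed _ ih
    rcases H22.TwD4.two i with rfl | rfl
    · have e : tb ((C2).refl (0 : Fin 2) * (C2).w L) = (tb ((C2).w L)).map s0 := by
        unfold tb
        rw [List.map_map]
        apply List.map_congr_left
        intro c _
        have h := tab0 ((C2).w L c)
        exact (congrArg Fin.val h).trans (s0_eq _)
      exact (congrArg (fun l : List ℕ => l ∈ Wl) e).mpr k.1
    · have e : tb ((C2).refl (1 : Fin 2) * (C2).w L) = (tb ((C2).w L)).map s1 := by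
        unfold tb
        rw [List.map_map]
        apply List.map_congr_left
        intro c _
        have h := tab1 ((C2).w L c)
        exact (congrArg Fin.val h).trans (s1_eq _)
      exact (congrArg (fun l : List ℕ => l ∈ Wl) e).mpr k.2

theorem W_fix {w : Equiv.Perm (Fin 12)} (hw : w ∈ (C2).W) (h : w 11 = 11) :
    w = 1 ∨ ∀ c : Fin 12, w c = t0 c := by
  have h0 : (tb w).getD 11 0 = 11 := by
    have e : (tb w).getD 11 0 = (w 11 : ℕ) := rfl
    rw [e, h]; rfl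
  rcases Wl_fix _ (mem_Wl hw) h0 with h1 | h1
  · left
    ext c
    exact List.map_inj_left.1 h1 c (List.mem_finRange c)
  · right
    intro c
    exact Fin.ext (List.map_inj_left.1 h1 c (List.mem_finRange c))

variable {K : Type*} [Field K] [Finite K] (φ : K →+* K) (hφ : Function.Surjective φ)
  (h3 : ∀ t : K, φ (φ (φ t)) = t)

include h3

/-- the Borel subgroup acts on the root group of `α` -/
theorem actA {b : GL (D4).Idx K} (hb : b ∈ (S φ hφ).B) {a : K} (ha : φ a = a) (ha0 : a ≠ 0) :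
    ∃ s r, φ s = s ∧ φ r = r ∧ s ≠ 0 ∧ b * x 22 a * b⁻¹ = x 22 s * x 23 r := by
  obtain ⟨u, hu, h, hh, rfl⟩ := (S φ hφ).mem_B.1 hb
  have h2 : cj h ((S φ hφ).X (10 : Fin 12)) = (S φ hφ).X (10 : Fin 12) := (S φ hφ).cj_H _ hh
  have h4 : h * x 22 a * h⁻¹ ∈ (S φ hφ).X (10 : Fin 12) := by
    rw [← h2]
    exact conj_mem_cj ((X10 φ hφ).2 ⟨a, ha, rfl⟩)
  obtain ⟨s, hs, e⟩ := (X10 φ hφ).1 h4
  have hs0 : s ≠ 0 := by
    rintro rfl
    rw [x_zero'] at e
    have e1 : x 22 a = 1 := by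
      have : x 22 a = h⁻¹ * (h * x 22 a * h⁻¹) * h := by group
      rw [this, e]; group
    exact ha0 (x_inj (r := 22) (by decide) (e1.trans (x_zero' 22).symm))
  obtain ⟨z, hz, e2⟩ := (U_le_P22 φ hφ h3 hu).2 s hs
  refine ⟨s, z, hs, hz, hs0, ?_⟩
  rw [← e2, ← e]
  group

theorem U1_mem {s r : K} (hs : φ s = s) (hr : φ r = r) : x 22 s * x 23 r ∈ (S φ hφ).Ui (1 : Fin 2) := by
  have k : ∀ c : Fin 12, 6 ≤ c.val → c ≠ 6 → (S φ hφ).X c ≤ (S φ hφ).Ui (1 : Fin 2) :=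
    fun c h h' => (S φ hφ).X_le_Ui h h'
  exact mul_mem (k 10 (by decide) (by decide) ((X10 φ hφ).2 ⟨s, hs, rfl⟩))
    (k 11 (by decide) (by decide) ((X11 φ hφ).2 ⟨r, hr, rfl⟩))

omit h3 in
theorem x14_one {s : K} (hs : φ s = s) (h : x 14 s ∈ (S φ hφ).Ui (1 : Fin 2)) : s = 0 := by
  have h1 : x 14 s ∈ (S φ hφ).Ui (1 : Fin 2) ⊓ (S φ hφ).X (6 : Fin 12) := ⟨h, (X6 φ hφ).2 ⟨s, hs, rfl⟩⟩
  have h2 : (S φ hφ).Ui (1 : Fin 2) ⊓ (S φ hφ).X (6 : Fin 12) = ⊥ := (S φ hφ).Ui_inf_X (1 : Fin 2)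
  rw [h2, Subgroup.mem_bot] at h1
  exact x_inj (r := 14) (by decide) (h1.trans (x_zero' 14).symm)

/-- elements commuting with the two highest long root groups -/
theorem inB {c : GL (D4).Idx K} (hc : c ∈ (S φ hφ).Γ) (h23 : ∀ t, φ t = t → c * x 23 t = x 23 t * c)
    (h22 : c * x 22 1 = x 22 1 * c) : c ∈ (S φ hφ).B := by
  obtain ⟨b1, hb1, n, hn, b2, hb2, rfl⟩ := (S φ hφ).bruhat hc
  obtain ⟨w, hw⟩ := (S φ hφ).exists_rep hn
  have e0 : cj (b1 * n * b2) ((S φ hφ).X (11 : Fin 12)) = (S φ hφ).X (11 : Fin 12) := by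
    apply le_antisymm
    · rintro _ ⟨y, hy, rfl⟩
      obtain ⟨t, ht, rfl⟩ := (X11 φ hφ).1 hy
      have : (MulAut.conj (b1 * n * b2)).toMonoidHom (x 23 t) = x 23 t := conj_of_comm (h23 t ht)
      rw [this]; exact hy
    · intro y hy
      obtain ⟨t, ht, rfl⟩ := (X11 φ hφ).1 hy
      rw [← conj_of_comm (h23 t ht)]
      exact conj_mem_cj hy
  have e1 : (S φ hφ).X (w (11 : Fin 12)) = (S φ hφ).X (11 : Fin 12) := by
    have h1 : cj n ((S φ hφ).X (11 : Fin 12)) = (S φ hφ).X (w (11 : Fin 12)) := hw.2.2 _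
    rw [cj_mul, cj_B_11 φ hφ h3 hb2, cj_mul, h1] at e0
    have h2 := cj_B_11 φ hφ h3 hb1
    rw [← h2, cj_inj] at e0
    exact e0
  have e2 : w (11 : Fin 12) = (11 : Fin 12) := (S φ hφ).X_inj e1
  rcases W_fix hw.2.1 e2 with rfl | hw0
  · have := (S φ hφ).mem_H_of_rep_one hw
    exact mul_mem (mul_mem hb1 ((S φ hφ).H_le_B this)) hb2
  · exfalso
    obtain ⟨s, r, hs, hr, hs0, e⟩ := actA φ hφ h3 hb2 (map_one φ) one_ne_zero
    have k1 : cj n ((S φ hφ).X (10 : Fin 12)) = (S φ hφ).X (6 : Fin 12) := by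
      have h1 : cj n ((S φ hφ).X (10 : Fin 12)) = (S φ hφ).X (w (10 : Fin 12)) := hw.2.2 _
      exact h1.trans (congrArg (S φ hφ).X (hw0 10))
    have k2 : cj n ((S φ hφ).X (11 : Fin 12)) = (S φ hφ).X (11 : Fin 12) := by
      have h1 : cj n ((S φ hφ).X (11 : Fin 12)) = (S φ hφ).X (w (11 : Fin 12)) := hw.2.2 _
      exact h1.trans (congrArg (S φ hφ).X (hw0 11))
    have m1 : n * x 22 s * n⁻¹ ∈ (S φ hφ).X (6 : Fin 12) := by
      rw [← k1]; exact conj_mem_cj ((X10 φ hφ).2 ⟨s, hs, rfl⟩)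
    have m2 : n * x 23 r * n⁻¹ ∈ (S φ hφ).X (11 : Fin 12) := by
      rw [← k2]; exact conj_mem_cj ((X11 φ hφ).2 ⟨r, hr, rfl⟩)
    obtain ⟨s', hs', e3⟩ := (X6 φ hφ).1 m1
    obtain ⟨r', hr', e4⟩ := (X11 φ hφ).1 m2
    obtain ⟨s2, r2, hs2, hr2, _, e5⟩ := actA φ hφ h3 (inv_mem hb1) (map_one φ) one_ne_zero
    have e6 : b1 * n * b2 * x 22 1 * (b1 * n * b2)⁻¹ = x 22 1 := conj_of_comm h22
    have e7 : n * (b2 * x 22 1 * b2⁻¹) * n⁻¹ = b1⁻¹ * x 22 1 * b1⁻¹⁻¹ := by
      nth_rewrite 2 [← e6]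
      group
    rw [e, e5, conj_mul', e3, e4] at e7
    have e8 : x 14 s' = x 22 s2 * x 23 (r2 - r') := by
      rw [sub_eq_add_neg, x_add, ← mul_assoc, ← e7, ← x_inv, mul_inv_cancel_right]
    have hs0' := x14_one φ hφ hs' (by rw [e8]; exact U1_mem φ hφ h3 hs2 (by rw [map_sub, hr2, hr']))
    rw [hs0', x_zero'] at e3
    have e9 : x 22 s = 1 := by
      have : x 22 s = n⁻¹ * (n * x 22 s * n⁻¹) * n := by group
      rw [this, e3]; group
    exact hs0 (x_inj (r := 22) (by decide) (e9.trans (x_zero' 22).symm))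

variable {φ} {M : Subgroup (GL (D4).Idx K)} (hM : Has φ M)

include hM

omit h3 in
theorem n_mem (i : Fin 2) : (S φ hφ).n i ∈ M := by
  rcases H22.TwD4.two i with rfl | rfl
  · rw [n0_eq]; exact hM.nG
  · rw [n1_eq]; exact hM.nB

omit h3 in
theorem nw_mem (L : List (Fin 2)) : (S φ hφ).nw L ∈ M := by
  induction L with
  | nil => exact one_mem _
  | cons i L ih =>
    have := (S φ hφ).nw_cons i L
    have h2 : (S φ hφ).nw (i :: L) ∈ M := this ▸ mul_mem (n_mem hφ hM i) ih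
    exact h2

omit h3 hM in
theorem A_eq (a : K) : x 22 a = (nr K 14)⁻¹ * x 23 a * (nr K 14)⁻¹⁻¹ := by
  rw [← nB_A]; group

omit h3 hM in
theorem B_eq (a : K) : x 14 a = (nG K * (nr K 14)⁻¹) * x 23 a * (nG K * (nr K 14)⁻¹)⁻¹ := by
  rw [← nG_A, A_eq]; group

variable (hc0 : ∀ c : GL (D4).Idx K, c ∈ (S φ hφ).Γ)

/-- elements centralising all the long root elements lie in the torus -/
theorem inH {c : GL (D4).Idx K} (hc : c ∈ (S φ hφ).Γ)
    (hcM : ∀ m ∈ M, ∀ t, φ t = t → c * (m * x 23 t * m⁻¹) = m * x 23 t * m⁻¹ * c) : c ∈ (S φ hφ).H := by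
  have hB : ∀ c : GL (D4).Idx K, c ∈ (S φ hφ).Γ →
      (∀ m ∈ M, ∀ t, φ t = t → c * (m * x 23 t * m⁻¹) = m * x 23 t * m⁻¹ * c) → c ∈ (S φ hφ).B := by
    intro c hc hcM
    refine inB φ hφ h3 hc (fun t ht => ?_) ?_
    · have := hcM 1 (one_mem _) t ht
      simpa using this
    · have := hcM (nr K 14)⁻¹ (inv_mem hM.nB) 1 (map_one φ)
      rwa [← A_eq] at this
  obtain ⟨w, hw, hneg⟩ := longest G2X
  obtain ⟨L, rfl⟩ := (C2).exists_word hw
  set n := (S φ hφ).nw L with hn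
  have hnM : n ∈ M := nw_mem hφ hM L
  have hnΓ : n ∈ (S φ hφ).Γ := (S φ hφ).N_le_Γ ((S φ hφ).nw_mem_N L)
  have h1 := hB c hc hcM
  have h2 : n⁻¹ * c * n ∈ (S φ hφ).B := by
    refine hB _ (mul_mem (mul_mem (inv_mem hnΓ) hc) hnΓ) fun m hm t ht => ?_
    have := hcM (n * m) (mul_mem hnM hm) t ht
    have e1 : n * m * x 23 t * (n * m)⁻¹ = n * (m * x 23 t * m⁻¹) * n⁻¹ := by group
    rw [e1] at this
    have e2 : n⁻¹ * c * n * (m * x 23 t * m⁻¹) = n⁻¹ * (c * (n * (m * x 23 t * m⁻¹) * n⁻¹)) * n := by group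
    rw [e2, this]
    group
  obtain ⟨u, hu, k, hk, e⟩ := (S φ hφ).mem_B.1 h2
  have hk' : n * k * n⁻¹ ∈ (S φ hφ).H := conj_mem_of_stabSub ((S φ hφ).nw_stab_H L) hk
  have hu' : n * u * n⁻¹ ∈ (S φ hφ).V := by
    have h4 : cj n (S φ hφ).U ≤ (S φ hφ).V := by
      unfold Sys.U
      rw [cj_iSup]
      refine iSup_le fun s => ?_
      have := (S φ hφ).cj_nw L s.1
      rw [← hn] at this
      rw [this]
      exact (S φ hφ).X_le_V (hneg _ s.2)
    exact h4 (conj_mem_cj hu)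
  have e1 : c = (n * u * n⁻¹) * (n * k * n⁻¹) := by
    have : c = n * (n⁻¹ * c * n) * n⁻¹ := by group
    rw [this, e]; group
  have e2 : n * u * n⁻¹ = 1 := by
    refine (S φ hφ).eq_one_of_mem_B_V ?_ hu'
    have : n * u * n⁻¹ = c * (n * k * n⁻¹)⁻¹ := by rw [e1]; group
    rw [this]
    exact mul_mem h1 (inv_mem ((S φ hφ).H_le_B hk'))
  rw [e1, e2, one_mul]
  exact hk'

variable (hMG : ∀ t, φ t = t → eG φ t ∈ M)
include hMG

/-- elements centralising all the long root elements are trivial -/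
theorem eq_one {c : GL (D4).Idx K} (hc : c ∈ (S φ hφ).Γ)
    (hcM : ∀ m ∈ M, ∀ t, φ t = t → c * (m * x 23 t * m⁻¹) = m * x 23 t * m⁻¹ * c) : c = 1 := by
  have hH := inH hφ h3 hM hc hcM
  obtain ⟨c', hc', rfl⟩ := hH
  have hc2 : c' ∈ (St (RR K) (hm K)).Hb ⊓ fx (A (RR K) (hm K) φ hφ).σ := hc'
  rw [(A (RR K) (hm K) φ hφ).fixed_torus Z4 W4 (lift (RR K) (hm K) φ hφ h3)] at hc2
  obtain ⟨p, hp, rfl⟩ := hc2
  obtain ⟨p2, p3, p0, p1⟩ := τ_fixed (RR K) (hm K) φ hφ (c := p) hp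
  set P := ((D4).group K).subtype ((St (RR K) (hm K)).psi X4 Z4 W4 p) with hP
  have act : ∀ r, r < (D4).nroots → ∀ t : K, P * x r t * P⁻¹ = x r (chr p r * t) := by
    intro r hr t
    have := psi_x (S := St (RR K) (hm K)) Z4 W4 p hr t
    exact congrArg (fun z : ↥((D4).group K) => (z : GL (D4).Idx K)) this
  have hchr : ∀ (s : ℕ) (hs : s < (D4).nroots), chr p s =
      ((p j0 ^ (D4).cartan 0 s * p j1 ^ (D4).cartan 1 s * p j2 ^ (D4).cartan 2 s *
        p j3 ^ (D4).cartan 3 s : Kˣ) : K) := by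
    intro s hs
    rw [chr_eq hs]
    congr 1
    show (∏ j : Fin 4, p j ^ (D4).cartan j s) = _
    rw [Fin.prod_univ_four]
    rfl
  -- `u = 1`
  have hu : (p j1 : K) = 1 := by
    have h1 := hcM 1 (one_mem _) 1 (map_one φ)
    have h2 : P * x 23 1 * P⁻¹ = x 23 1 := by
      apply conj_of_comm
      simpa using h1
    rw [act 23 (by decide)] at h2
    have h4 := x_inj (r := 23) (by decide) h2
    rw [mul_one, hchr 23 (by decide)] at h4
    have e0 : (D4).cartan 0 23 = 0 := by decide +kernel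
    have e1 : (D4).cartan 1 23 = 1 := by decide +kernel
    have e2 : (D4).cartan 2 23 = 0 := by decide +kernel
    have e3 : (D4).cartan 3 23 = 0 := by decide +kernel
    rw [e0, e1, e2, e3] at h4
    simpa using h4
  have hu' : p j1 = 1 := Units.ext hu
  -- `N(a) = 1`
  have h14 : P * x 14 1 = x 14 1 * P := by
    have := hcM (nG K * (nr K 14)⁻¹) (mul_mem hM.nG (inv_mem hM.nB)) 1 (map_one φ)
    rwa [← B_eq] at this
  have hN : (p j0 : K) * p j2 * p j3 = 1 := by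
    have h2 := conj_of_comm h14
    rw [act 14 (by decide)] at h2
    have h4 := x_inj (r := 14) (by decide) h2
    rw [mul_one, hchr 14 (by decide)] at h4
    have e0 : (D4).cartan 0 14 = -1 := by decide +kernel
    have e1 : (D4).cartan 1 14 = 2 := by decide +kernel
    have e2 : (D4).cartan 2 14 = -1 := by decide +kernel
    have e3 : (D4).cartan 3 14 = -1 := by decide +kernel
    rw [e0, e1, e2, e3, hu', one_zpow, mul_one, zpow_neg_one, zpow_neg_one, zpow_neg_one,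
      ← mul_inv, ← mul_inv, Units.val_inv_eq_inv_val, inv_eq_one] at h4
    simpa using h4
  -- the action on the short root group
  have hG1 : P * eG φ 1 * P⁻¹ = eG φ ((p j0 : K) ^ 2) := by
    unfold eG
    rw [conj_mul' P (x 18 1 * _), conj_mul' P (x 18 1), act 18 (by decide), act 13 (by decide),
      act 12 (by decide), hchr 18 (by decide), hchr 13 (by decide), hchr 12 (by decide)]
    have a0 : (D4).cartan 0 18 = 2 := by decide +kernel
    have a1 : (D4).cartan 1 18 = -1 := by decide +kernel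
    have a2 : (D4).cartan 2 18 = 0 := by decide +kernel
    have a3 : (D4).cartan 3 18 = 0 := by decide +kernel
    have b0 : (D4).cartan 0 13 = 0 := by decide +kernel
    have b1 : (D4).cartan 1 13 = -1 := by decide +kernel
    have b2 : (D4).cartan 2 13 = 2 := by decide +kernel
    have b3 : (D4).cartan 3 13 = 0 := by decide +kernel
    have d0 : (D4).cartan 0 12 = 0 := by decide +kernel
    have d1 : (D4).cartan 1 12 = -1 := by decide +kernel
    have d2 : (D4).cartan 2 12 = 0 := by decide +kernel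
    have d3 : (D4).cartan 3 12 = 2 := by decide +kernel
    rw [a0, a1, a2, a3, b0, b1, b2, b3, d0, d1, d2, d3, hu']
    have e2 : ∀ v : Kˣ, v ^ (2 : ℤ) = v ^ 2 := fun v => zpow_ofNat v 2
    simp only [one_zpow, zpow_zero, mul_one, one_mul, e2, Units.val_pow_eq_pow_val, map_one, map_pow]
    rw [p3, p2]
  -- `a ^ 2 = 1`
  have hsq : (p j0 : K) ^ 2 = 1 := by
    set μ := (p j0 : K) ^ 2 with hμ
    have hz := hcM (eG φ 1 * (nG K * (nr K 14)⁻¹)) (mul_mem (hMG 1 (map_one φ)) (mul_mem hM.nG (inv_mem hM.nB)))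
      1 (map_one φ)
    have e1 : eG φ 1 * (nG K * (nr K 14)⁻¹) * x 23 1 * (eG φ 1 * (nG K * (nr K 14)⁻¹))⁻¹ =
        eG φ 1 * x 14 1 * (eG φ 1)⁻¹ := by rw [B_eq]; group
    rw [e1] at hz
    have h2 := conj_of_comm hz
    rw [conj_mul', conj_mul', hG1, conj_of_comm h14] at h2
    have h4 : P * (eG φ 1)⁻¹ * P⁻¹ = (eG φ μ)⁻¹ := by rw [← hG1]; group
    rw [h4] at h2
    -- `eG (μ - 1)` commutes with `x14 1`
    have h5 : eG φ (μ - 1) * x 14 1 * (eG φ (μ - 1))⁻¹ = x 14 1 := by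
      have e2 : eG φ μ = eG φ 1 * eG φ (μ - 1) := by rw [← eG_add]; congr 1; ring
      rw [e2] at h2
      have e3 : eG φ (μ - 1) * x 14 1 * (eG φ (μ - 1))⁻¹ = (eG φ 1)⁻¹ * (eG φ 1 * eG φ (μ - 1) * x 14 1 *
          (eG φ 1 * eG φ (μ - 1))⁻¹) * eG φ 1 := by group
      rw [e3, h2]; group
    have h6 : eM φ (1 - μ) * x 22 (-1) * (eM φ (1 - μ))⁻¹ = x 22 (-1) := by
      have e4 := congrArg (fun z => nG K * z * (nG K)⁻¹) h5
      rw [conj_mul', conj_mul', nG_G, nG_B] at e4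
      have e5 : nG K * (eG φ (μ - 1))⁻¹ * (nG K)⁻¹ = (eM φ (1 - μ))⁻¹ := by
        have := nG_G φ (μ - 1)
        rw [show -(μ - 1) = 1 - μ by ring] at this
        rw [← this]; group
      rw [e5, show -(μ - 1) = 1 - μ by ring] at e4
      exact e4
    have hm1 : φ (-1) = -1 := by rw [map_neg, map_one]
    rw [conjM φ h3 (1 - μ) (-1) hm1] at h6
    set t := 1 - μ with ht
    have hn := nm_fix h3 t
    -- separate the root group of `β`
    have k : ∀ c : Fin 12, 6 ≤ c.val → c ≠ 6 → (S φ hφ).X c ≤ (S φ hφ).Ui (1 : Fin 2) :=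
      fun c h h' => (S φ hφ).X_le_Ui h h'
    have hx : ∀ v : K, φ v = v → x 22 v ∈ (S φ hφ).Ui (1 : Fin 2) := fun v hv =>
      k 10 (by decide) (by decide) ((X10 φ hφ).2 ⟨v, hv, rfl⟩)
    have hy : ∀ v : K, φ v = v → x 23 v ∈ (S φ hφ).Ui (1 : Fin 2) := fun v hv =>
      k 11 (by decide) (by decide) ((X11 φ hφ).2 ⟨v, hv, rfl⟩)
    have hw : ∀ v : K, eW φ v ∈ (S φ hφ).Ui (1 : Fin 2) := fun v =>
      k 8 (by decide) (by decide) ((X8 φ hφ h3).2 ⟨v, rfl⟩)
    have hv : ∀ v : K, eU φ v ∈ (S φ hφ).Ui (1 : Fin 2) := fun v =>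
      k 9 (by decide) (by decide) ((X9 φ hφ h3).2 ⟨v, rfl⟩)
    have h8 : x 14 (-1 * (-1 * (t * φ t * φ (φ t)))) ∈ (S φ hφ).Ui (1 : Fin 2) := by
      have q1 := hx (-1) hm1
      rw [← h6] at q1
      have q2 := (Subgroup.mul_mem_cancel_right _ (hy _ (show φ (-1 * (-1 * -1 * (t * φ t * φ (φ t)))) =
        -1 * (-1 * -1 * (t * φ t * φ (φ t))) by rw [map_mul, map_mul, map_mul, hn, hm1]))).1 q1
      have q3 := (Subgroup.mul_mem_cancel_right _ (hx _ hm1)).1 q2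
      have q4 := (Subgroup.mul_mem_cancel_right _ (hv _)).1 q3
      exact (Subgroup.mul_mem_cancel_right _ (hw _)).1 q4
    have h9 := x14_one φ hφ (by rw [map_mul, map_mul, hn, hm1]) h8
    have h10 : t * φ t * φ (φ t) = 0 := by
      have : -1 * (-1 * (t * φ t * φ (φ t))) = t * φ t * φ (φ t) := by ring
      rw [← this]; exact h9
    have h11 : t = 0 := by
      rcases mul_eq_zero.1 h10 with h | h
      · rcases mul_eq_zero.1 h with h | h
        · exact h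
        · exact (map_eq_zero φ).1 h
      · exact (map_eq_zero φ).1 ((map_eq_zero φ).1 h)
    rw [ht] at h11
    exact (sub_eq_zero.1 h11).symm
  have h0 : (p j0 : K) = 1 := by
    rw [pow_two] at hsq
    rcases mul_self_eq_one_iff.1 hsq with h | h
    · exact h
    · rw [p3, p2, h, map_neg, map_neg, map_one, map_one] at hN
      rw [h]; linear_combination hN
  have hp1 : p = 1 := by
    have key : ∀ i : Fin 4, p (i : Fin (D4).rank) = 1 := by
      intro i
      fin_cases i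
      · exact Units.ext h0
      · exact hu'
      · exact Units.ext (by
          have : (p j2 : K) = 1 := by rw [p2, h0, map_one]
          exact this)
      · exact Units.ext (by
          have : (p j3 : K) = 1 := by rw [p3, p2, h0, map_one, map_one]
          exact this)
    exact funext key
  rw [hP, hp1, map_one, map_one]

end H41.Te4
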