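import Cfsg.Agent.Lib.H41.Te4

/-!
The group of points over the small field is maximal in `³D₄(q)`.
-/

set_option autoImplicit false
set_option linter.unusedSectionVars false
set_option linter.unusedVariables false

namespace H41.Te5

open H22.RGD H22.Coord H22.RCCheck H22.RCComb H22.ChevRel H22.ChevSys
open H41.Td6 H41.Td7 H41.Td8 H41.Td9 H41.Td1 H41.Te1 H41.Te2 H41.Te3 H41.Te4
open Cfsg.Lie (ChevalleyDatum)
open scoped MatrixGroups Matrix

local notation "D4" => Cfsg.Lie.chevD4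
local notation "G2X" => H22.PoinG2.rcxG2
local notation "C2" => comb G2X

variable {K : Type*} [Field K] [Finite K] {φ : K →+* K} (hφ : Function.Surjective φ)
  (h3 : ∀ t : K, φ (φ (φ t)) = t) {q : ℕ} (hφq : ∀ t, φ t = t ^ q)
  {M : Subgroup (GL (D4).Idx K)} (hM : ∀ g, g ∈ M ↔ g ∈ Cfsg.Lie.twistedD4 K q ∧ ph φ g = g)

include h3 hφq hM

theorem hasM : Has φ M where
  B a ha := (hM _).2 ⟨memB φ hφq ha, by rw [ph_x, ha]⟩
  N a ha := (hM _).2 ⟨memN φ hφq ha, by rw [ph_x, ha]⟩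
  A a ha := (hM _).2 ⟨memA φ hφq ha, by rw [ph_x, ha]⟩
  R a ha := (hM _).2 ⟨memR φ hφq ha, by rw [ph_x, ha]⟩
  W a ha := (hM _).2 ⟨memW φ hφq a, by rw [ph_eW, ha]⟩
  U a ha := (hM _).2 ⟨memU φ hφq h3 a, by rw [ph_eU, ha]⟩
  Mm a ha := (hM _).2 ⟨memM φ hφq a, by rw [ph_eM, ha]⟩
  nB := (hM _).2 ⟨mem_nB φ hφq, ph_nr φ 14⟩
  nG := (hM _).2 ⟨mem_nG φ hφq, ph_nG φ⟩

omit h3 in
theorem hasG : ∀ t, φ t = t → eG φ t ∈ M :=
  fun t ht => (hM _).2 ⟨memG φ hφq t, by rw [ph_eG, ht]⟩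

omit h3 hM in
theorem ph_mem {g : GL (D4).Idx K} (hg : g ∈ Cfsg.Lie.twistedD4 K q) : ph φ g ∈ Cfsg.Lie.twistedD4 K q := by
  have := gen_aux φ hφq (((Cfsg.Lie.twistedD4 K q).comap (ph φ)).subgroupOf (Cfsg.Lie.twistedD4 K q))
    (fun a ha hm => ?_) (fun a ha hm => ?_) (fun a hm => ?_) (fun a hm => ?_) g hg
  · exact Subgroup.mem_subgroupOf.1 this
  · rw [Subgroup.mem_subgroupOf, Subgroup.mem_comap, ph_x, ha]; exact hm
  · rw [Subgroup.mem_subgroupOf, Subgroup.mem_comap, ph_x, ha]; exact hm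
  · rw [Subgroup.mem_subgroupOf, Subgroup.mem_comap, ph_eG]; exact memG φ hφq _
  · rw [Subgroup.mem_subgroupOf, Subgroup.mem_comap, ph_eM]; exact memM φ hφq _

include hφ in
omit h3 hφq hM in
theorem eG_inj {s t : K} (h : eG φ s = eG φ t) : s = t :=
  H22.TwD4.xs_inj (H22.TwD4.RR K) (hm K) φ hφ (Subtype.ext h)

include hφ

/-- the theorem -/
theorem main (hK : Nat.card K = q ^ 3) (hF : Nat.card (Fx φ) = q) (hex : ∃ t : K, φ t ≠ t)
    (hΓ : (S φ hφ).Γ = Cfsg.Lie.twistedD4 K q) :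
    M ≠ Cfsg.Lie.twistedD4 K q ∧ ∀ H : Subgroup (GL (D4).Idx K), M ≤ H → H ≤ Cfsg.Lie.twistedD4 K q →
      H = M ∨ H = Cfsg.Lie.twistedD4 K q := by
  have h1 := hasM h3 hφq hM
  have h2 := hasG hφq hM
  constructor
  · intro h
    obtain ⟨t, ht⟩ := hex
    have h4 : eG φ t ∈ M := by rw [h]; exact memG φ hφq t
    have h5 := ((hM _).1 h4).2
    rw [ph_eG] at h5
    exact ht (eG_inj hφ h5)
  · intro Y hMY hYG
    by_cases hYn : Cfsg.Lie.twistedD4 K q ≤ Y
    · right; exact le_antisymm hYG hYn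
    left
    have hY : Has φ Y := ⟨fun a ha => hMY (h1.B a ha), fun a ha => hMY (h1.N a ha), fun a ha => hMY (h1.A a ha),
      fun a ha => hMY (h1.R a ha), fun a ha => hMY (h1.W a ha), fun a ha => hMY (h1.U a ha),
      fun a ha => hMY (h1.Mm a ha), hMY h1.nB, hMY h1.nG⟩
    refine le_antisymm (fun y hy => ?_) hMY
    have hyG := hYG hy
    refine (hM y).2 ⟨hyG, ?_⟩
    have hc : y⁻¹ * ph φ y = 1 := by
      refine eq_one hφ h3 h1 h2 ?_ fun m hm t ht => ?_
      · rw [hΓ]; exact mul_mem (inv_mem hyG) (ph_mem hφq hyG)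
      · set w := m * x 23 t * m⁻¹ with hw
        have hmG := ((hM m).1 hm).1
        have hXM : (S φ hφ).X (11 : Fin 12) ≤ M := by
          intro z hz
          obtain ⟨r, hr, rfl⟩ := (X11 φ hφ).1 hz
          exact h1.R r hr
        have hle : cj (y * m) ((S φ hφ).X (11 : Fin 12)) ≤ Y := by
          rintro _ ⟨z, hz, rfl⟩
          have hym : y * m ∈ Y := mul_mem hy (hMY hm)
          exact mul_mem (mul_mem hym (hMY (hXM hz))) (inv_mem hym)
        obtain ⟨m', hm', e⟩ := main1 hφ h3 hφq hK hF hY hYn hMY h1 h2 (g := y * m)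
          (by rw [hΓ]; exact mul_mem hyG hmG) hle
        have hz : y * w * y⁻¹ ∈ M := by
          have h5 : y * m * x 23 t * (y * m)⁻¹ ∈ cj (y * m) ((S φ hφ).X (11 : Fin 12)) :=
            conj_mem_cj ((X11 φ hφ).2 ⟨t, ht, rfl⟩)
          rw [e] at h5
          have h6 : cj m' ((S φ hφ).X (11 : Fin 12)) ≤ M := by
            rintro _ ⟨z, hz, rfl⟩
            exact mul_mem (mul_mem hm' (hXM hz)) (inv_mem hm')
          have h7 := h6 h5
          have e2 : y * m * x 23 t * (y * m)⁻¹ = y * w * y⁻¹ := by rw [hw]; group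
          rwa [e2] at h7
        have h8 := ((hM _).1 hz).2
        have h9 : ph φ w = w := by
          have : w ∈ M := mul_mem (mul_mem hm (h1.R t ht)) (inv_mem hm)
          exact ((hM _).1 this).2
        rw [map_mul, map_mul, map_inv, h9] at h8
        calc y⁻¹ * ph φ y * w = y⁻¹ * (ph φ y * w * (ph φ y)⁻¹) * ph φ y := by group
          _ = y⁻¹ * (y * w * y⁻¹) * ph φ y := by rw [h8]
          _ = w * (y⁻¹ * ph φ y) := by group
    rw [inv_mul_eq_one] at hc
    exact hc.symm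

omit hφ h3 hφq hM
/-- the theorem in the form of the statement -/
theorem final {K : Type*} [Field K] [Fintype K] (q : ℕ) (hq : IsPrimePow q)
    (hK : Fintype.card K = q ^ 3) (M : Subgroup (GL (D4).Idx K))
    (hM : ∀ g : GL (D4).Idx K, g ∈ M ↔ g ∈ Cfsg.Lie.twistedD4 K q ∧ ∀ i j : (D4).Idx,
      ((g : Matrix (D4).Idx (D4).Idx K) i j) ^ q = (g : Matrix (D4).Idx (D4).Idx K) i j) :
    M ≠ Cfsg.Lie.twistedD4 K q ∧ ∀ H : Subgroup (GL (D4).Idx K), M ≤ H → H ≤ Cfsg.Lie.twistedD4 K q →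
      H = M ∨ H = Cfsg.Lie.twistedD4 K q := by
  have hq1 : 1 < q := hq.one_lt
  have hK' : Nat.card K = q ^ 3 := by rw [Nat.card_eq_fintype_card]; exact hK
  obtain ⟨φ, hφ, hφq⟩ := H22.TwAut.exists_frob hq (by norm_num : (3 : ℕ) ≠ 0) hK'
  have h3 : ∀ t : K, φ (φ (φ t)) = t := by
    intro t
    rw [hφq, hφq, hφq, ← pow_mul, ← pow_mul]
    have := FiniteField.pow_card t
    rwa [hK, show q ^ 3 = q * (q * q) by ring] at this
  have hF : Nat.card (Fx φ) = q := by
    have h : Nat.card {t : K // φ t = t} = q := by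
      simp only [hφq]
      exact H22.TwAut.card_fixed hq1 (by norm_num) hK'
    exact h
  have hex : ∃ t : K, φ t ≠ t := by
    by_contra h
    push Not at h
    have h1 : Nat.card (Fx φ) = Nat.card K := by
      have : (Fx φ : Set K) = Set.univ := by
        ext t; simp only [SetLike.mem_coe, mem_Fx, Set.mem_univ, iff_true]; exact h t
      have h2 : Nat.card (Fx φ : Set K) = Nat.card K := by rw [this]; exact Nat.card_congr (Equiv.Set.univ K)
      exact h2
    rw [hF, hK'] at h1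
    have h2 : q ^ 1 < q ^ 3 := Nat.pow_lt_pow_right hq1 (by norm_num)
    rw [pow_one] at h2
    exact absurd h1 h2.ne
  refine main hφ h3 hφq (fun g => ?_) hK' hF hex (H22.TwD4.Γ_eq (H22.TwD4.RR K) (hm K) φ hφ h3 hφq)
  rw [hM]
  refine and_congr_right fun _ => ?_
  constructor
  · intro h
    apply Units.ext
    ext i j
    exact (hφq _).trans (h i j)
  · intro h i j
    have := congrArg (fun g : GL (D4).Idx K => (g : Matrix (D4).Idx (D4).Idx K) i j) h
    exact (hφq _).symm.trans this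

end H41.Te5
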