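import Cfsg.Agent.Lib.H22.TwE6b
import Cfsg.Agent.Lib.H22.ChevField
import Cfsg.Agent.Lib.H41.Td6

/-!
Explicit relations in the Chevalley group of type `E₆`.
-/

set_option autoImplicit false
set_option linter.unusedSectionVars false
set_option linter.unusedVariables false

namespace H41.Tf1

open H22.ChevRel H22.ChevSys H22.RGD H22.ChevStd H22.RCCheck H22.Coord H41.Td6
open Cfsg.Lie (ChevalleyDatum)
open scoped MatrixGroups Matrix

local notation "E6" => Cfsg.Lie.chevE6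
local notation "X6" => H22.PoinE6.rcxE6

/-- relations -/
theorem RR (K : Type*) [Field K] : Rel E6 K := H22.ChevAll.rel _ (by simp) K

/-- root elements -/
noncomputable def x {K : Type*} [Field K] (r : ℕ) (t : K) : GL (E6).Idx K := xg (RR K) r t

variable {K : Type*} [Field K]

theorem x_add (r : ℕ) (t u : K) : x r (t + u) = x r t * x r u := (xg_mul _ r t u).symm
theorem x_zero' (r : ℕ) : x r (0 : K) = 1 := xg_zero _ r
theorem x_inv (r : ℕ) (t : K) : (x r t)⁻¹ = x r (-t) := xg_inv _ r t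
theorem x_inj {r : ℕ} (hr : r < (E6).nroots) {t u : K} (h : x r t = x r u) : t = u :=
  xg_inj _ (X6).rc hr h

/-- check for commuting root elements -/
def okc (r s : ℕ) : Bool := decide (r < (E6).nroots ∧ s < (E6).nroots ∧ s ≠ r ∧ s ≠ (E6).neg r ∧
  (E6).commTerms r s = [])

/-- check for noncommuting root elements -/
def okd (r s k : ℕ) (C : ℤ) : Bool := decide (r < (E6).nroots ∧ s < (E6).nroots ∧ s ≠ r ∧ s ≠ (E6).neg r ∧
  (E6).commTerms r s = [(k, C, 1, 1)])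

theorem C0 {r s : ℕ} (h : okc r s = true) (t u : K) : x r t * x s u = x s u * x r t := by
  have h := of_decide_eq_true h
  exact c0 _ h.1 h.2.1 h.2.2.1 h.2.2.2.1 h.2.2.2.2 t u

theorem J0 {r s : ℕ} (h : okc r s = true) (t u : K) : x r t * x s u * (x r t)⁻¹ = x s u := by
  rw [C0 h, mul_inv_cancel_right]

theorem J1 {r s k : ℕ} {C : ℤ} (h : okd r s k C = true) (t u : K) :
    x r t * x s u * (x r t)⁻¹ = x s u * x k ((C : K) * (t * u)) := by
  have h := of_decide_eq_true h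
  exact cj1 _ h.1 h.2.1 h.2.2.1 h.2.2.2.1 h.2.2.2.2 t u

/-- check for conjugation -/
def ok (e b : ℕ) (L : List ℕ) : Bool :=
  decide (e < (E6).nroots) && (decide (b < (E6).nroots) && ((e == b) || (decide (b ≠ e) && (decide (b ≠ (E6).neg e) &&
    (match (E6).commTerms e b with
      | [] => true
      | [(k, C, 1, 1)] => decide (k ∈ L)
      | _ => false)))))

/-- the group generated by some root groups -/
def GL' (K : Type*) [Field K] (L : List ℕ) : Subgroup (GL (E6).Idx K) :=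
  Subgroup.closure {g | ∃ b ∈ L, ∃ t : K, g = x b t}

theorem mem_G {L : List ℕ} {b : ℕ} (hb : b ∈ L) (t : K) : x b t ∈ GL' K L :=
  Subgroup.subset_closure ⟨b, hb, t, rfl⟩

theorem ok_conj {e b : ℕ} {L : List ℕ} (h : ok e b L = true) (t u : K) :
    ∃ w ∈ GL' K L, x e t * x b u * (x e t)⁻¹ = x b u * w := by
  unfold ok at h
  simp only [Bool.and_eq_true, Bool.or_eq_true, decide_eq_true_eq, beq_iff_eq] at h
  obtain ⟨h1, h2, h3 | ⟨h3, h4, h5⟩⟩ := h
  · subst h3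
    refine ⟨1, one_mem _, ?_⟩
    rw [mul_one, ← x_add, add_comm, x_add, mul_inv_cancel_right]
  · split at h5
    · rename_i hC
      refine ⟨1, one_mem _, ?_⟩
      rw [mul_one]
      exact cj0 (RR K) h1 h2 h3 h4 hC t u
    · rename_i k C hC
      refine ⟨_, mem_G (of_decide_eq_true h5) ((C : K) * (t * u)), ?_⟩
      exact cj1 (RR K) h1 h2 h3 h4 hC t u
    · cases h5

theorem ok_stab {e : ℕ} {L : List ℕ} (h : ∀ b ∈ L, ok e b L = true) (t : K) : x e t ∈ stabSub (GL' K L) := by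
  have key : ∀ (t : K), cj (x e t) (GL' K L) ≤ GL' K L := by
    intro t
    unfold cj
    conv_lhs => unfold GL'
    rw [MonoidHom.map_closure, Subgroup.closure_le]
    rintro _ ⟨_, ⟨b, hb, u, rfl⟩, rfl⟩
    obtain ⟨w, hw, e1⟩ := ok_conj (h b hb) t u
    change x e t * x b u * (x e t)⁻¹ ∈ GL' K L
    rw [e1]
    exact mul_mem (mem_G hb u) hw
  rw [mem_stabSub]
  apply le_antisymm (key t)
  have := cj_mono (g := x e t) (key (-t))
  rw [← cj_mul, ← x_add, add_neg_cancel, x_zero', cj_one] at this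
  exact this

/-- the field automorphism -/
noncomputable def ph (φ : K →+* K) : GL (E6).Idx K →* GL (E6).Idx K := Matrix.GeneralLinearGroup.map φ

theorem ph_x (φ : K →+* K) (r : ℕ) (t : K) : ph φ (x r t) = x r (φ t) := Units.ext (H22.ChevField.x_map φ r t)

/-- elements moving a given element inside a coset -/
def N1 (s : GL (E6).Idx K) (T : Subgroup (GL (E6).Idx K)) : Subgroup (GL (E6).Idx K) where
  carrier := {g | g ∈ stabSub T ∧ ∃ w ∈ T, g * s * g⁻¹ = s * w}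
  one_mem' := ⟨one_mem _, 1, one_mem _, by simp⟩
  mul_mem' := by
    rintro g h ⟨hg, w, hw, e⟩ ⟨hh, v, hv, e'⟩
    refine ⟨mul_mem hg hh, w * (g * v * g⁻¹), mul_mem hw (conj_mem_of_stabSub hg hv), ?_⟩
    have : g * h * s * (g * h)⁻¹ = g * (h * s * h⁻¹) * g⁻¹ := by group
    rw [this, e', conj_mul', e, mul_assoc]
  inv_mem' := by
    rintro g ⟨hg, w, hw, e⟩
    refine ⟨inv_mem hg, g⁻¹ * w⁻¹ * g⁻¹⁻¹, conj_mem_of_stabSub (inv_mem hg) (inv_mem hw), ?_⟩
    have : s = g⁻¹ * (s * w) * g := by rw [← e]; group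
    have e2 : g⁻¹ * s * g⁻¹⁻¹ = g⁻¹ * (s * w) * g * (g⁻¹ * w⁻¹ * g⁻¹⁻¹) := by group
    rw [e2, ← this]

/-- elements with a small commutator with a given element -/
def N2 (r : GL (E6).Idx K) (T : Subgroup (GL (E6).Idx K)) : Subgroup (GL (E6).Idx K) where
  carrier := {g | g ∈ stabSub T ∧ r * g * r⁻¹ * g⁻¹ ∈ T}
  one_mem' := ⟨one_mem _, by simp⟩
  mul_mem' := by
    rintro g h ⟨hg, e⟩ ⟨hh, e'⟩
    refine ⟨mul_mem hg hh, ?_⟩
    have : r * (g * h) * r⁻¹ * (g * h)⁻¹ = (r * g * r⁻¹ * g⁻¹) * (g * (r * h * r⁻¹ * h⁻¹) * g⁻¹) := by group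
    change r * (g * h) * r⁻¹ * (g * h)⁻¹ ∈ T
    rw [this]
    exact mul_mem e (conj_mem_of_stabSub hg e')
  inv_mem' := by
    rintro g ⟨hg, e⟩
    refine ⟨inv_mem hg, ?_⟩
    have : r * g⁻¹ * r⁻¹ * g⁻¹⁻¹ = g⁻¹ * (r * g * r⁻¹ * g⁻¹)⁻¹ * g⁻¹⁻¹ := by group
    change r * g⁻¹ * r⁻¹ * g⁻¹⁻¹ ∈ T
    rw [this]
    exact conj_mem_of_stabSub (inv_mem hg) (inv_mem e)

/-- the data of a dichotomy -/
structure Dt where
  s : ℕ
  d1 : ℕ
  d2 : ℕ
  a1 : ℕ
  a2 : ℕ
  r : ℕ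
  b1 : ℕ
  b2 : ℕ
  A1 : ℤ
  A2 : ℤ
  B1 : ℤ
  B2 : ℤ
  T : List ℕ
  A : List ℕ
  kd : ℕ
  Cd : ℤ
  Cb : ℤ

/-- positive roots -/
def pos : List ℕ := List.range' 36 36

/-- the check -/
def Dt.ck (D : Dt) : Bool :=
  (pos.all fun e => (D.T.all fun b => ok e b D.T) && ((e == D.d1) || (e == D.d2) || ok e D.s D.T)) &&
  (okd D.d1 D.s D.a1 D.A1 && okd D.d2 D.s D.a2 D.A2 && okd D.d1 D.a2 D.kd D.Cd && decide (D.kd ∈ D.T)) &&
  (okd D.r D.a1 D.b1 D.B1 && okd D.r D.a2 D.b2 D.B2 && okd D.a1 D.b2 71 D.Cb && okc D.a2 D.b2 && okc D.a1 D.b1) &&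
  ((D.s :: D.T).all fun b => ok D.r b D.A && (D.A.all fun c => ok b c D.A)) &&
  ([D.a1, D.a2, D.b1, D.b2].all fun b => D.A.all fun c => ok b c D.A) && okc D.s D.b1 && okc D.s D.b2 &&
  okc D.a1 D.a2 && decide (71 ∈ D.A)

/-- the three dichotomies -/
def D1 : Dt := ⟨65, 42, 37, 68, 66, 11, 50, 48, 1, 1, -1, -1, [69, 70, 71], [46, 47, 51, 53, 71], 69, 1, -1⟩
/-- the three dichotomies -/
def D2 : Dt := ⟨53, 56, 36, 64, 54, 32, 62, 52, -1, 1, 1, 1, [55, 65, 66, 67, 68, 69, 70, 71],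
  [46, 51, 63, 69, 71], 65, -1, -1⟩
/-- the three dichotomies -/
def D3 : Dt := ⟨47, 42, 37, 50, 48, 60, 68, 66, 1, 1, -1, -1,
  [49, 51, 52, 53, 54, 55, 61, 62, 63, 64, 65, 66, 67, 68, 69, 70, 71], [63, 65, 69, 70, 71], 51, 1, 1⟩

theorem ckD1 : D1.ck = true := by decide +kernel
theorem ckD2 : D2.ck = true := by decide +kernel
theorem ckD3 : D3.ck = true := by decide +kernel

end H41.Tf1
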