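import Cfsg.Agent.Lib.H41.Tf1

/-!
The commutator calculation in the Chevalley group of type `E₆`.
-/

set_option autoImplicit false
set_option linter.unusedSectionVars false
set_option linter.unusedVariables false

namespace H41.Tf2

open H22.ChevRel H22.ChevSys H22.RGD H41.Td6 H41.Tf1
open Cfsg.Lie (ChevalleyDatum)
open scoped MatrixGroups Matrix

local notation "E6" => Cfsg.Lie.chevE6

variable {K : Type*} [Field K]

/-- the positive roots except two -/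
def Dt.U (D : Dt) : List ℕ := pos.filter fun e => !((e == D.d1) || (e == D.d2))

/-- the short element -/
noncomputable def yy (D : Dt) (t t' : K) : GL (E6).Idx K :=
  x D.b1 ((D.B1 : K) * ((D.A1 : K) * t)) * x D.b2 ((D.B2 : K) * ((D.A2 : K) * t'))

theorem dt_main (D : Dt) (hD : D.ck = true) {v : GL (E6).Idx K} {t t' : K}
    (hv : v ∈ GL' K (Dt.U D)) (hpd : D.d1 ∈ pos ∧ D.d2 ∈ pos) :
    ∃ h ∈ GL' K D.A, x D.r 1 * (x D.d1 t * x D.d2 t' * v * x D.s 1 * (x D.d1 t * x D.d2 t' * v)⁻¹) * (x D.r 1)⁻¹ *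
      (x D.d1 t * x D.d2 t' * v * x D.s 1 * (x D.d1 t * x D.d2 t' * v)⁻¹)⁻¹ = yy D t t' * h := by
  unfold Dt.ck at hD
  simp only [Bool.and_eq_true, List.all_eq_true, Bool.or_eq_true, beq_iff_eq, decide_eq_true_eq] at hD
  obtain ⟨⟨⟨⟨⟨⟨⟨⟨h1, h2⟩, h3⟩, h4⟩, h5⟩, h6⟩, h7⟩, h8⟩, h9⟩ := hD
  obtain ⟨⟨⟨g1, g2⟩, g3⟩, g4⟩ := h2
  obtain ⟨⟨⟨⟨k1, k2⟩, k3⟩, k4⟩, k5⟩ := h3
  have stT : ∀ e ∈ pos, ∀ κ : K, x e κ ∈ stabSub (GL' K D.T) := fun e he κ => ok_stab (h1 e he).1 κ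
  -- `v`
  have hvN : v ∈ N1 (x D.s 1) (GL' K D.T) := by
    refine (Subgroup.closure_le _).2 ?_ hv
    rintro _ ⟨e, he, κ, rfl⟩
    unfold Dt.U at he
    simp only [List.mem_filter, Bool.not_eq_true', Bool.or_eq_false_iff, beq_eq_false_iff_ne] at he
    refine ⟨stT e he.1 κ, ?_⟩
    rcases (h1 e he.1).2 with (h | h) | h
    · exact absurd h he.2.1
    · exact absurd h he.2.2
    · exact ok_conj h κ 1
  obtain ⟨-, w, hw, e1⟩ := hvN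
  set X := x D.d1 t * x D.d2 t' with hX
  have hXs : X ∈ stabSub (GL' K D.T) := mul_mem (stT _ hpd.1 t) (stT _ hpd.2 t')
  set y := x D.a1 ((D.A1 : K) * t) * x D.a2 ((D.A2 : K) * t') with hy
  -- `X x_s X⁻¹`
  have e2 : X * x D.s 1 * X⁻¹ = x D.s 1 * y * x D.kd ((D.Cd : K) * (t * ((D.A2 : K) * t'))) := by
    have a1 : X * x D.s 1 * X⁻¹ = x D.d1 t * (x D.d2 t' * x D.s 1 * (x D.d2 t')⁻¹) * (x D.d1 t)⁻¹ := by
      rw [hX]; group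
    rw [a1, J1 g2, conj_mul', J1 g1, J1 g3, hy]
    simp only [mul_one, mul_assoc]
  have e3 : X * v * x D.s 1 * (X * v)⁻¹ = x D.s 1 * y *
      (x D.kd ((D.Cd : K) * (t * ((D.A2 : K) * t'))) * (X * w * X⁻¹)) := by
    have a1 : X * v * x D.s 1 * (X * v)⁻¹ = X * (v * x D.s 1 * v⁻¹) * X⁻¹ := by group
    rw [a1, e1, conj_mul', e2]
    simp only [mul_assoc]
  set w3 := x D.kd ((D.Cd : K) * (t * ((D.A2 : K) * t'))) * (X * w * X⁻¹) with hw3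
  have hw3T : w3 ∈ GL' K D.T := mul_mem (mem_G g4 _) (conj_mem_of_stabSub hXs hw)
  rw [e3]
  -- the group `P`
  have stA : ∀ b, (∀ c ∈ D.A, ok b c D.A = true) → ∀ κ : K, x b κ ∈ stabSub (GL' K D.A) :=
    fun b hb κ => ok_stab hb κ
  have hP : ∀ b ∈ D.s :: D.T, ∀ κ : K, x b κ ∈ N2 (x D.r 1) (GL' K D.A) := by
    intro b hb κ
    obtain ⟨m1, m2⟩ := h4 b hb
    refine ⟨stA b m2 κ, ?_⟩
    obtain ⟨w', hw', e⟩ := ok_conj m1 (1 : K) κ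
    rw [e]
    exact conj_mem_of_stabSub (stA b m2 κ) hw'
  have hs2 : x D.s 1 ∈ N2 (x D.r 1) (GL' K D.A) := hP _ List.mem_cons_self 1
  have hw4 : w3 ∈ N2 (x D.r 1) (GL' K D.A) := by
    refine (Subgroup.closure_le _).2 ?_ hw3T
    rintro _ ⟨e, he, κ, rfl⟩
    exact hP e (List.mem_cons_of_mem _ he) κ
  obtain ⟨s1, s2⟩ := hs2
  obtain ⟨t1, t2⟩ := hw4
  have mA : ∀ b ∈ [D.a1, D.a2, D.b1, D.b2], ∀ κ : K, x b κ ∈ stabSub (GL' K D.A) := by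
    intro b hb κ
    exact stA b (h5 b hb) κ
  have hyA : y ∈ stabSub (GL' K D.A) := mul_mem (mA _ (by simp) _) (mA _ (by simp) _)
  have hyyA : yy D t t' ∈ stabSub (GL' K D.A) := mul_mem (mA _ (by simp) _) (mA _ (by simp) _)
  -- the commutator with `y`
  have e5 : x D.r 1 * y * (x D.r 1)⁻¹ * y⁻¹ = yy D t t' *
      x 71 ((D.Cb : K) * (((D.A1 : K) * t) * ((D.B2 : K) * ((D.A2 : K) * t')))) := by
    have a1 : x D.r 1 * y * (x D.r 1)⁻¹ = (x D.a1 ((D.A1 : K) * t) * x D.b1 ((D.B1 : K) * ((D.A1 : K) * t))) *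
        (x D.a2 ((D.A2 : K) * t') * x D.b2 ((D.B2 : K) * ((D.A2 : K) * t'))) := by
      rw [hy, conj_mul', J1 k1, J1 k2, one_mul, one_mul]
    have b1 := J0 k4 ((D.A2 : K) * t') ((D.B2 : K) * ((D.A2 : K) * t'))
    have b2 := J0 k5 ((D.A1 : K) * t) ((D.B1 : K) * ((D.A1 : K) * t))
    have b3 := J1 k3 ((D.A1 : K) * t) ((D.B2 : K) * ((D.A2 : K) * t'))
    rw [a1, hy]
    unfold yy
    set p := x D.a1 ((D.A1 : K) * t)
    set p' := x D.a2 ((D.A2 : K) * t')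
    set n := x D.b1 ((D.B1 : K) * ((D.A1 : K) * t))
    set n' := x D.b2 ((D.B2 : K) * ((D.A2 : K) * t'))
    have a2 : p * n * (p' * n') * (p * p')⁻¹ = (p * n * p⁻¹) * (p * (p' * n' * p'⁻¹) * p⁻¹) := by group
    rw [a2, b1, b2, b3]
    simp only [mul_assoc]
  set c71 := x 71 ((D.Cb : K) * (((D.A1 : K) * t) * ((D.B2 : K) * ((D.A2 : K) * t')))) with hc71
  have hcA : c71 ∈ GL' K D.A := mem_G h9 _
  have e6 : x D.s 1 * yy D t t' * (x D.s 1)⁻¹ = yy D t t' := by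
    unfold yy
    rw [conj_mul', J0 h6, J0 h7]
  set Yv := yy D t t' with hYv
  set ks := x D.r (1 : K) * x D.s 1 * (x D.r 1)⁻¹ * (x D.s 1)⁻¹ with hks
  set kw := x D.r 1 * w3 * (x D.r 1)⁻¹ * w3⁻¹ with hkw
  set ky := x D.r 1 * y * (x D.r 1)⁻¹ * y⁻¹ with hky
  have e7 : x D.r 1 * (x D.s 1 * y * w3) * (x D.r 1)⁻¹ * (x D.s 1 * y * w3)⁻¹ =
      ks * (x D.s 1 * (ky * (y * kw * y⁻¹)) * (x D.s 1)⁻¹) := by
    rw [hks, hkw, hky]; group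
  rw [e7, e5]
  have e8 : ks * (x D.s 1 * (Yv * c71 * (y * kw * y⁻¹)) * (x D.s 1)⁻¹) =
      Yv * ((Yv⁻¹ * ks * Yv⁻¹⁻¹) * (x D.s 1 * (c71 * (y * kw * y⁻¹)) * (x D.s 1)⁻¹)) := by
    have a1 : x D.s 1 * (Yv * c71 * (y * kw * y⁻¹)) * (x D.s 1)⁻¹ = (x D.s 1 * Yv * (x D.s 1)⁻¹) *
        (x D.s 1 * (c71 * (y * kw * y⁻¹)) * (x D.s 1)⁻¹) := by group
    rw [a1, e6]
    group
  refine ⟨_, ?_, e8⟩
  exact mul_mem (conj_mem_of_stabSub (inv_mem hyyA) s2)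
    (conj_mem_of_stabSub s1 (mul_mem hcA (conj_mem_of_stabSub hyA t2)))

end H41.Tf2
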