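import Cfsg.Agent.Lib.H22.RGDBruhat

/-!
Elements of a group with root subgroups commuting with elements of the root subgroups.
-/

set_option autoImplicit false

namespace H41.Tf3

open H22.RGD H22.RGD.Sys

variable {G : Type*} [Group G] {Φ I : Type*} {C : RootComb Φ I} (S : Sys G C)

theorem mem_Ui_of_conj [Finite Φ] {n : G} {w : Equiv.Perm Φ} (hn : S.Rep n w) {i : I}
    (hw : ¬ C.pos (w (C.simple i))) {y : G} (hy : y ∈ S.U) (hb : n * y * n⁻¹ ∈ S.B) : y ∈ S.Ui i := by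
  obtain ⟨v, hv, x, hx, rfl⟩ := (S.mem_U_iff i).1 hy
  by_cases hx1 : x = 1
  · rw [hx1, mul_one]; exact hv
  exfalso
  have h1 : S.n i * x * (S.n i)⁻¹ ∈ S.X (C.neg (C.simple i)) := by
    rw [← S.cj_n_simple]; exact conj_mem_cj hx
  have h2 : S.n i * x * (S.n i)⁻¹ ≠ 1 := by
    intro h
    apply hx1
    have : x = (S.n i)⁻¹ * (S.n i * x * (S.n i)⁻¹) * S.n i := by group
    rw [this, h]; group
  obtain ⟨y1, hy1, h, hh, y2, hy2, e⟩ := S.rank_one i _ h1 h2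
  have hv' : S.n i * v * (S.n i)⁻¹ ∈ S.Ui i := by
    have := S.n_stab_Ui i
    rw [← this]
    exact conj_mem_cj hv
  have hg : S.Rep (S.n i * n⁻¹) (C.refl i * w⁻¹) := (S.rep_n i).mul hn.inv
  have hgp : C.pos ((C.refl i * w⁻¹)⁻¹ (C.simple i)) := by
    rw [mul_inv_rev, inv_inv, RootComb.refl_inv, Equiv.Perm.mul_apply, C.refl_simple, hn.neg, C.pos_neg]
    exact hw
  have e1 : S.n i * (h * y2) * (S.n i * n⁻¹) =
      ((S.n i * v * (S.n i)⁻¹) * y1)⁻¹ * (S.n i * n⁻¹) * (n * (v * x) * n⁻¹) := by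
    have : S.n i * h * y2 = y1⁻¹ * (S.n i * x * (S.n i)⁻¹) := by rw [e]; group
    calc S.n i * (h * y2) * (S.n i * n⁻¹) = (S.n i * h * y2) * (S.n i * n⁻¹) := by group
      _ = _ := by rw [this]; group
  have hb0 : h * y2 ∈ S.B := mul_mem (S.H_le_B hh) (S.U_le_B (S.X_le_U (C.simple_pos i) hy2))
  have hb' : ((S.n i * v * (S.n i)⁻¹) * y1)⁻¹ ∈ S.B :=
    inv_mem (mul_mem (S.U_le_B (S.Ui_le_U i hv')) (S.U_le_B (S.X_le_U (C.simple_pos i) hy1)))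
  rcases S.mul_mem_cases i hg hb0 with ⟨c1, hc1, c2, hc2, e2⟩ | ⟨h3, -⟩
  · rw [e1] at e2
    have e3 : (((S.n i * v * (S.n i)⁻¹) * y1)⁻¹)⁻¹ * c1 * (S.n i * (S.n i * n⁻¹)) *
        (c2 * (n * (v * x) * n⁻¹)⁻¹) = S.n i * n⁻¹ := by
      set p := ((S.n i * v * (S.n i)⁻¹) * y1)⁻¹
      set r := n * (v * x) * n⁻¹
      calc p⁻¹ * c1 * (S.n i * (S.n i * n⁻¹)) * (c2 * r⁻¹) =
          p⁻¹ * (c1 * (S.n i * (S.n i * n⁻¹)) * c2) * r⁻¹ := by group
        _ = p⁻¹ * (p * (S.n i * n⁻¹) * r) * r⁻¹ := by rw [← e2]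
        _ = _ := by group
    have h4 := S.double_coset_unique ((S.rep_n i).mul hg) hg (mul_mem (inv_mem hb') hc1)
      (mul_mem hc2 (inv_mem hb)) e3
    have h5 : C.refl i = 1 := by
      have := congrArg (fun z => z * (C.refl i * w⁻¹)⁻¹) h4
      simp only [mul_assoc, mul_inv_cancel, mul_one] at this
      exact this
    have h6 := C.refl_simple i
    rw [h5, Equiv.Perm.one_apply] at h6
    have h7 := C.simple_pos i
    rw [h6] at h7
    exact C.not_pos_neg _ (C.simple_pos i) h7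
  · exact h3 hgp

theorem B_stab_U : S.B ≤ stabSub S.U :=
  sup_le (fun u hu => cj_eq_self_of_mem hu) S.H_le_stab_U

theorem B_stab_Ui (i : I) : S.B ≤ stabSub (S.Ui i) := by
  intro b hb
  obtain ⟨u, hu, h, hh, rfl⟩ := S.mem_B.1 hb
  obtain ⟨v, hv, x, hx, rfl⟩ := (S.mem_U_iff i).1 hu
  exact mul_mem (mul_mem (cj_eq_self_of_mem hv) (S.simple_le i hx)) (S.H_le_stab_Ui i hh)

/-- elements commuting with nontrivial elements of the simple root groups -/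
theorem mem_B_of_comm [Finite Φ] {c : G} (hc : c ∈ S.Γ)
    (h : ∀ i, ∃ x ∈ S.X (C.simple i), x ≠ 1 ∧ c * x = x * c) : c ∈ S.B := by
  obtain ⟨b1, hb1, m, hm, b2, hb2, rfl⟩ := S.bruhat hc
  obtain ⟨w, hw⟩ := S.exists_rep hm
  by_cases h0 : C.len w = 0
  · exact mul_mem (mul_mem hb1 (S.H_le_B (S.mem_H_of_len_zero hw h0))) hb2
  · exfalso
    obtain ⟨i, hi⟩ := S.exists_right_descent hw.2.1 h0
    obtain ⟨x, hx, hx1, e⟩ := h i
    have hxU := S.X_le_U (C.simple_pos i) hx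
    have k1 : b2 * x * b2⁻¹ ∈ S.U := conj_mem_of_stabSub (B_stab_U S hb2) hxU
    have k2 : m * (b2 * x * b2⁻¹) * m⁻¹ ∈ S.B := by
      have : m * (b2 * x * b2⁻¹) * m⁻¹ = b1⁻¹ * x * b1 := by
        have e2 : b1 * m * b2 * x * (b1 * m * b2)⁻¹ = x := by rw [e, mul_inv_cancel_right]
        calc m * (b2 * x * b2⁻¹) * m⁻¹ = b1⁻¹ * (b1 * m * b2 * x * (b1 * m * b2)⁻¹) * b1 := by group
          _ = _ := by rw [e2]
      rw [this]
      exact mul_mem (mul_mem (inv_mem hb1) (S.U_le_B hxU)) hb1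
    have k3 := mem_Ui_of_conj S hw hi k1 k2
    have k4 : x ∈ S.Ui i := by
      have := inv_conj_mem_of_stabSub (B_stab_Ui S i hb2) k3
      have e3 : b2⁻¹ * (b2 * x * b2⁻¹) * b2 = x := by group
      rwa [e3] at this
    have k5 : x ∈ S.Ui i ⊓ S.X (C.simple i) := ⟨k4, hx⟩
    rw [S.Ui_inf_X i, Subgroup.mem_bot] at k5
    exact hx1 k5

/-- elements of the torus -/
theorem mem_H_of_comm [Finite Φ] {c : G} (hc : c ∈ S.Γ) {L : List I}
    (hneg : ∀ r, C.pos r → ¬ C.pos (C.w L r))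
    (h : ∀ i, ∃ x ∈ S.X (C.simple i), x ≠ 1 ∧ c * x = x * c ∧
      c * (S.nw L * x * (S.nw L)⁻¹) = S.nw L * x * (S.nw L)⁻¹ * c) : c ∈ S.H := by
  set n := S.nw L with hn
  have hnΓ : n ∈ S.Γ := S.N_le_Γ (S.nw_mem_N L)
  have h1 : c ∈ S.B := mem_B_of_comm S hc fun i => by
    obtain ⟨x, hx, hx1, e, _⟩ := h i
    exact ⟨x, hx, hx1, e⟩
  have h2 : n⁻¹ * c * n ∈ S.B := by
    refine mem_B_of_comm S (mul_mem (mul_mem (inv_mem hnΓ) hc) hnΓ) fun i => ?_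
    obtain ⟨x, hx, hx1, _, e⟩ := h i
    refine ⟨x, hx, hx1, ?_⟩
    calc n⁻¹ * c * n * x = n⁻¹ * (c * (n * x * n⁻¹)) * n := by group
      _ = n⁻¹ * (n * x * n⁻¹ * c) * n := by rw [e]
      _ = _ := by group
  obtain ⟨u, hu, k, hk, e⟩ := S.mem_B.1 h2
  have hk' : n * k * n⁻¹ ∈ S.H := conj_mem_of_stabSub (S.nw_stab_H L) hk
  have hu' : n * u * n⁻¹ ∈ S.V := by
    have h4 : cj n S.U ≤ S.V := by
      unfold Sys.U
      rw [cj_iSup]
      refine iSup_le fun s => ?_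
      have := S.cj_nw L s.1
      rw [← hn] at this
      rw [this]
      exact S.X_le_V (hneg _ s.2)
    exact h4 (conj_mem_cj hu)
  have e1 : c = (n * u * n⁻¹) * (n * k * n⁻¹) := by
    have : c = n * (n⁻¹ * c * n) * n⁻¹ := by group
    rw [this, e]; group
  have e2 : n * u * n⁻¹ = 1 := by
    refine S.eq_one_of_mem_B_V ?_ hu'
    have : n * u * n⁻¹ = c * (n * k * n⁻¹)⁻¹ := by rw [e1]; group
    rw [this]
    exact mul_mem h1 (inv_mem (S.H_le_B hk'))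
  rw [e1, e2, one_mul]
  exact hk'

/-- an element of `U` split along a simple root -/
theorem mem_U_split (i : I) {u : G} (hu : u ∈ S.U) : ∃ g ∈ S.X (C.simple i), ∃ v ∈ S.Ui i, u = g * v := by
  rw [← S.U_eq_sup i] at hu
  exact (mem_sup_of_normalizes' (S.simple_le i)).1 hu

/-- moving along a simple root -/
theorem move {Y M : Subgroup G} (hMY : M ≤ Y) {ρ : Φ} (i : I) {c c' : Φ} (hc : C.refl i c = c')
    (hn : S.n i ∈ M) (hF : ∀ u ∈ S.U, cj u (S.X c') ≤ Y → ∃ m ∈ M, cj u (S.X c') = cj m (S.X ρ))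
    (hu : ∀ u ∈ S.U, cj u (S.X c) ≤ Y → ∃ g ∈ M, ∃ v ∈ S.Ui i, u = g * v) :
    ∀ u ∈ S.U, cj u (S.X c) ≤ Y → ∃ m ∈ M, cj u (S.X c) = cj m (S.X ρ) := by
  intro u hu' hY
  obtain ⟨g, hg, v, hv, rfl⟩ := hu u hu' hY
  set n := S.n i with hn'
  have hv' : n * v * n⁻¹ ∈ S.Ui i := by
    have := S.n_stab_Ui i
    rw [← this]
    exact conj_mem_cj hv
  have e1 : cj (n * v * n⁻¹) (S.X c') = cj (n * g⁻¹) (cj (g * v) (S.X c)) := by
    have h1 : S.X c' = cj n (S.X c) := by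
      have := S.cj_n i c
      rw [hc] at this
      exact this.symm
    have h2 : n * v * n⁻¹ * n = n * g⁻¹ * (g * v) := by group
    rw [h1, ← cj_mul, ← cj_mul, h2]
  have h2 : cj (n * v * n⁻¹) (S.X c') ≤ Y := by
    rw [e1]
    have h3 : n * g⁻¹ ∈ Y := mul_mem (hMY hn) (inv_mem (hMY hg))
    exact (cj_mono hY).trans (le_of_eq (cj_eq_self_of_mem h3))
  obtain ⟨m, hm, e⟩ := hF _ (S.Ui_le_U i hv') h2
  refine ⟨g * n⁻¹ * m, mul_mem (mul_mem hg (inv_mem hn)) hm, ?_⟩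
  have e3 : cj (g * n⁻¹ * m) (S.X ρ) = cj (g * n⁻¹) (cj m (S.X ρ)) := cj_mul _ _ _
  have e4 : g * n⁻¹ * (n * g⁻¹) = 1 := by group
  rw [e3, ← e, e1, ← cj_mul, e4, cj_one]

end H41.Tf3
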