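import Cfsg.Agent.Lib.H41.Tf2
import Cfsg.Agent.Lib.H41.Tf3
import Cfsg.Agent.Lib.H22.TwE6c

/-!
The root subgroups of `²E₆(q)`.
-/

set_option autoImplicit false
set_option linter.unusedSectionVars false
set_option linter.unusedVariables false

namespace H41.Tf4

open H22.RGD H22.Coord H22.RCCheck H22.RCComb H22.ChevTri H22.ChevRel H22.ChevSys H22.ChevMain
open H22.ChevStd H22.ChevSolv H22.ChevUni H22.St H22.TwChev H22.TwSt H22.RCPack H22.TwTab H22.TwX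
open H22.TwDat H22.TwAut H22.ChevTorus H22.TwThm H22.TwPerf H22.TwMisc
open H41.Td6 H41.Tf1 H41.Tf2 H41.Tf3
open Cfsg.Lie (ChevalleyDatum)
open scoped MatrixGroups Matrix

local notation "E6" => Cfsg.Lie.chevE6
local notation "X6" => H22.PoinE6.rcxE6
local notation "F4X" => H22.PoinF4.rcxF4
local notation "Z6" => H22.ChevLex.lexE6
local notation "W6" => H22.TwE6.certE6'
local notation "C4" => comb F4X

/-- multiplicativity -/
theorem hm (K : Type*) [Field K] : ∀ r < (E6).nroots, ∀ c d : K, c ≠ 0 → d ≠ 0 →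
    (E6).hMat K r c * (E6).hMat K r d = (E6).hMat K r (c * d) := H22.St.hmul_all _ H22.TwE6.memE6

variable {K : Type*} [Field K] [Finite K] (φ : K →+* K) (hφ : Function.Surjective φ)

/-- the system of root subgroups -/
noncomputable abbrev S : Sys (GL (E6).Idx K) C4 := H22.TwE6.SM (RR K) (hm K) φ hφ

/-- the automorphism -/
noncomputable abbrev AA : Gr (grp (RR K) (X6).rc (hm K)) (X6).rc := H22.TwE6.A (RR K) (hm K) φ hφ

/-- the Steinberg structure -/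
noncomputable abbrev St' (K : Type*) [Field K] : StG (RR K) ↥((E6).group K) := H22.TwE6.St (RR K) (hm K)

/-- the classes -/
noncomputable abbrev cl (r : Fin (E6).nroots) : Fin 48 := (H22.TwE6.E (RR K) (hm K) φ hφ).clF r

/-- the classes -/
noncomputable abbrev X1' (c : Fin 48) : Subgroup ↥((E6).group K) :=
  X1 ((St' K).stSys X6 Z6 W6) (AA φ hφ).σ (H22.TwE6.E (RR K) (hm K) φ hφ).clF c

theorem mX {c : Fin 48} {g : GL (E6).Idx K} : g ∈ (S φ hφ).X c ↔ ∃ g' ∈ X1' φ hφ c, (g' : GL (E6).Idx K) = g :=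
  Subgroup.mem_map

theorem xb_val (r : ℕ) (t : K) : (((St' K).xb r t : ↥((E6).group K)) : GL (E6).Idx K) = x r t := rfl

/-- an element of the group of a class -/
theorem xb_XX {r : ℕ} (hr : r < (E6).nroots) (t : K) : (St' K).xb r t ∈
    XX ((St' K).stSys X6 Z6 W6) (H22.TwE6.E (RR K) (hm K) φ hφ).clF (cl φ hφ ⟨r, hr⟩) :=
  X_le_XX _ _ rfl ((St' K).xb_mem r t)

theorem long_mem {r : ℕ} (hr : r < (E6).nroots) (h1 : H23.ChevSym.symE6.rh r = r) (h2 : H23.ChevSym.symE6.e r = 1)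
    {t : K} (ht : φ t = t) : x r t ∈ (S φ hφ).X (cl φ hφ ⟨r, hr⟩) := by
  rw [mX]
  refine ⟨(St' K).xb r t, ⟨xb_XX φ hφ hr t, ?_⟩, rfl⟩
  show (AA φ hφ).σ _ = _
  rw [(AA φ hφ).σ_x r hr]
  have e1 : (AA φ hφ).ρ r = r := h1
  have e2 : (AA φ hφ).ε r = 1 := by
    show ((H23.ChevSym.symE6.e r : ℤ) : K) = 1
    rw [h2, Int.cast_one]
  have e3 : (AA φ hφ).φ r t = t := ht
  rw [e1, e2, e3, one_mul]
  rfl

theorem pair_mem {r s : ℕ} (hr : r < (E6).nroots) (hs : s < (E6).nroots) (hc : cl φ hφ ⟨s, hs⟩ = cl φ hφ ⟨r, hr⟩)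
    (h1 : H23.ChevSym.symE6.rh r = s) (h2 : H23.ChevSym.symE6.rh s = r) (ho : okc r s = true) {a b : K}
    (ha : ((H23.ChevSym.symE6.e r : ℤ) : K) * φ a = b) (hb : ((H23.ChevSym.symE6.e s : ℤ) : K) * φ b = a) :
    x r a * x s b ∈ (S φ hφ).X (cl φ hφ ⟨r, hr⟩) := by
  rw [mX]
  refine ⟨(St' K).xb r a * (St' K).xb s b, ⟨mul_mem (xb_XX φ hφ hr a) ?_, ?_⟩, rfl⟩
  · have := xb_XX φ hφ hs b
    rw [hc] at this
    exact this
  · show (AA φ hφ).σ _ = _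
    rw [map_mul, (AA φ hφ).σ_x r hr, (AA φ hφ).σ_x s hs]
    have e1 : (AA φ hφ).ρ r = s := h1
    have e2 : (AA φ hφ).ρ s = r := h2
    have e3 : (AA φ hφ).ε r * (AA φ hφ).φ r a = b := ha
    have e4 : (AA φ hφ).ε s * (AA φ hφ).φ s b = a := hb
    rw [e1, e2, e3, e4]
    apply Subtype.ext
    exact (C0 ho a b).symm

/-- the automorphism on the fixed roots -/
theorem sig_ph {L : List ℕ} (hL : ∀ r ∈ L, r < (E6).nroots ∧ H23.ChevSym.symE6.rh r = r ∧ H23.ChevSym.symE6.e r = 1)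
    {h : GL (E6).Idx K} (hh : h ∈ GL' K L) (hΓ : h ∈ (S φ hφ).Γ) : ph φ h = h := by
  have h1 : GL' K L ≤ (MonoidHom.eqLocus (((E6).group K).subtype.comp (AA φ hφ).σ)
      ((ph φ).comp ((E6).group K).subtype)).map ((E6).group K).subtype := by
    unfold GL'
    rw [Subgroup.closure_le]
    rintro _ ⟨b, hb, t, rfl⟩
    obtain ⟨k1, k2, k3⟩ := hL b hb
    refine ⟨(St' K).xb b t, ?_, rfl⟩
    show (((AA φ hφ).σ ((St' K).xb b t) : ↥((E6).group K)) : GL (E6).Idx K) = ph φ (x b t)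
    rw [(AA φ hφ).σ_x b k1, ph_x]
    have e1 : (AA φ hφ).ρ b = b := k2
    have e2 : (AA φ hφ).ε b = 1 := by
      show ((H23.ChevSym.symE6.e b : ℤ) : K) = 1
      rw [k3, Int.cast_one]
    rw [e1, e2, one_mul]
    rfl
  obtain ⟨g, hg, rfl⟩ := h1 hh
  have h2 : ((E6).group K).subtype g ∈ (H22.TwE6.T (RR K) (hm K) φ hφ).tw.sys.Γ.map ((E6).group K).subtype := by
    exact (le_of_eq (M_Γ (H22.TwE6.T (RR K) (hm K) φ hφ).tw)) hΓ
  obtain ⟨g', hg', e⟩ := h2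
  have e' : g' = g := Subtype.ext e
  rw [e'] at hg'
  have h3 : (AA φ hφ).σ g = g := (H22.TwE6.T (RR K) (hm K) φ hφ).tw.sys_Γ_le hg'
  have h4 : ((E6).group K).subtype ((AA φ hφ).σ g) = ph φ (((E6).group K).subtype g) := hg
  rw [← h4, h3]

/-- the monomial elements are fixed -/
theorem ph_n (i : Fin 4) : ph φ ((S φ hφ).n i) = (S φ hφ).n i := by
  have h : ∀ L : List (Fin (E6).rank), ph φ ((((St' K).stSys X6 Z6 W6).nw L : ↥((E6).group K)) : GL (E6).Idx K) =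
      (((St' K).stSys X6 Z6 W6).nw L : ↥((E6).group K)) := by
    intro L
    induction L with
    | nil => simp
    | cons j L ih =>
      rw [Sys.nw_cons, Subgroup.coe_mul, map_mul, ih]
      congr 1
      show ph φ (((St' K).nb ((E6).simple j) 1 : ↥((E6).group K)) : GL (E6).Idx K) =
        ((St' K).nb ((E6).simple j) 1 : ↥((E6).group K))
      rw [(St' K).nb_def, inv_one]
      show ph φ (x _ 1 * x _ (-1) * x _ 1) = x _ 1 * x _ (-1) * x _ 1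
      simp only [map_mul, ph_x, map_one, map_neg]
  exact h _

theorem n_Γ (i : Fin 4) : (S φ hφ).n i ∈ (S φ hφ).Γ := (S φ hφ).N_le_Γ ((S φ hφ).n_mem_N i)

/-- the highest root group -/
theorem X47 {g : GL (E6).Idx K} : g ∈ (S φ hφ).X (47 : Fin 48) ↔ ∃ t, φ t = t ∧ g = x 71 t := by
  rw [mX]
  have h : ∀ g', g' ∈ X1' φ hφ 47 ↔ _ := fun g' => X1_single Z6 W6 (E := H22.TwE6.E (RR K) (hm K) φ hφ) (c := (47 : Fin 48))
    (ord_single Z6 W6 (r := 71) rfl) rfl rfl (Int.cast_one (R := K)) (g := g')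
  constructor
  · rintro ⟨g', hg', rfl⟩
    obtain ⟨t, ht, rfl⟩ := (h g').1 hg'
    exact ⟨t, ht, rfl⟩
  · rintro ⟨t, ht, rfl⟩
    exact ⟨(St' K).xb 71 t, (h _).2 ⟨t, ht, rfl⟩, rfl⟩

theorem X25 {g : GL (E6).Idx K} : g ∈ (S φ hφ).X (25 : Fin 48) ↔ ∃ t, φ t = t ∧ g = x 39 t := by
  rw [mX]
  have h : ∀ g', g' ∈ X1' φ hφ 25 ↔ _ := fun g' => H22.TwE6.m2 (RR K) (hm K) φ hφ (g := g')
  constructor
  · rintro ⟨g', hg', rfl⟩
    obtain ⟨t, ht, rfl⟩ := (h g').1 hg'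
    exact ⟨t, ht, rfl⟩
  · rintro ⟨t, ht, rfl⟩
    exact ⟨_, (h _).2 ⟨t, ht, rfl⟩, rfl⟩

theorem X24 {g : GL (E6).Idx K} : g ∈ (S φ hφ).X (24 : Fin 48) ↔ ∃ t, φ t = t ∧ g = x 46 t := by
  rw [mX]
  have h : ∀ g', g' ∈ X1' φ hφ 24 ↔ _ := fun g' => H22.TwE6.m3 (RR K) (hm K) φ hφ (g := g')
  constructor
  · rintro ⟨g', hg', rfl⟩
    obtain ⟨t, ht, rfl⟩ := (h g').1 hg'
    exact ⟨t, ht, rfl⟩
  · rintro ⟨t, ht, rfl⟩
    exact ⟨_, (h _).2 ⟨t, ht, rfl⟩, rfl⟩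

variable (h2 : ∀ t : K, φ (φ t) = t)
include h2

theorem X27 {g : GL (E6).Idx K} : g ∈ (S φ hφ).X (27 : Fin 48) ↔ ∃ t, g = x 42 t * x 37 (φ t) := by
  rw [mX]
  have h : ∀ g', g' ∈ X1' φ hφ 27 ↔ _ := fun g' => H22.TwE6.m1 (RR K) (hm K) φ hφ (g := g')
  constructor
  · rintro ⟨g', hg', rfl⟩
    obtain ⟨t, ht, rfl⟩ := (h g').1 hg'
    exact ⟨t, rfl⟩
  · rintro ⟨t, rfl⟩
    exact ⟨_, (h _).2 ⟨t, h2 t, rfl⟩, rfl⟩

theorem X33 {g : GL (E6).Idx K} : g ∈ (S φ hφ).X (33 : Fin 48) ↔ ∃ t, g = x 56 t * x 36 (φ t) := by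
  rw [mX]
  have h : ∀ g', g' ∈ X1' φ hφ 33 ↔ _ := fun g' => H22.TwE6.m0 (RR K) (hm K) φ hφ (g := g')
  constructor
  · rintro ⟨g', hg', rfl⟩
    obtain ⟨t, ht, rfl⟩ := (h g').1 hg'
    exact ⟨t, rfl⟩
  · rintro ⟨t, rfl⟩
    exact ⟨_, (h _).2 ⟨t, h2 t, rfl⟩, rfl⟩

omit h2

/-- the root groups of positive roots inside the big groups -/
theorem X_le_G {c : Fin 48} {L : List ℕ} (hL : ∀ r : Fin (E6).nroots, ttE6.cl.getD r 0 = c.val → (r : ℕ) ∈ L) :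
    (S φ hφ).X c ≤ GL' K L := by
  rintro g hg
  obtain ⟨g', hg', rfl⟩ := (mX φ hφ).1 hg
  have h1 : XX ((St' K).stSys X6 Z6 W6) (H22.TwE6.E (RR K) (hm K) φ hφ).clF c ≤ (GL' K L).comap ((E6).group K).subtype := by
    refine XX_le _ _ fun r hr => ?_
    intro y hy
    obtain ⟨t, rfl⟩ := ((St' K).mem_Xb r.2).1 hy
    have h3 : ttE6.cl.getD r 0 = c.val := congrArg Fin.val hr
    exact mem_G (hL r h3) t
  exact h1 hg'.1

end H41.Tf4
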