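import Cfsg.Agent.Lib.H41.Tf4

/-!
Subgroups of `²E₆(q)` containing the fixed points: short root elements.
-/

set_option autoImplicit false
set_option linter.unusedSectionVars false
set_option linter.unusedVariables false

namespace H41.Tf5

open H22.RGD H22.Coord H22.RCCheck H22.RCComb H22.ChevRel H22.ChevSys H22.ChevMain H22.ChevStd
open H22.TwChev H22.TwSt H22.RCPack H22.TwTab H22.TwX H22.TwDat H22.TwThm H22.TwMisc
open H41.Td6 H41.Tf1 H41.Tf2 H41.Tf3 H41.Tf4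
open Cfsg.Lie (ChevalleyDatum)
open scoped MatrixGroups Matrix

local notation "E6" => Cfsg.Lie.chevE6
local notation "F4X" => H22.PoinF4.rcxF4
local notation "C4" => comb F4X

/-- the fixed field -/
theorem span2 {K : Type*} [Field K] [Finite K] (φ : K →+* K) {q : ℕ} (hK : Nat.card K = q ^ 2)
    (hF : Nat.card {t : K // φ t = t} = q) {t : K} (ht : φ t ≠ t) (w : K) :
    ∃ a b : K, φ a = a ∧ φ b = b ∧ w = a + b * t := by
  let f : ({t : K // φ t = t} × {t : K // φ t = t}) → K := fun p => p.1.1 + p.2.1 * t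
  have hinj : Function.Injective f := by
    rintro ⟨⟨a, ha⟩, ⟨b, hb⟩⟩ ⟨⟨a', ha'⟩, ⟨b', hb'⟩⟩ h
    have h : a + b * t = a' + b' * t := h
    have h1 := congrArg φ h
    simp only [map_add, map_mul, ha, hb, ha', hb'] at h1
    have n1 : t - φ t ≠ 0 := sub_ne_zero.2 (Ne.symm ht)
    have g1 : b - b' = 0 := by
      have : (t - φ t) * (b - b') = 0 := by linear_combination h - h1
      exact (mul_eq_zero.1 this).resolve_left n1
    have g2 : b = b' := sub_eq_zero.1 g1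
    subst g2
    have g3 : a = a' := add_right_cancel h
    subst g3
    rfl
  have hcard : Nat.card ({t : K // φ t = t} × {t : K // φ t = t}) = Nat.card K := by
    rw [Nat.card_prod, hF, hK]; ring
  have hbij := (Nat.bijective_iff_injective_and_card f).2 ⟨hinj, hcard⟩
  obtain ⟨⟨a, b⟩, h⟩ := hbij.2 w
  exact ⟨a.1, b.1, a.2, b.2, h.symm⟩

/-- check for strings -/
def oks (r s k : ℕ) (C C' : ℤ) : Bool := decide (r < (E6).nroots ∧ s < (E6).nroots ∧ k < (E6).nroots ∧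
  (E6).neg r < (E6).nroots ∧ (E6).neg ((E6).neg r) = r ∧ s ≠ r ∧ s ≠ (E6).neg r ∧ k ≠ r ∧ k ≠ (E6).neg r ∧
  k ≠ s ∧ k ≠ (E6).neg s ∧ (E6).commTerms r s = [(k, C, 1, 1)] ∧ (E6).commTerms ((E6).neg r) k = [(s, C', 1, 1)] ∧
  (E6).commTerms ((E6).neg r) s = [] ∧ (E6).commTerms r k = [] ∧ (E6).commTerms s k = [] ∧ C * C' = 1)

theorem str_of {r s k : ℕ} {C C' : ℤ} (h : oks r s k C C' = true) : Str E6 r s k C C' := by
  have h := of_decide_eq_true h
  obtain ⟨h1, h2, h3, h4, h5, h6, h7, h8, h9, h10, h11, h12, h13, h14, h15, h16, h17⟩ := h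
  exact ⟨h1, h2, h3, h4, h5, h6, h7, h8, h9, h10, h11, h12, h13, h14, h15, h16, h17⟩

variable {K : Type*} [Field K]

/-- monomial element -/
noncomputable def nr (K : Type*) [Field K] (r : ℕ) : GL (E6).Idx K := x r 1 * x ((E6).neg r) (-1) * x r 1

theorem nr_up {r s k : ℕ} {C C' : ℤ} (h : oks r s k C C' = true) (u : K) :
    nr K r * x s u * (nr K r)⁻¹ = x k ((C : K) * u) := by
  have := (str_of h).up (RR K) 1 u (one_mul 1)
  rw [one_mul] at this
  exact this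

theorem okS : oks 39 42 43 1 1 = true ∧ oks 39 37 40 (-1) (-1) = true ∧ okd 37 39 40 1 = true ∧
    okd 42 39 43 (-1) = true ∧ okd 42 40 44 (-1) = true ∧ okc 42 37 = true := by decide +kernel

/-- commutators of the simple short root elements with the simple long root elements -/
theorem y_conj (t t' b : K) : x 42 t * x 37 t' * x 39 b * (x 42 t * x 37 t')⁻¹ =
    x 39 b * (x 43 (-(t * b)) * x 40 (t' * b)) * x 44 (-(t * (t' * b))) := by
  obtain ⟨-, -, o3, o4, o5, -⟩ := okS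
  have e1 : x 42 t * x 37 t' * x 39 b * (x 42 t * x 37 t')⁻¹ =
      x 42 t * (x 37 t' * x 39 b * (x 37 t')⁻¹) * (x 42 t)⁻¹ := by group
  rw [e1, J1 o3, conj_mul', J1 o4, J1 o5]
  push_cast
  simp only [one_mul, neg_mul, mul_assoc]

theorem n_y (t t' : K) : nr K 39 * (x 42 t * x 37 t') * (nr K 39)⁻¹ = x 43 t * x 40 (-t') := by
  obtain ⟨o1, o2, -⟩ := okS
  rw [conj_mul', nr_up o1, nr_up o2]
  push_cast
  rw [one_mul, neg_mul, one_mul]

theorem y_add (t t' u u' : K) : x 42 (t + u) * x 37 (t' + u') = (x 42 t * x 37 t') * (x 42 u * x 37 u') := by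
  obtain ⟨-, -, -, -, -, o⟩ := okS
  rw [x_add, x_add]
  have := C0 o u t'
  calc x 42 t * x 42 u * (x 37 t' * x 37 u') = x 42 t * (x 42 u * x 37 t') * x 37 u' := by simp only [mul_assoc]
    _ = _ := by rw [this]; simp only [mul_assoc]

variable [Finite K] (φ : K →+* K) (hφ : Function.Surjective φ) {M : Subgroup (GL (E6).Idx K)}
  (hM : ∀ g, g ∈ M ↔ g ∈ (S φ hφ).Γ ∧ ph φ g = g)

theorem X_le_Γ' (c : Fin 48) : (S φ hφ).X c ≤ (S φ hφ).Γ := (S φ hφ).X_le_Γ (longest F4X) c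

include hM

theorem n_M (i : Fin 4) : (S φ hφ).n i ∈ M := (hM _).2 ⟨n_Γ φ hφ i, ph_n φ hφ i⟩

theorem nw_M (L : List (Fin 4)) : (S φ hφ).nw L ∈ M := by
  induction L with
  | nil => exact one_mem _
  | cons i L ih =>
    have := (S φ hφ).nw_cons i L
    have h2 : (S φ hφ).nw (i :: L) ∈ M := this ▸ mul_mem (n_M φ hφ hM i) ih
    exact h2

theorem longM {r : ℕ} (hr : r < (E6).nroots) (h1 : H23.ChevSym.symE6.rh r = r) (h2 : H23.ChevSym.symE6.e r = 1)
    {t : K} (ht : φ t = t) : x r t ∈ M :=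
  (hM _).2 ⟨X_le_Γ' φ hφ _ (long_mem φ hφ hr h1 h2 ht), by rw [ph_x, ht]⟩

theorem okL : ∀ r ∈ [11, 32, 60, 39, 44, 46, 65, 53, 47, 71, 51, 63, 69, 70, 20, 8, 2, 25], r < (E6).nroots ∧
    H23.ChevSym.symE6.rh r = r ∧ H23.ChevSym.symE6.e r = 1 := by decide +kernel

theorem longM' {r : ℕ} (h : r ∈ [11, 32, 60, 39, 44, 46, 65, 53, 47, 71, 51, 63, 69, 70, 20, 8, 2, 25])
    {t : K} (ht : φ t = t) : x r t ∈ M := by
  obtain ⟨h1, h2, h3⟩ := okL φ hφ hM r h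
  exact longM φ hφ hM h1 h2 h3 ht

theorem nr_M : nr K 39 ∈ M := by
  have e : (E6).neg 39 = 32 := rfl
  unfold nr
  rw [e]
  exact mul_mem (mul_mem (longM' φ hφ hM (by simp) (map_one φ)) (longM' φ hφ hM (by simp) (by rw [map_neg, map_one])))
    (longM' φ hφ hM (by simp) (map_one φ))

variable (h2 : ∀ t : K, φ (φ t) = t) {q : ℕ} (hφq : ∀ t, φ t = t ^ q) (hK : Nat.card K = q ^ 2)
  (hF : Nat.card {t : K // φ t = t} = q) {Y : Subgroup (GL (E6).Idx K)} (hMY : M ≤ Y)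

include h2

theorem y_M {t : K} (ht : φ t = t) : x 42 t * x 37 (φ t) ∈ M :=
  (hM _).2 ⟨X_le_Γ' φ hφ _ ((X27 φ hφ h2).2 ⟨t, rfl⟩), by rw [map_mul, ph_x, ph_x, h2, ht]⟩

omit hM h2 in
theorem conj_iff {G : Type*} [Group G] {Y : Subgroup G} {n y : G} (hn : n ∈ Y) : n * y * n⁻¹ ∈ Y ↔ y ∈ Y := by
  rw [Subgroup.mul_mem_cancel_right _ (inv_mem hn), Subgroup.mul_mem_cancel_left _ hn]

omit hM h2 in
theorem w33 : (C4).w [(1 : Fin 4), (0 : Fin 4)] (27 : Fin 48) = (33 : Fin 48) := by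
  apply Fin.ext
  decide +kernel

include hφq hK hF hMY in
/-- a short root element outside the fixed points generates everything -/
theorem short27 (hYn : ¬ Cfsg.Lie.twistedE6 K q ≤ Y) {t : K} (hy : x 42 t * x 37 (φ t) ∈ Y) : φ t = t := by
  by_contra ht
  apply hYn
  have h1 : ∀ b, φ b = b → x 42 (b * t) * x 37 (φ (b * t)) ∈ Y := by
    intro b hb
    have hb' : φ (-b) = -b := by rw [map_neg, hb]
    have e1 := y_conj t (φ t) (-b)
    have m1 : x 42 t * x 37 (φ t) * x 39 (-b) * (x 42 t * x 37 (φ t))⁻¹ ∈ Y :=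
      mul_mem (mul_mem hy (hMY (longM' φ hφ hM (by simp) hb'))) (inv_mem hy)
    rw [e1] at m1
    have m2 : x 44 (-(t * (φ t * -b))) ∈ Y := hMY (longM' φ hφ hM (by simp) (by
      simp only [map_neg, map_mul, h2, hb]; ring))
    have m3 := (Subgroup.mul_mem_cancel_right _ m2).1 m1
    have m4 := (Subgroup.mul_mem_cancel_left _ (hMY (longM' φ hφ hM (r := 39) (by simp) hb'))).1 m3
    have e2 : x 43 (-(t * -b)) * x 40 (φ t * -b) = nr K 39 * (x 42 (b * t) * x 37 (φ (b * t))) * (nr K 39)⁻¹ := by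
      rw [n_y]
      congr 1
      · congr 1; ring
      · congr 1; rw [map_mul, hb]; ring
    rw [e2] at m4
    exact (conj_iff (hMY (nr_M φ hφ hM))).1 m4
  have h3 : ∀ w, x 42 w * x 37 (φ w) ∈ Y := by
    intro w
    obtain ⟨a, b, ha, hb, rfl⟩ := span2 φ hK hF ht w
    rw [map_add, y_add]
    exact mul_mem (hMY (y_M φ hφ hM h2 ha)) (h1 b hb)
  have k27 : (S φ hφ).X (27 : Fin 48) ≤ Y := by
    intro g hg
    obtain ⟨w, rfl⟩ := (X27 φ hφ h2).1 hg
    exact h3 w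
  have kcj : ∀ (L : List (Fin 4)) (c : Fin 48), (S φ hφ).X c ≤ Y → (S φ hφ).X ((C4).w L c) ≤ Y := by
    intro L c hc
    have e := (S φ hφ).cj_nw L c
    rw [← e]
    have hn : (S φ hφ).nw L ∈ Y := hMY (nw_M φ hφ hM L)
    exact (cj_mono hc).trans (le_of_eq (cj_eq_self_of_mem hn))
  have k33 : (S φ hφ).X (33 : Fin 48) ≤ Y := by
    have := kcj [(1 : Fin 4), (0 : Fin 4)] (27 : Fin 48) k27
    exact (le_of_eq (congrArg (S φ hφ).X w33).symm).trans this
  have k25 : (S φ hφ).X (25 : Fin 48) ≤ Y := by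
    intro g hg
    obtain ⟨w, hw, rfl⟩ := (X25 φ hφ).1 hg
    exact hMY (longM' φ hφ hM (by simp) hw)
  have k24 : (S φ hφ).X (24 : Fin 48) ≤ Y := by
    intro g hg
    obtain ⟨w, hw, rfl⟩ := (X24 φ hφ).1 hg
    exact hMY (longM' φ hφ hM (by simp) hw)
  have kall : ∀ c : Fin 48, (S φ hφ).X c ≤ Y := by
    intro c
    obtain ⟨L, J, e⟩ := exists_simple_conj F4X c
    rw [← e]
    apply kcj
    rcases H22.TwE6.four J with rfl | rfl | rfl | rfl
    · exact k33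
    · exact k27
    · exact k25
    · exact k24
  -- the generators
  unfold Cfsg.Lie.twistedE6 ChevalleyDatum.genSubgroup
  rw [Subgroup.closure_le]
  rintro g ⟨w, hw, hgw⟩
  have hg' : g = wg (RR K) w := Units.ext (hgw.trans (wg_val _ w).symm)
  rcases hw with ⟨t, ht, r, hr, rfl⟩ | ⟨t, rs, hrs, rfl⟩
  · rw [← hφq] at ht
    have e : g = x r t := by rw [hg']; simp [wg, x]
    rw [e]
    have hr' : r < (E6).nroots ∧ H23.ChevSym.symE6.rh r = r ∧ H23.ChevSym.symE6.e r = 1 := by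
      revert hr
      have : ∀ r ∈ [Cfsg.Lie.e6p2, Cfsg.Lie.e6m2, Cfsg.Lie.e6p4, Cfsg.Lie.e6m4], r < (E6).nroots ∧
        H23.ChevSym.symE6.rh r = r ∧ H23.ChevSym.symE6.e r = 1 := by decide +kernel
      exact this r
    exact kall _ (long_mem φ hφ hr'.1 hr'.2.1 hr'.2.2 ht)
  · have e : g = x rs.1 t * x rs.2 (φ t) := by rw [hg', hφq]; simp [wg, x]
    rw [e]
    have hr' : rs.1 < (E6).nroots ∧ rs.2 < (E6).nroots ∧ H23.ChevSym.symE6.rh rs.1 = rs.2 ∧
        H23.ChevSym.symE6.rh rs.2 = rs.1 ∧ H23.ChevSym.symE6.e rs.1 = 1 ∧ H23.ChevSym.symE6.e rs.2 = 1 ∧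
        okc rs.1 rs.2 = true ∧ ttE6.cl.getD rs.2 0 = ttE6.cl.getD rs.1 0 := by
      revert hrs
      have : ∀ rs ∈ [(Cfsg.Lie.e6p1, Cfsg.Lie.e6p6), (Cfsg.Lie.e6m1, Cfsg.Lie.e6m6), (Cfsg.Lie.e6p3, Cfsg.Lie.e6p5),
        (Cfsg.Lie.e6m3, Cfsg.Lie.e6m5)], rs.1 < (E6).nroots ∧ rs.2 < (E6).nroots ∧ H23.ChevSym.symE6.rh rs.1 = rs.2 ∧
        H23.ChevSym.symE6.rh rs.2 = rs.1 ∧ H23.ChevSym.symE6.e rs.1 = 1 ∧ H23.ChevSym.symE6.e rs.2 = 1 ∧
        okc rs.1 rs.2 = true ∧ ttE6.cl.getD rs.2 0 = ttE6.cl.getD rs.1 0 := by decide +kernel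
      exact this rs
    obtain ⟨l1, l2, l3, l4, l5, l6, l7, l8⟩ := hr'
    exact kall _ (pair_mem φ hφ l1 l2 (Fin.ext l8) l3 l4 l7 (by rw [l5, Int.cast_one, one_mul])
      (by rw [l6, Int.cast_one, one_mul, h2]))

end H41.Tf5
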