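import Cfsg.Agent.Lib.H41.Tf5

/-!
Subgroups of `²E₆(q)` containing the fixed points: long root groups.
-/

set_option autoImplicit false
set_option linter.unusedSectionVars false
set_option linter.unusedVariables false

namespace H41.Tf6

open H22.RGD H22.Coord H22.RCCheck H22.RCComb H22.ChevRel H22.ChevSys H22.ChevMain H22.ChevStd
open H22.TwChev H22.TwSt H22.RCPack H22.TwTab H22.TwX H22.TwDat H22.TwThm H22.TwMisc
open H41.Td6 H41.Tf1 H41.Tf2 H41.Tf3 H41.Tf4 H41.Tf5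
open Cfsg.Lie (ChevalleyDatum)
open scoped MatrixGroups Matrix

local notation "E6" => Cfsg.Lie.chevE6
local notation "F4X" => H22.PoinF4.rcxF4
local notation "C4" => comb F4X

/-- the side conditions -/
def Dt.cs (D : Dt) (C' : ℤ) : Bool := decide (D.b1 < (E6).nroots ∧ D.b2 < (E6).nroots ∧ D.s < (E6).nroots ∧
  H23.ChevSym.symE6.rh D.b1 = D.b2 ∧ H23.ChevSym.symE6.rh D.b2 = D.b1 ∧
  H23.ChevSym.symE6.e D.b1 * (D.B1 * D.A1) = D.B2 * D.A2 ∧ H23.ChevSym.symE6.e D.b2 * (D.B2 * D.A2) = D.B1 * D.A1 ∧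
  okc D.b1 D.b2 = true ∧ ttE6.cl.getD D.b2 0 = ttE6.cl.getD D.b1 0 ∧ (D.B1 * D.A1) * (D.B1 * D.A1) = 1 ∧
  H23.ChevSym.symE6.rh D.s = D.s ∧ H23.ChevSym.symE6.e D.s = 1 ∧ D.r < (E6).nroots ∧
  H23.ChevSym.symE6.rh D.r = D.r ∧ H23.ChevSym.symE6.e D.r = 1 ∧
  (∀ a ∈ D.A, a < (E6).nroots ∧ H23.ChevSym.symE6.rh a = a ∧ H23.ChevSym.symE6.e a = 1) ∧
  okd D.a2 D.b1 71 C' = true ∧ okc D.a2 D.b2 = true ∧ D.d1 ∈ pos ∧ D.d2 ∈ pos ∧ C' * C' = 1 ∧ okc D.b1 71 = true)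

theorem csD1 : Dt.cs D1 (-1) = true := by decide +kernel
theorem csD2 : Dt.cs D2 (-1) = true := by decide +kernel
theorem csD3 : Dt.cs D3 1 = true := by decide +kernel

variable {K : Type*} [Field K] [Finite K] (φ : K →+* K) (hφ : Function.Surjective φ) {M : Subgroup (GL (E6).Idx K)}
  (hM : ∀ g, g ∈ M ↔ g ∈ (S φ hφ).Γ ∧ ph φ g = g)
  (h2 : ∀ t : K, φ (φ t) = t) {q : ℕ} (hφq : ∀ t, φ t = t ^ q) (hK : Nat.card K = q ^ 2)
  (hF : Nat.card {t : K // φ t = t} = q) {Y : Subgroup (GL (E6).Idx K)} (hMY : M ≤ Y)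
  (hYn : ¬ Cfsg.Lie.twistedE6 K q ≤ Y)

include hM h2 hφq hK hF hMY hYn

/-- short root elements in `Y` -/
theorem short_all {L : List (Fin 4)} {c : Fin 48} (hL : (C4).w L (27 : Fin 48) = c) {g : GL (E6).Idx K}
    (hg : g ∈ (S φ hφ).X c) (hgY : g ∈ Y) : g ∈ M := by
  have e := (S φ hφ).cj_nw L (27 : Fin 48)
  have e' : cj ((S φ hφ).nw L) ((S φ hφ).X (27 : Fin 48)) = (S φ hφ).X c := e.trans (congrArg (S φ hφ).X hL)
  rw [← e', mem_cj] at hg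
  obtain ⟨t, ht⟩ := (X27 φ hφ h2).1 hg
  have hn := nw_M φ hφ hM L
  have h1 : x 42 t * x 37 (φ t) ∈ Y := by
    rw [← ht]
    exact mul_mem (mul_mem (inv_mem (hMY hn)) hgY) (hMY hn)
  have h3 := short27 φ hφ hM h2 hφq hK hF hMY hYn h1
  have h4 := y_M φ hφ hM h2 h3
  rw [← ht] at h4
  have e5 : g = (S φ hφ).nw L * (((S φ hφ).nw L)⁻¹ * g * (S φ hφ).nw L) * ((S φ hφ).nw L)⁻¹ := by group
  rw [e5]
  exact mul_mem (mul_mem hn h4) (inv_mem hn)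

/-- the dichotomy -/
theorem dich (D : Dt) (hD : D.ck = true) {C' : ℤ} (hcs : Dt.cs D C' = true) (J : Fin 4)
    (hJ : ∀ g ∈ (S φ hφ).X ((C4).simple J), ∃ t : K, g = x D.d1 t * x D.d2 (φ t))
    (hJM : ∀ t : K, φ t = t → x D.d1 t * x D.d2 (φ t) ∈ M) (hU : (S φ hφ).Ui J ≤ GL' K (Dt.U D))
    {L : List (Fin 4)} (hL : ∀ h : D.b1 < (E6).nroots, (C4).w L (27 : Fin 48) = cl φ hφ ⟨D.b1, h⟩)
    {u : GL (E6).Idx K} (hu : u ∈ (S φ hφ).U) (hz : u * x D.s 1 * u⁻¹ ∈ Y) :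
    ∃ g ∈ M, ∃ v ∈ (S φ hφ).Ui J, u = g * v := by
  obtain ⟨g, hg, v, hv, rfl⟩ := mem_U_split (S φ hφ) J hu
  obtain ⟨t, rfl⟩ := hJ g hg
  refine ⟨_, ?_, v, hv, rfl⟩
  apply hJM
  have hcs := of_decide_eq_true hcs
  obtain ⟨c1, c2, c3, c4, c5, c6, c7, c8, c9, c10, c11, c12, c13, c14, c15, c16, c17, c18, c19, c20, c21, c22⟩ := hcs
  obtain ⟨h, hh, e⟩ := dt_main D hD (t := t) (t' := φ t) (hU hv) ⟨c19, c20⟩
  set z := x D.d1 t * x D.d2 (φ t) * v * x D.s 1 * (x D.d1 t * x D.d2 (φ t) * v)⁻¹ with hzdef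
  have hr : x D.r (1 : K) ∈ M := longM φ hφ hM c13 c14 c15 (map_one φ)
  have hkY : x D.r 1 * z * (x D.r 1)⁻¹ * z⁻¹ ∈ Y :=
    mul_mem (mul_mem (mul_mem (hMY hr) hz) (inv_mem (hMY hr))) (inv_mem hz)
  have hUΓ : (S φ hφ).U ≤ (S φ hφ).Γ := (S φ hφ).U_le_B.trans (S φ hφ).B_le_Γ
  have hs : x D.s (1 : K) ∈ M := longM φ hφ hM c3 c11 c12 (map_one φ)
  have hzΓ : z ∈ (S φ hφ).Γ := mul_mem (mul_mem (hUΓ hu) ((hM _).1 hs).1) (inv_mem (hUΓ hu))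
  have hrΓ := ((hM _).1 hr).1
  have hkΓ : x D.r 1 * z * (x D.r 1)⁻¹ * z⁻¹ ∈ (S φ hφ).Γ :=
    mul_mem (mul_mem (mul_mem hrΓ hzΓ) (inv_mem hrΓ)) (inv_mem hzΓ)
  -- the short element
  have q1 : ((H23.ChevSym.symE6.e D.b1 : ℤ) : K) * ((D.B1 : K) * (D.A1 : K)) = (D.B2 : K) * (D.A2 : K) := by
    exact_mod_cast congrArg (fun z : ℤ => (z : K)) c6
  have q2 : ((H23.ChevSym.symE6.e D.b2 : ℤ) : K) * ((D.B2 : K) * (D.A2 : K)) = (D.B1 : K) * (D.A1 : K) := by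
    exact_mod_cast congrArg (fun z : ℤ => (z : K)) c7
  have q3 : ((D.B1 : K) * (D.A1 : K)) * ((D.B1 : K) * (D.A1 : K)) = 1 := by
    exact_mod_cast congrArg (fun z : ℤ => (z : K)) c10
  have hyX : yy D t (φ t) ∈ (S φ hφ).X (cl φ hφ ⟨D.b1, c1⟩) := by
    unfold yy
    refine pair_mem φ hφ c1 c2 (Fin.ext c9) c4 c5 c8 ?_ ?_
    · rw [map_mul, map_mul, map_intCast, map_intCast]
      linear_combination (φ t) * q1
    · rw [map_mul, map_mul, map_intCast, map_intCast, h2]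
      linear_combination t * q2
  have hyΓ := X_le_Γ' φ hφ _ hyX
  have hh' : h = (yy D t (φ t))⁻¹ * (x D.r 1 * z * (x D.r 1)⁻¹ * z⁻¹) := by rw [e]; group
  have hhΓ : h ∈ (S φ hφ).Γ := by rw [hh']; exact mul_mem (inv_mem hyΓ) hkΓ
  have hhM : h ∈ M := (hM _).2 ⟨hhΓ, sig_ph φ hφ c16 hh hhΓ⟩
  have hyY : yy D t (φ t) ∈ Y := by
    rw [e] at hkY
    exact (Subgroup.mul_mem_cancel_right _ (hMY hhM)).1 hkY
  have hyM := short_all φ hφ hM h2 hφq hK hF hMY hYn (hL c1) hyX hyY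
  have hph := ((hM _).1 hyM).2
  -- compare the parameters
  have e3 : ∀ κ κ' : K, x D.a2 1 * (x D.b1 κ * x D.b2 κ') * (x D.a2 1)⁻¹ * (x D.b1 κ * x D.b2 κ')⁻¹ =
      x D.b1 κ * x 71 ((C' : K) * (1 * κ)) * (x D.b1 κ)⁻¹ := by
    intro κ κ'
    rw [conj_mul', J1 c17, J0 c18]
    group
  have e4 := e3 ((D.B1 : K) * ((D.A1 : K) * t)) ((D.B2 : K) * ((D.A2 : K) * φ t))
  have e5 := e3 (φ ((D.B1 : K) * ((D.A1 : K) * t))) (φ ((D.B2 : K) * ((D.A2 : K) * φ t)))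
  unfold yy at hph
  rw [map_mul, ph_x, ph_x] at hph
  rw [hph, e4] at e5
  -- `x 71` is central
  have hc71 : ∀ κ κ' : K, x D.b1 κ * x 71 κ' * (x D.b1 κ)⁻¹ = x 71 κ' := fun κ κ' => J0 c22 κ κ'
  rw [hc71, hc71, one_mul, one_mul] at e5
  have e6 := x_inj (r := 71) (by decide) e5
  have q4 : (C' : K) * (C' : K) = 1 := by exact_mod_cast congrArg (fun z : ℤ => (z : K)) c21
  rw [map_mul, map_mul, map_intCast, map_intCast] at e6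
  linear_combination (-(C' : K) * ((D.B1 : K) * (D.A1 : K))) * e6 - (φ t - t) * q3 - ((φ t - t) * ((D.B1 : K) * (D.A1 : K)) * ((D.B1 : K) * (D.A1 : K))) * q4

end H41.Tf6
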