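import Cfsg.Agent.Lib.H41.Tf6

/-!
Subgroups of `²E₆(q)` containing the fixed points: the chain of long roots.
-/

set_option autoImplicit false
set_option linter.unusedSectionVars false
set_option linter.unusedVariables false

namespace H41.Tf7

open H22.RGD H22.Coord H22.RCCheck H22.RCComb H22.ChevRel H22.ChevSys H22.ChevMain H22.ChevStd
open H22.TwChev H22.TwSt H22.RCPack H22.TwTab H22.TwX H22.TwDat H22.TwThm H22.TwMisc
open H41.Td6 H41.Tf1 H41.Tf2 H41.Tf3 H41.Tf4 H41.Tf5 H41.Tf6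
open Cfsg.Lie (ChevalleyDatum)
open scoped MatrixGroups Matrix

local notation "E6" => Cfsg.Lie.chevE6
local notation "F4X" => H22.PoinF4.rcxF4
local notation "C4" => comb F4X

theorem ckU : ∀ c : Fin 48, (F4X).rc.half ≤ c.val → ∀ r : Fin (E6).nroots, ttE6.cl.getD r 0 = c.val →
    ((r : ℕ) ∈ pos ∧ (c ≠ 27 → (r : ℕ) ∈ Dt.U D1 ∧ (r : ℕ) ∈ Dt.U D3) ∧ (c ≠ 33 → (r : ℕ) ∈ Dt.U D2)) := by
  decide +kernel

theorem ck71 : ∀ e ∈ pos, e = 71 ∨ okc e 71 = true := by decide +kernel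

variable {K : Type*} [Field K] [Finite K] (φ : K →+* K) (hφ : Function.Surjective φ) {M : Subgroup (GL (E6).Idx K)}

theorem U_le_pos : (S φ hφ).U ≤ GL' K pos :=
  (S φ hφ).U_le fun c hc => X_le_G φ hφ (c := (c : Fin 48)) fun r hr => (ckU c hc r hr).1

theorem U1a : (S φ hφ).Ui (1 : Fin 4) ≤ GL' K (Dt.U D1) :=
  (S φ hφ).Ui_le fun c hc hne => X_le_G φ hφ (c := (c : Fin 48)) fun r hr =>
    ((ckU c hc r hr).2.1 fun h => hne (h.trans (Fin.ext (by decide +kernel)))).1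

theorem U1b : (S φ hφ).Ui (1 : Fin 4) ≤ GL' K (Dt.U D3) :=
  (S φ hφ).Ui_le fun c hc hne => X_le_G φ hφ (c := (c : Fin 48)) fun r hr =>
    ((ckU c hc r hr).2.1 fun h => hne (h.trans (Fin.ext (by decide +kernel)))).2

theorem U0 : (S φ hφ).Ui (0 : Fin 4) ≤ GL' K (Dt.U D2) :=
  (S φ hφ).Ui_le fun c hc hne => X_le_G φ hφ (c := (c : Fin 48)) fun r hr =>
    (ckU c hc r hr).2.2 fun h => hne (h.trans (Fin.ext (by decide +kernel)))

theorem comm71 {u : GL (E6).Idx K} (hu : u ∈ (S φ hφ).U) (t : K) : u * x 71 t * u⁻¹ = x 71 t := by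
  have h : GL' K pos ≤ Subgroup.centralizer {x 71 t} := by
    unfold GL'
    rw [Subgroup.closure_le]
    rintro _ ⟨e, he, κ, rfl⟩
    rw [SetLike.mem_coe, Subgroup.mem_centralizer_singleton_iff]
    rcases ck71 e he with rfl | h
    · rw [← x_add, ← x_add, add_comm]
    · have := J0 h κ t
      exact mul_inv_eq_iff_eq_mul.1 this
  have h2 := h (U_le_pos φ hφ hu)
  rw [Subgroup.mem_centralizer_singleton_iff] at h2
  rw [h2, mul_inv_cancel_right]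

theorem cj_U_47 {u : GL (E6).Idx K} (hu : u ∈ (S φ hφ).U) : cj u ((S φ hφ).X (47 : Fin 48)) = (S φ hφ).X (47 : Fin 48) := by
  have h : (S φ hφ).U ≤ stabSub ((S φ hφ).X (47 : Fin 48)) := by
    apply le_stabSub_of_conj
    intro a ha y hy
    obtain ⟨t, ht, rfl⟩ := (X47 φ hφ).1 hy
    rw [comm71 φ hφ ha t]
    exact hy
  exact h hu

theorem cj_B_47 {b : GL (E6).Idx K} (hb : b ∈ (S φ hφ).B) : cj b ((S φ hφ).X (47 : Fin 48)) = (S φ hφ).X (47 : Fin 48) := by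
  obtain ⟨u, hu, h, hh, rfl⟩ := (S φ hφ).mem_B.1 hb
  have h2 : cj h ((S φ hφ).X (47 : Fin 48)) = (S φ hφ).X (47 : Fin 48) := (S φ hφ).cj_H _ hh
  rw [cj_mul, h2, cj_U_47 φ hφ hu]

/-- the main property of a root -/
def FP (Y M : Subgroup (GL (E6).Idx K)) (c : Fin 48) : Prop :=
  ∀ u ∈ (S φ hφ).U, cj u ((S φ hφ).X c) ≤ Y → ∃ m ∈ M, cj u ((S φ hφ).X c) = cj m ((S φ hφ).X (47 : Fin 48))

/-- all long roots -/
def long : List (Fin 48) :=
  [0, 1, 2, 4, 5, 6, 15, 16, 17, 21, 22, 23, 24, 25, 26, 30, 31, 32, 41, 42, 43, 45, 46, 47]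

theorem wD1 (h : D1.b1 < (E6).nroots) : (C4).w [(3 : Fin 4), (2 : Fin 4)] (27 : Fin 48) = cl φ hφ ⟨D1.b1, h⟩ := by
  apply Fin.ext
  show ((C4).w [(3 : Fin 4), (2 : Fin 4)] (27 : Fin 48) : Fin 48).val = ttE6.cl.getD 50 0
  decide +kernel

theorem wD2 (h : D2.b1 < (E6).nroots) : (C4).w [(3 : Fin 4), (1 : Fin 4), (2 : Fin 4), (0 : Fin 4)] (27 : Fin 48) = cl φ hφ ⟨D2.b1, h⟩ := by
  apply Fin.ext
  show ((C4).w [(3 : Fin 4), (1 : Fin 4), (2 : Fin 4), (0 : Fin 4)] (27 : Fin 48) : Fin 48).val = ttE6.cl.getD 62 0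
  decide +kernel

theorem wD3 (h : D3.b1 < (E6).nroots) : (C4).w [(0 : Fin 4), (1 : Fin 4), (2 : Fin 4), (3 : Fin 4), (1 : Fin 4), (2 : Fin 4), (0 : Fin 4)] (27 : Fin 48) = cl φ hφ ⟨D3.b1, h⟩ := by
  apply Fin.ext
  show ((C4).w [(0 : Fin 4), (1 : Fin 4), (2 : Fin 4), (3 : Fin 4), (1 : Fin 4), (2 : Fin 4), (0 : Fin 4)] (27 : Fin 48) : Fin 48).val = ttE6.cl.getD 68 0
  decide +kernel

variable (hM : ∀ g, g ∈ M ↔ g ∈ (S φ hφ).Γ ∧ ph φ g = g)
  (h2 : ∀ t : K, φ (φ t) = t) {q : ℕ} (hφq : ∀ t, φ t = t ^ q) (hK : Nat.card K = q ^ 2)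
  (hF : Nat.card {t : K // φ t = t} = q) {Y : Subgroup (GL (E6).Idx K)} (hMY : M ≤ Y)
  (hYn : ¬ Cfsg.Lie.twistedE6 K q ≤ Y)

include hM hMY in
/-- moving along a long root -/
theorem free (J : Fin 4) (hJ : (S φ hφ).X ((C4).simple J) ≤ M) {c c' : Fin 48} (hc : (C4).refl J c = c')
    (hF : FP φ hφ Y M c') : FP φ hφ Y M c := by
  refine move (S φ hφ) hMY J (c := c) (c' := c') hc (n_M φ hφ hM J) hF fun u hu _ => ?_
  obtain ⟨g, hg, v, hv, rfl⟩ := mem_U_split (S φ hφ) J hu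
  exact ⟨g, hJ hg, v, hv, rfl⟩

include hM in
theorem fX2 : (S φ hφ).X ((C4).simple (2 : Fin 4)) ≤ M := by
  intro g hg
  have e : (C4).simple (2 : Fin 4) = (25 : Fin 48) := Fin.ext (by decide +kernel)
  obtain ⟨t, ht, rfl⟩ := (X25 φ hφ).1 ((le_of_eq (congrArg (S φ hφ).X e)) hg)
  exact longM' φ hφ hM (by simp) ht

include hM in
theorem fX3 : (S φ hφ).X ((C4).simple (3 : Fin 4)) ≤ M := by
  intro g hg
  have e : (C4).simple (3 : Fin 4) = (24 : Fin 48) := Fin.ext (by decide +kernel)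
  obtain ⟨t, ht, rfl⟩ := (X24 φ hφ).1 ((le_of_eq (congrArg (S φ hφ).X e)) hg)
  exact longM' φ hφ hM (by simp) ht

include h2 in
theorem hJ1 : ∀ g ∈ (S φ hφ).X ((C4).simple (1 : Fin 4)), ∃ t : K, g = x 42 t * x 37 (φ t) := by
  intro g hg
  have e : (C4).simple (1 : Fin 4) = (27 : Fin 48) := Fin.ext (by decide +kernel)
  exact (X27 φ hφ h2).1 ((le_of_eq (congrArg (S φ hφ).X e)) hg)

include h2 in
theorem hJ0 : ∀ g ∈ (S φ hφ).X ((C4).simple (0 : Fin 4)), ∃ t : K, g = x 56 t * x 36 (φ t) := by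
  intro g hg
  have e : (C4).simple (0 : Fin 4) = (33 : Fin 48) := Fin.ext (by decide +kernel)
  exact (X33 φ hφ h2).1 ((le_of_eq (congrArg (S φ hφ).X e)) hg)

include hM h2 in
theorem y_M0 {t : K} (ht : φ t = t) : x 56 t * x 36 (φ t) ∈ M :=
  (hM _).2 ⟨X_le_Γ' φ hφ _ ((X33 φ hφ h2).2 ⟨t, rfl⟩), by rw [map_mul, ph_x, ph_x, h2, ht]⟩

include hM h2 hφq hK hF hMY hYn

/-- moving along a short root -/
theorem turn (D : Dt) (hD : D.ck = true) {C' : ℤ} (hcs : Dt.cs D C' = true) (J : Fin 4)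
    (hJ : ∀ g ∈ (S φ hφ).X ((C4).simple J), ∃ t : K, g = x D.d1 t * x D.d2 (φ t))
    (hJM : ∀ t : K, φ t = t → x D.d1 t * x D.d2 (φ t) ∈ M) (hU : (S φ hφ).Ui J ≤ GL' K (Dt.U D))
    {L : List (Fin 4)} (hL : ∀ h : D.b1 < (E6).nroots, (C4).w L (27 : Fin 48) = cl φ hφ ⟨D.b1, h⟩)
    {c c' : Fin 48} (hc : (C4).refl J c = c') (hz : ∀ u ∈ (S φ hφ).U, cj u ((S φ hφ).X c) ≤ Y →
      u * x D.s 1 * u⁻¹ ∈ Y) (hFP : FP φ hφ Y M c') : FP φ hφ Y M c := by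
  refine move (S φ hφ) hMY J (c := c) (c' := c') hc (n_M φ hφ hM J) hFP fun u hu h => ?_
  exact dich φ hφ hM h2 hφq hK hF hMY hYn D hD hcs J hJ hJM hU hL hu (hz u hu h)

omit h2 hφq hK hF hYn in
/-- the positive case -/
theorem zpos {s : ℕ} (hs : s < (E6).nroots) (h1 : H23.ChevSym.symE6.rh s = s) (h2' : H23.ChevSym.symE6.e s = 1)
    {c : Fin 48} (hc : ttE6.cl.getD s 0 = c.val) : ∀ u ∈ (S φ hφ).U, cj u ((S φ hφ).X c) ≤ Y →
      u * x s 1 * u⁻¹ ∈ Y := by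
  intro u hu h
  have e : cl φ hφ ⟨s, hs⟩ = c := Fin.ext hc
  have := long_mem φ hφ hs h1 h2' (map_one φ)
  rw [e] at this
  exact h (conj_mem_cj this)

omit h2 hφq hK hF hYn in
/-- the negative case -/
theorem zneg {s r0 : ℕ} {C : ℤ} (hr : r0 < (E6).nroots) (h1 : H23.ChevSym.symE6.rh r0 = r0)
    (h2' : H23.ChevSym.symE6.e r0 = 1) {c : Fin 48} (hc : ttE6.cl.getD r0 0 = c.val)
    (hd : okd 71 r0 s C = true) (hC : C * C = 1) : ∀ u ∈ (S φ hφ).U, cj u ((S φ hφ).X c) ≤ Y →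
      u * x s 1 * u⁻¹ ∈ Y := by
  intro u hu h
  have e : cl φ hφ ⟨r0, hr⟩ = c := Fin.ext hc
  have h3 := long_mem φ hφ hr h1 h2' (map_one φ)
  rw [e] at h3
  have h4 : u * x r0 1 * u⁻¹ ∈ Y := h (conj_mem_cj h3)
  have e1 := J1 hd (C : K) (1 : K)
  have hC' : (C : K) * (C : K) = 1 := by exact_mod_cast congrArg (fun z : ℤ => (z : K)) hC
  rw [mul_one, hC'] at e1
  have h5 : x 71 (C : K) ∈ Y := hMY (longM' φ hφ hM (by simp) (map_intCast φ C))
  have e2 : u * x s 1 * u⁻¹ = (u * x r0 1 * u⁻¹)⁻¹ * ((u * x 71 (C : K) * u⁻¹) * (u * x r0 1 * u⁻¹) *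
      (u * x 71 (C : K) * u⁻¹)⁻¹) := by
    have : x s (1 : K) = (x r0 1)⁻¹ * (x 71 (C : K) * x r0 1 * (x 71 (C : K))⁻¹) := by rw [e1]; group
    rw [this]; group
  rw [e2, comm71 φ hφ hu]
  exact mul_mem (inv_mem h4) (mul_mem (mul_mem h5 h4) (inv_mem h5))

/-- all long roots -/
theorem FPall {c : Fin 48} (hc : c ∈ long) : FP φ hφ Y M c := by
  have r2 : ∀ {c c' : Fin 48}, (C4).refl (2 : Fin 4) c = c' → FP φ hφ Y M c' → FP φ hφ Y M c :=
    fun h => free φ hφ hM hMY (2 : Fin 4) (fX2 φ hφ hM) h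
  have r3 : ∀ {c c' : Fin 48}, (C4).refl (3 : Fin 4) c = c' → FP φ hφ Y M c' → FP φ hφ Y M c :=
    fun h => free φ hφ hM hMY (3 : Fin 4) (fX3 φ hφ hM) h
  have t1 : ∀ {c c' : Fin 48}, (C4).refl (1 : Fin 4) c = c' → (∀ u ∈ (S φ hφ).U, cj u ((S φ hφ).X c) ≤ Y →
      u * x 65 1 * u⁻¹ ∈ Y) → FP φ hφ Y M c' → FP φ hφ Y M c :=
    fun h h' => turn φ hφ hM h2 hφq hK hF hMY hYn D1 ckD1 csD1 (1 : Fin 4) (hJ1 φ hφ h2)
      (fun t ht => y_M φ hφ hM h2 ht) (U1a φ hφ) (wD1 φ hφ) h h'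
  have t3 : ∀ {c c' : Fin 48}, (C4).refl (1 : Fin 4) c = c' → (∀ u ∈ (S φ hφ).U, cj u ((S φ hφ).X c) ≤ Y →
      u * x 47 1 * u⁻¹ ∈ Y) → FP φ hφ Y M c' → FP φ hφ Y M c :=
    fun h h' => turn φ hφ hM h2 hφq hK hF hMY hYn D3 ckD3 csD3 (1 : Fin 4) (hJ1 φ hφ h2)
      (fun t ht => y_M φ hφ hM h2 ht) (U1b φ hφ) (wD3 φ hφ) h h'
  have t2 : ∀ {c c' : Fin 48}, (C4).refl (0 : Fin 4) c = c' → (∀ u ∈ (S φ hφ).U, cj u ((S φ hφ).X c) ≤ Y →
      u * x 53 1 * u⁻¹ ∈ Y) → FP φ hφ Y M c' → FP φ hφ Y M c :=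
    fun h h' => turn φ hφ hM h2 hφq hK hF hMY hYn D2 ckD2 csD2 (0 : Fin 4) (hJ0 φ hφ h2)
      (fun t ht => y_M0 φ hφ hM h2 ht) (U0 φ hφ) (wD2 φ hφ) h h'
  have f47 : FP φ hφ Y M 47 := fun u hu _ => ⟨1, one_mem _, by rw [cj_U_47 φ hφ hu, cj_one]⟩
  have f46 : FP φ hφ Y M 46 := r3 (c' := 47) (Fin.ext (by decide +kernel)) f47
  have f45 : FP φ hφ Y M 45 := r2 (c' := 46) (Fin.ext (by decide +kernel)) f46
  have f43 : FP φ hφ Y M 43 := t1 (c' := 45) (Fin.ext (by decide +kernel))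
    (zpos φ hφ hM hMY (by decide) (by decide +kernel) (by decide +kernel) (by decide +kernel)) f45
  have f32 : FP φ hφ Y M 32 := t2 (c' := 43) (Fin.ext (by decide +kernel))
    (zpos φ hφ hM hMY (by decide) (by decide +kernel) (by decide +kernel) (by decide +kernel)) f43
  have f42 : FP φ hφ Y M 42 := r2 (c' := 43) (Fin.ext (by decide +kernel)) f43
  have f31 : FP φ hφ Y M 31 := r2 (c' := 32) (Fin.ext (by decide +kernel)) f32
  have f41 : FP φ hφ Y M 41 := r3 (c' := 42) (Fin.ext (by decide +kernel)) f42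
  have f26 : FP φ hφ Y M 26 := t3 (c' := 31) (Fin.ext (by decide +kernel))
    (zpos φ hφ hM hMY (by decide) (by decide +kernel) (by decide +kernel) (by decide +kernel)) f31
  have f30 : FP φ hφ Y M 30 := r3 (c' := 31) (Fin.ext (by decide +kernel)) f31
  have f24 : FP φ hφ Y M 24 := r2 (c' := 26) (Fin.ext (by decide +kernel)) f26
  have f25 : FP φ hφ Y M 25 := r3 (c' := 26) (Fin.ext (by decide +kernel)) f26
  have f22 : FP φ hφ Y M 22 := r2 (c' := 25) (Fin.ext (by decide +kernel)) f25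
  have f23 : FP φ hφ Y M 23 := r3 (c' := 24) (Fin.ext (by decide +kernel)) f24
  have f21 : FP φ hφ Y M 21 := r3 (c' := 22) (Fin.ext (by decide +kernel)) f22
  have f16 : FP φ hφ Y M 16 := t1 (c' := 21) (Fin.ext (by decide +kernel))
    (zneg φ hφ hM hMY (r0 := 20) (C := 1) (by decide) (by decide +kernel) (by decide +kernel) (by decide +kernel)
      (by decide +kernel) (by decide)) f21
  have f17 : FP φ hφ Y M 17 := r3 (c' := 16) (Fin.ext (by decide +kernel)) f16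
  have f5 : FP φ hφ Y M 5 := t2 (c' := 16) (Fin.ext (by decide +kernel))
    (zneg φ hφ hM hMY (r0 := 8) (C := 1) (by decide) (by decide +kernel) (by decide +kernel) (by decide +kernel)
      (by decide +kernel) (by decide)) f16
  have f6 : FP φ hφ Y M 6 := r3 (c' := 5) (Fin.ext (by decide +kernel)) f5
  have f15 : FP φ hφ Y M 15 := r2 (c' := 16) (Fin.ext (by decide +kernel)) f16
  have f4 : FP φ hφ Y M 4 := r2 (c' := 5) (Fin.ext (by decide +kernel)) f5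
  have f2 : FP φ hφ Y M 2 := t3 (c' := 4) (Fin.ext (by decide +kernel))
    (zneg φ hφ hM hMY (r0 := 2) (C := -1) (by decide) (by decide +kernel) (by decide +kernel) (by decide +kernel)
      (by decide +kernel) (by decide)) f4
  have f1 : FP φ hφ Y M 1 := r2 (c' := 2) (Fin.ext (by decide +kernel)) f2
  have f0 : FP φ hφ Y M 0 := r3 (c' := 1) (Fin.ext (by decide +kernel)) f1
  unfold long at hc
  simp only [List.mem_cons, List.not_mem_nil, or_false] at hc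
  rcases hc with rfl | rfl | rfl | rfl | rfl | rfl | rfl | rfl | rfl | rfl | rfl | rfl | rfl | rfl | rfl | rfl |
    rfl | rfl | rfl | rfl | rfl | rfl | rfl | rfl
  · exact f0
  · exact f1
  · exact f2
  · exact f4
  · exact f5
  · exact f6
  · exact f15
  · exact f16
  · exact f17
  · exact f21
  · exact f22
  · exact f23
  · exact f24
  · exact f25
  · exact f26
  · exact f30
  · exact f31
  · exact f32
  · exact f41
  · exact f42
  · exact f43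
  · exact f45
  · exact f46
  · exact f47

/-- a check -/
def ckWb : Bool := (List.finRange (Cfsg.Lie.chevF4).rank).all fun i => long.all fun c =>
  long.any fun d => decide (((C4).refl i c).val = d.val)

omit hM h2 hφq hK hF hMY hYn in
theorem ckWt : ckWb = true := by decide +kernel

omit hM h2 hφq hK hF hMY hYn in
theorem ckW (i : Fin (Cfsg.Lie.chevF4).rank) (c : Fin 48) (hc : c ∈ long) : (C4).refl i c ∈ long := by
  have h := ckWt
  unfold ckWb at h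
  rw [List.all_eq_true] at h
  have h1 := h i (List.mem_finRange i)
  rw [List.all_eq_true] at h1
  have h2 := h1 c hc
  rw [List.any_eq_true] at h2
  obtain ⟨d, hd, e⟩ := h2
  have e2 : (C4).refl i c = d := Fin.ext (of_decide_eq_true e)
  rw [e2]
  exact hd

omit hM h2 hφq hK hF hMY hYn in
theorem long_W {w : Equiv.Perm (Fin 48)} (hw : w ∈ (C4).W) : w 47 ∈ long := by
  obtain ⟨L, rfl⟩ := (C4).exists_word hw
  induction L with
  | nil => decide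
  | cons i L ih => exact ckW i ((C4).w L (47 : Fin 48)) (ih ((C4).w_mem L))

/-- conjugates of the highest root group inside `Y` -/
theorem main1 {g : GL (E6).Idx K} (hg : g ∈ (S φ hφ).Γ) (h : cj g ((S φ hφ).X (47 : Fin 48)) ≤ Y) :
    ∃ m ∈ M, cj g ((S φ hφ).X (47 : Fin 48)) = cj m ((S φ hφ).X (47 : Fin 48)) := by
  obtain ⟨b1, hb1, n, hn, b2, hb2, rfl⟩ := (S φ hφ).bruhat hg
  obtain ⟨w, hw⟩ := (S φ hφ).exists_rep hn
  obtain ⟨u, hu, k, hk, rfl⟩ := (S φ hφ).mem_B.1 hb1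
  have e : cj (u * k * n * b2) ((S φ hφ).X (47 : Fin 48)) = cj u ((S φ hφ).X (w (47 : Fin 48))) := by
    rw [cj_mul, cj_B_47 φ hφ hb2, cj_mul, cj_mul]
    have h1 : cj n ((S φ hφ).X (47 : Fin 48)) = (S φ hφ).X (w (47 : Fin 48)) := hw.2.2 _
    rw [h1, (S φ hφ).cj_H _ hk]
  rw [e] at h ⊢
  exact FPall φ hφ hM h2 hφq hK hF hMY hYn (c := w (47 : Fin 48)) (long_W hw.2.1) u hu h

end H41.Tf7
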