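import Cfsg.Agent.Lib.H41.Tf7

/-!
The centraliser of the long root elements over the small field is trivial.
-/

set_option autoImplicit false
set_option linter.unusedSectionVars false
set_option linter.unusedVariables false

namespace H41.Tf8

open H22.RGD H22.Coord H22.RCCheck H22.RCComb H22.ChevTri H22.ChevRel H22.ChevSys H22.ChevMain
open H22.ChevStd H22.ChevSolv H22.ChevUni H22.St H22.TwChev H22.TwSt H22.RCPack H22.TwTab H22.TwX
open H22.TwDat H22.TwAut H22.ChevTorus H22.TwThm H22.TwPerf H22.TwMisc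
open H41.Td6 H41.Tf1 H41.Tf2 H41.Tf3 H41.Tf4 H41.Tf5 H41.Tf6 H41.Tf7
open Cfsg.Lie (ChevalleyDatum)
open scoped MatrixGroups Matrix

local notation "E6" => Cfsg.Lie.chevE6
local notation "X6" => H22.PoinE6.rcxE6
local notation "F4X" => H22.PoinF4.rcxF4
local notation "Z6" => H22.ChevLex.lexE6
local notation "W6" => H22.TwE6.certE6'
local notation "C4" => comb F4X

/-- the elements all of whose conjugates commute with an element -/
def Zs {G : Type*} [Group G] (M : Subgroup G) (c : G) : Subgroup G where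
  carrier := {z | ∀ m ∈ M, c * (m * z * m⁻¹) = m * z * m⁻¹ * c}
  one_mem' := by intro m _; simp
  mul_mem' := by
    intro a b ha hb m hm
    have e : m * (a * b) * m⁻¹ = (m * a * m⁻¹) * (m * b * m⁻¹) := by group
    rw [e, ← mul_assoc, ha m hm, mul_assoc, hb m hm, ← mul_assoc]
  inv_mem' := by
    intro a ha m hm
    have e : m * a⁻¹ * m⁻¹ = (m * a * m⁻¹)⁻¹ := by group
    rw [e]
    have h : Commute c (m * a * m⁻¹) := ha m hm
    exact h.inv_right

theorem Zs_conj {G : Type*} [Group G] {M : Subgroup G} {c m z : G} (hm : m ∈ M) (hz : z ∈ Zs M c) :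
    m * z * m⁻¹ ∈ Zs M c := by
  intro m' hm'
  have e : m' * (m * z * m⁻¹) * m'⁻¹ = (m' * m) * z * (m' * m)⁻¹ := by group
  rw [e]
  exact hz _ (mul_mem hm' hm)

theorem Zs_comm {G : Type*} [Group G] {M : Subgroup G} {c z : G} (hz : z ∈ Zs M c) : c * z = z * c := by
  have := hz 1 (one_mem _)
  simpa using this

variable {K : Type*} [Field K] [Finite K] (φ : K →+* K) (hφ : Function.Surjective φ)

include hφ in
theorem inj1 {a b a' b' : K} (h : x 42 a * x 37 b = x 42 a' * x 37 b') : a = a' ∧ b = b' := by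
  have h' : (St' K).xb 42 a * (St' K).xb 37 b = (St' K).xb 42 a' * (St' K).xb 37 b' := Subtype.ext h
  have h2 := (H22.TwE6.good (RR K) (hm K) φ hφ 1).inj Z6 W6 (a := [a, b]) (b := [a', b']) rfl rfl (by
    have e1 : (St' K).wb (([42, 37] : List ℕ).zip [a, b]) = (St' K).xb 42 a * (St' K).xb 37 b := by
      simp [StG.wb]
    have e2 : (St' K).wb (([42, 37] : List ℕ).zip [a', b']) = (St' K).xb 42 a' * (St' K).xb 37 b' := by
      simp [StG.wb]
    exact (e1.trans h').trans e2.symm)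
  simp only [List.cons.injEq, and_true] at h2
  exact h2

include hφ in
theorem inj0 {a b a' b' : K} (h : x 56 a * x 36 b = x 56 a' * x 36 b') : a = a' ∧ b = b' := by
  have h' : (St' K).xb 56 a * (St' K).xb 36 b = (St' K).xb 56 a' * (St' K).xb 36 b' := Subtype.ext h
  have h2 := (H22.TwE6.good (RR K) (hm K) φ hφ 0).inj Z6 W6 (a := [a, b]) (b := [a', b']) rfl rfl (by
    have e1 : (St' K).wb (([56, 36] : List ℕ).zip [a, b]) = (St' K).xb 56 a * (St' K).xb 36 b := by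
      simp [StG.wb]
    have e2 : (St' K).wb (([56, 36] : List ℕ).zip [a', b']) = (St' K).xb 56 a' * (St' K).xb 36 b' := by
      simp [StG.wb]
    exact (e1.trans h').trans e2.symm)
  simp only [List.cons.injEq, and_true] at h2
  exact h2

variable {M : Subgroup (GL (E6).Idx K)} (hM : ∀ g, g ∈ M ↔ g ∈ (S φ hφ).Γ ∧ ph φ g = g)

include hM in
/-- long root groups -/
theorem long_Z {c : GL (E6).Idx K} (hcM : ∀ t, φ t = t → x 71 t ∈ Zs M c) {L : List (Fin 4)} {d : Fin 48}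
    (hL : (C4).w L (47 : Fin 48) = d) : (S φ hφ).X d ≤ Zs M c := by
  intro g hg
  have e := (S φ hφ).cj_nw L (47 : Fin 48)
  have e' : cj ((S φ hφ).nw L) ((S φ hφ).X (47 : Fin 48)) = (S φ hφ).X d := e.trans (congrArg (S φ hφ).X hL)
  rw [← e', mem_cj] at hg
  obtain ⟨t, ht, e1⟩ := (X47 φ hφ).1 hg
  have e5 : g = (S φ hφ).nw L * (((S φ hφ).nw L)⁻¹ * g * (S φ hφ).nw L) * ((S φ hφ).nw L)⁻¹ := by group
  rw [e5, e1]
  exact Zs_conj (nw_M φ hφ hM L) (hcM t ht)

theorem w25 : (C4).w [(3 : Fin 4), (1 : Fin 4), (2 : Fin 4), (0 : Fin 4), (1 : Fin 4), (2 : Fin 4), (3 : Fin 4)]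
    (47 : Fin 48) = (25 : Fin 48) := Fin.ext (by decide +kernel)

theorem w24 : (C4).w [(2 : Fin 4), (1 : Fin 4), (2 : Fin 4), (0 : Fin 4), (1 : Fin 4), (2 : Fin 4), (3 : Fin 4)]
    (47 : Fin 48) = (24 : Fin 48) := Fin.ext (by decide +kernel)

theorem w30 : (C4).w [(3 : Fin 4), (2 : Fin 4), (0 : Fin 4), (1 : Fin 4), (2 : Fin 4), (3 : Fin 4)]
    (47 : Fin 48) = (30 : Fin 48) := Fin.ext (by decide +kernel)

variable (h2 : ∀ t : K, φ (φ t) = t)

include hM h2 in
/-- short elements -/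
theorem short_Z {c : GL (E6).Idx K} (hcM : ∀ t, φ t = t → x 71 t ∈ Zs M c) :
    x 42 (-1) * x 37 (-1) ∈ Zs M c := by
  have h39 : x 39 1 ∈ Zs M c := long_Z φ hφ hM hcM w25 ((X25 φ hφ).2 ⟨1, map_one φ, rfl⟩)
  have h44 : x 44 (-(1 * (1 * 1))) ∈ Zs M c := by
    have e : cl φ hφ ⟨44, by decide⟩ = (30 : Fin 48) := Fin.ext (by
      show ttE6.cl.getD 44 0 = 30
      decide +kernel)
    have := long_mem φ hφ (r := 44) (by decide) (by decide +kernel) (by decide +kernel)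
      (t := -(1 * (1 * 1))) (by rw [map_neg, map_mul, map_mul, map_one])
    rw [e] at this
    exact long_Z φ hφ hM hcM w30 this
  have hy : x 42 1 * x 37 1 ∈ M := by
    have := y_M φ hφ hM h2 (map_one φ)
    rwa [map_one] at this
  have h3 := Zs_conj hy h39
  rw [y_conj] at h3
  have h4 := (Subgroup.mul_mem_cancel_right _ h44).1 h3
  have h5 := (Subgroup.mul_mem_cancel_left _ h39).1 h4
  have e2 : x 43 (-(1 * 1)) * x 40 (1 * 1) = nr K 39 * (x 42 (-1) * x 37 (-1)) * (nr K 39)⁻¹ := by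
    rw [n_y, _root_.neg_neg, mul_one]
  rw [e2] at h5
  have h6 := Zs_conj (inv_mem (nr_M φ hφ hM)) h5
  have e3 : (nr K 39)⁻¹ * (nr K 39 * (x 42 (-1) * x 37 (-1)) * (nr K 39)⁻¹) * (nr K 39)⁻¹⁻¹ =
      x 42 (-1) * x 37 (-1) := by group
  rwa [e3] at h6

include hM h2 in
/-- elements centralising all the long root elements are trivial -/
theorem eq_one {c : GL (E6).Idx K} (hc : c ∈ (S φ hφ).Γ) (hcM : ∀ t, φ t = t → x 71 t ∈ Zs M c) : c = 1 := by
  have z1 := short_Z φ hφ hM h2 hcM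
  have z2 : x 39 1 ∈ Zs M c := long_Z φ hφ hM hcM w25 ((X25 φ hφ).2 ⟨1, map_one φ, rfl⟩)
  have z3 : x 46 1 ∈ Zs M c := long_Z φ hφ hM hcM w24 ((X24 φ hφ).2 ⟨1, map_one φ, rfl⟩)
  have m1 : x 42 (-1) * x 37 (-1) ∈ (S φ hφ).X (27 : Fin 48) :=
    (X27 φ hφ h2).2 ⟨-1, by rw [map_neg, map_one]⟩
  have hn := nw_M φ hφ hM [(1 : Fin 4), (0 : Fin 4)]
  set n := (S φ hφ).nw [(1 : Fin 4), (0 : Fin 4)] with hndef
  set y0 := n * (x 42 (-1) * x 37 (-1)) * n⁻¹ with hy0
  have z0 : y0 ∈ Zs M c := Zs_conj hn z1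
  have m0 : y0 ∈ (S φ hφ).X (33 : Fin 48) := by
    have e := (S φ hφ).cj_nw [(1 : Fin 4), (0 : Fin 4)] (27 : Fin 48)
    have e' : cj n ((S φ hφ).X (27 : Fin 48)) = (S φ hφ).X (33 : Fin 48) := e.trans (congrArg (S φ hφ).X w33)
    rw [← e']
    exact conj_mem_cj m1
  have n1 : x 42 (-1 : K) * x 37 (-1) ≠ 1 := by
    intro h
    have h' : x 42 (-1 : K) * x 37 (-1) = x 42 0 * x 37 0 := by
      rw [h, x_zero', x_zero', one_mul]
    have := (inj1 φ hφ h').1
    exact one_ne_zero (neg_eq_zero.1 this)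
  have n0 : y0 ≠ 1 := by
    intro h
    apply n1
    have : x 42 (-1 : K) * x 37 (-1) = n⁻¹ * y0 * n := by rw [hy0]; group
    rw [this, h]; group
  have n2 : x 39 (1 : K) ≠ 1 := fun h => one_ne_zero (x_inj (r := 39) (by decide) (h.trans (x_zero' 39).symm))
  have n3 : x 46 (1 : K) ≠ 1 := fun h => one_ne_zero (x_inj (r := 46) (by decide) (h.trans (x_zero' 46).symm))
  have hH : c ∈ (S φ hφ).H := by
    obtain ⟨w, hw, hneg⟩ := longest F4X
    obtain ⟨L, rfl⟩ := (C4).exists_word hw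
    refine mem_H_of_comm (S φ hφ) hc (L := L) hneg fun i => ?_
    rcases H22.TwE6.four i with rfl | rfl | rfl | rfl
    · exact ⟨y0, m0, n0, Zs_comm z0, z0 _ (nw_M φ hφ hM L)⟩
    · exact ⟨_, m1, n1, Zs_comm z1, z1 _ (nw_M φ hφ hM L)⟩
    · exact ⟨_, (X25 φ hφ).2 ⟨1, map_one φ, rfl⟩, n2, Zs_comm z2, z2 _ (nw_M φ hφ hM L)⟩
    · exact ⟨_, (X24 φ hφ).2 ⟨1, map_one φ, rfl⟩, n3, Zs_comm z3, z3 _ (nw_M φ hφ hM L)⟩
  obtain ⟨c', hc', rfl⟩ := hH
  have hc2 : c' ∈ (St' K).Hb ⊓ fx (AA φ hφ).σ := hc'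
  have hc3 := hc2.1
  rw [← (St' K).psi_range X6 Z6 W6] at hc3
  obtain ⟨p, rfl⟩ := hc3
  set P := ((E6).group K).subtype ((St' K).psi X6 Z6 W6 p) with hP
  have act : ∀ r, r < (E6).nroots → ∀ t : K, P * x r t * P⁻¹ = x r (chr p r * t) := by
    intro r hr t
    have := psi_x (S := St' K) Z6 W6 p hr t
    exact congrArg (fun z : ↥((E6).group K) => (z : GL (E6).Idx K)) this
  have cc : ∀ {z : GL (E6).Idx K}, z ∈ Zs M P → P * z * P⁻¹ = z := fun hz => by
    rw [Zs_comm hz, mul_inv_cancel_right]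
  have h39 : chr p 39 = 1 := by
    have := cc z2
    rw [act 39 (by decide), mul_one] at this
    exact x_inj (r := 39) (by decide) this
  have h46 : chr p 46 = 1 := by
    have := cc z3
    rw [act 46 (by decide), mul_one] at this
    exact x_inj (r := 46) (by decide) this
  have h42 : chr p 42 = 1 ∧ chr p 37 = 1 := by
    have := cc z1
    rw [conj_mul', act 42 (by decide), act 37 (by decide)] at this
    obtain ⟨e1, e2⟩ := inj1 φ hφ this
    rw [mul_neg, mul_one, neg_inj] at e1 e2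
    exact ⟨e1, e2⟩
  have h56 : chr p 56 = 1 ∧ chr p 36 = 1 := by
    obtain ⟨t, e⟩ := (X33 φ hφ h2).1 m0
    have ht : t ≠ 0 := by
      rintro rfl
      rw [map_zero, x_zero', x_zero', one_mul] at e
      exact n0 e
    have ht' : φ t ≠ 0 := (map_ne_zero φ).2 ht
    have := cc z0
    rw [e, conj_mul', act 56 (by decide), act 36 (by decide)] at this
    obtain ⟨e1, e2⟩ := inj0 φ hφ this
    exact ⟨mul_right_cancel₀ ht (e1.trans (one_mul t).symm), mul_right_cancel₀ ht' (e2.trans (one_mul _).symm)⟩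
  have hall : ∀ r ∈ [56, 46, 42, 39, 37, 36], chr p r = 1 := by
    intro r hr
    simp only [List.mem_cons, List.not_mem_nil, or_false] at hr
    rcases hr with rfl | rfl | rfl | rfl | rfl | rfl
    · exact h56.1
    · exact h46
    · exact h42.1
    · exact h39
    · exact h42.2
    · exact h56.2
  have hmem : p ∈ ((St' K).psi X6 Z6 W6).ker ↔ p ∈ (chi E6 K).ker := by
    rw [← H22.TwPerf.ker_psi (R := RR K) Z6 W6 (hmul := hm K)]
  have hs : ∀ j : Fin (E6).rank, (E6).simple j ∈ [56, 46, 42, 39, 37, 36] := by decide +kernel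
  have hp : p ∈ ((St' K).psi X6 Z6 W6).ker := by
    rw [hmem, mem_ker_chi (X6).rc]
    intro j
    have h1 := hall _ (hs j)
    rw [chr_eq ((X6).rc.simple_lt j j.2)] at h1
    exact Units.ext h1
  rw [hP, (MonoidHom.mem_ker).1 hp, map_one]

end H41.Tf8
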