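import Cfsg.Agent.Lib.H41.Tf8

/-!
The group of points over the small field is maximal in `²E₆(q)`.
-/

set_option autoImplicit false
set_option linter.unusedSectionVars false
set_option linter.unusedVariables false

namespace H41.Tf9

open H22.RGD H22.Coord H22.RCCheck H22.RCComb H22.ChevRel H22.ChevSys H22.ChevMain H22.ChevStd
open H22.TwChev H22.TwSt H22.RCPack H22.TwTab H22.TwX H22.TwDat H22.TwThm H22.TwMisc
open H41.Td6 H41.Tf1 H41.Tf2 H41.Tf3 H41.Tf4 H41.Tf5 H41.Tf6 H41.Tf7 H41.Tf8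
open Cfsg.Lie (ChevalleyDatum)
open scoped MatrixGroups Matrix

local notation "E6" => Cfsg.Lie.chevE6
local notation "F4X" => H22.PoinF4.rcxF4
local notation "C4" => comb F4X

variable {K : Type*} [Field K] [Finite K] (φ : K →+* K) (hφ : Function.Surjective φ)
  (h2 : ∀ t : K, φ (φ t) = t) {q : ℕ} (hφq : ∀ t, φ t = t ^ q)

include h2 hφq

theorem ph_mem (hΓ : (S φ hφ).Γ = Cfsg.Lie.twistedE6 K q) {g : GL (E6).Idx K}
    (hg : g ∈ Cfsg.Lie.twistedE6 K q) : ph φ g ∈ Cfsg.Lie.twistedE6 K q := by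
  have key : Cfsg.Lie.twistedE6 K q ≤ (Cfsg.Lie.twistedE6 K q).comap (ph φ) := by
    rw [← hΓ]
    conv_lhs => rw [hΓ]
    unfold Cfsg.Lie.twistedE6 ChevalleyDatum.genSubgroup
    rw [Subgroup.closure_le]
    rintro g ⟨w, hw, hgw⟩
    have hg' : g = wg (RR K) w := Units.ext (hgw.trans (wg_val _ w).symm)
    rw [SetLike.mem_coe, Subgroup.mem_comap]
    rcases hw with ⟨t, ht, r, hr, rfl⟩ | ⟨t, rs, hrs, rfl⟩
    · rw [← hφq] at ht
      have e : g = x r t := by rw [hg']; simp [wg, x]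
      rw [e, ph_x, ht]
      have hr' : r < (E6).nroots ∧ H23.ChevSym.symE6.rh r = r ∧ H23.ChevSym.symE6.e r = 1 := by
        revert hr
        have : ∀ r ∈ [Cfsg.Lie.e6p2, Cfsg.Lie.e6m2, Cfsg.Lie.e6p4, Cfsg.Lie.e6m4], r < (E6).nroots ∧
          H23.ChevSym.symE6.rh r = r ∧ H23.ChevSym.symE6.e r = 1 := by decide +kernel
        exact this r
      exact X_le_Γ' φ hφ _ (long_mem φ hφ hr'.1 hr'.2.1 hr'.2.2 ht)
    · have e : g = x rs.1 t * x rs.2 (φ t) := by rw [hg', hφq]; simp [wg, x]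
      rw [e, map_mul, ph_x, ph_x]
      have hr' : rs.1 < (E6).nroots ∧ rs.2 < (E6).nroots ∧ H23.ChevSym.symE6.rh rs.1 = rs.2 ∧
          H23.ChevSym.symE6.rh rs.2 = rs.1 ∧ H23.ChevSym.symE6.e rs.1 = 1 ∧ H23.ChevSym.symE6.e rs.2 = 1 ∧
          okc rs.1 rs.2 = true ∧ ttE6.cl.getD rs.2 0 = ttE6.cl.getD rs.1 0 := by
        revert hrs
        have : ∀ rs ∈ [(Cfsg.Lie.e6p1, Cfsg.Lie.e6p6), (Cfsg.Lie.e6m1, Cfsg.Lie.e6m6), (Cfsg.Lie.e6p3, Cfsg.Lie.e6p5),
          (Cfsg.Lie.e6m3, Cfsg.Lie.e6m5)], rs.1 < (E6).nroots ∧ rs.2 < (E6).nroots ∧ H23.ChevSym.symE6.rh rs.1 = rs.2 ∧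
          H23.ChevSym.symE6.rh rs.2 = rs.1 ∧ H23.ChevSym.symE6.e rs.1 = 1 ∧ H23.ChevSym.symE6.e rs.2 = 1 ∧
          okc rs.1 rs.2 = true ∧ ttE6.cl.getD rs.2 0 = ttE6.cl.getD rs.1 0 := by decide +kernel
        exact this rs
      obtain ⟨l1, l2, l3, l4, l5, l6, l7, l8⟩ := hr'
      exact X_le_Γ' φ hφ _ (pair_mem φ hφ l1 l2 (Fin.ext l8) l3 l4 l7 (by rw [l5, Int.cast_one, one_mul])
        (by rw [l6, Int.cast_one, one_mul, h2]))
  exact key hg

/-- the theorem -/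
theorem main (hK : Nat.card K = q ^ 2) (hF : Nat.card {t : K // φ t = t} = q) (hex : ∃ t : K, φ t ≠ t)
    (hΓ : (S φ hφ).Γ = Cfsg.Lie.twistedE6 K q) {M : Subgroup (GL (E6).Idx K)}
    (hM : ∀ g, g ∈ M ↔ g ∈ Cfsg.Lie.twistedE6 K q ∧ ph φ g = g) :
    M ≠ Cfsg.Lie.twistedE6 K q ∧ ∀ H : Subgroup (GL (E6).Idx K), M ≤ H → H ≤ Cfsg.Lie.twistedE6 K q →
      H = M ∨ H = Cfsg.Lie.twistedE6 K q := by
  have hM' : ∀ g, g ∈ M ↔ g ∈ (S φ hφ).Γ ∧ ph φ g = g := by rw [hΓ]; exact hM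
  have hXM : (S φ hφ).X (47 : Fin 48) ≤ M := by
    intro z hz
    obtain ⟨r, hr, rfl⟩ := (X47 φ hφ).1 hz
    exact longM' φ hφ hM' (by simp) hr
  constructor
  · intro h
    obtain ⟨t, ht⟩ := hex
    have h4 : x 42 t * x 37 (φ t) ∈ M := by
      rw [h, ← hΓ]
      exact X_le_Γ' φ hφ _ ((X27 φ hφ h2).2 ⟨t, rfl⟩)
    have h5 := ((hM _).1 h4).2
    rw [map_mul, ph_x, ph_x] at h5
    exact ht (inj1 φ hφ h5).1
  · intro Y hMY hYG
    by_cases hYn : Cfsg.Lie.twistedE6 K q ≤ Y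
    · right; exact le_antisymm hYG hYn
    left
    refine le_antisymm (fun y hy => ?_) hMY
    have hyG := hYG hy
    refine (hM y).2 ⟨hyG, ?_⟩
    have hc : y⁻¹ * ph φ y = 1 := by
      refine eq_one φ hφ hM' h2 ?_ fun t ht m hm => ?_
      · rw [hΓ]; exact mul_mem (inv_mem hyG) (ph_mem φ hφ h2 hφq hΓ hyG)
      · set w := m * x 71 t * m⁻¹ with hw
        have hmG := ((hM m).1 hm).1
        have hle : cj (y * m) ((S φ hφ).X (47 : Fin 48)) ≤ Y := by
          rintro _ ⟨z, hz, rfl⟩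
          have hym : y * m ∈ Y := mul_mem hy (hMY hm)
          exact mul_mem (mul_mem hym (hMY (hXM hz))) (inv_mem hym)
        obtain ⟨m', hm', e⟩ := main1 φ hφ hM' h2 hφq hK hF hMY hYn (g := y * m)
          (by rw [hΓ]; exact mul_mem hyG hmG) hle
        have hz : y * w * y⁻¹ ∈ M := by
          have h5 : y * m * x 71 t * (y * m)⁻¹ ∈ cj (y * m) ((S φ hφ).X (47 : Fin 48)) :=
            conj_mem_cj ((X47 φ hφ).2 ⟨t, ht, rfl⟩)
          rw [e] at h5
          have h6 : cj m' ((S φ hφ).X (47 : Fin 48)) ≤ M := by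
            rintro _ ⟨z, hz, rfl⟩
            exact mul_mem (mul_mem hm' (hXM hz)) (inv_mem hm')
          have h7 := h6 h5
          have e2 : y * m * x 71 t * (y * m)⁻¹ = y * w * y⁻¹ := by rw [hw]; group
          rwa [e2] at h7
        have h8 := ((hM _).1 hz).2
        have h9 : ph φ w = w := by
          have : w ∈ M := mul_mem (mul_mem hm (longM' φ hφ hM' (by simp) ht)) (inv_mem hm)
          exact ((hM _).1 this).2
        rw [map_mul, map_mul, map_inv, h9] at h8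
        calc y⁻¹ * ph φ y * w = y⁻¹ * (ph φ y * w * (ph φ y)⁻¹) * ph φ y := by group
          _ = y⁻¹ * (y * w * y⁻¹) * ph φ y := by rw [h8]
          _ = w * (y⁻¹ * ph φ y) := by group
    rw [inv_mul_eq_one] at hc
    exact hc.symm

omit h2 hφq
/-- the theorem in the form of the statement -/
theorem final {K : Type*} [Field K] [Fintype K] (q : ℕ) (hq : IsPrimePow q)
    (hK : Fintype.card K = q ^ 2) (M : Subgroup (GL (E6).Idx K))
    (hM : ∀ g : GL (E6).Idx K, g ∈ M ↔ g ∈ Cfsg.Lie.twistedE6 K q ∧ ∀ i j : (E6).Idx,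
      ((g : Matrix (E6).Idx (E6).Idx K) i j) ^ q = (g : Matrix (E6).Idx (E6).Idx K) i j) :
    M ≠ Cfsg.Lie.twistedE6 K q ∧ ∀ H : Subgroup (GL (E6).Idx K), M ≤ H → H ≤ Cfsg.Lie.twistedE6 K q →
      H = M ∨ H = Cfsg.Lie.twistedE6 K q := by
  have hq1 : 1 < q := hq.one_lt
  have hK' : Nat.card K = q ^ 2 := by rw [Nat.card_eq_fintype_card]; exact hK
  obtain ⟨φ, hφ, hφq⟩ := H22.TwAut.exists_frob hq (by norm_num : (2 : ℕ) ≠ 0) hK'
  have h2 : ∀ t : K, φ (φ t) = t := by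
    intro t
    rw [hφq, hφq, ← pow_mul]
    have := FiniteField.pow_card t
    rwa [hK, show q ^ 2 = q * q by ring] at this
  have hF : Nat.card {t : K // φ t = t} = q := by
    simp only [hφq]
    exact H22.TwAut.card_fixed hq1 (by norm_num) hK'
  have hex : ∃ t : K, φ t ≠ t := by
    by_contra h
    push Not at h
    have h1 : Nat.card {t : K // φ t = t} = Nat.card K :=
      Nat.card_congr (Equiv.subtypeUnivEquiv h)
    rw [hF, hK'] at h1
    have h3 : q ^ 1 < q ^ 2 := Nat.pow_lt_pow_right hq1 (by norm_num)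
    rw [pow_one] at h3
    exact absurd h1 h3.ne
  refine main φ hφ h2 hφq hK' hF hex (H22.TwE6.Γ_eq (RR K) (hm K) φ hφ h2 hφq) (fun g => ?_)
  rw [hM]
  refine and_congr_right fun _ => ?_
  constructor
  · intro h
    apply Units.ext
    ext i j
    exact (hφq _).trans (h i j)
  · intro h i j
    have := congrArg (fun g : GL (E6).Idx K => (g : Matrix (E6).Idx (E6).Idx K) i j) h
    exact (hφq _).symm.trans this

end H41.Tf9
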