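import Mathlib

/-! Counting for an involution `z` and a complement `R` with `r` conjugate to `r z`. -/

set_option autoImplicit false

namespace H41.Tt1

open MulAction

variable {G Ω : Type*} [Group G] [MulAction G Ω]

/-- points of `Y` fixed by `g` -/
noncomputable def fx (Y : Set Ω) (g : G) : ℕ := Nat.card {ω : Ω // ω ∈ Y ∧ g • ω = ω}

theorem burnside [Finite G] [Finite Ω] (Y : Set Ω) (E : Subgroup G)
    (hY : ∀ e ∈ E, ∀ ω ∈ Y, e • ω ∈ Y) [Fintype E] :
    ∃ k : ℕ, ∑ e : E, fx Y (e : G) = k * Nat.card E := by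
  classical
  have := Fintype.ofFinite Ω
  have := Fintype.ofFinite G
  letI : MulAction E Y :=
    { smul := fun e y => ⟨e.1 • y.1, hY e.1 e.2 y.1 y.2⟩
      one_smul := fun y => Subtype.ext (one_smul _ _)
      mul_smul := fun a b y => Subtype.ext (mul_smul _ _ _) }
  haveI : Fintype (Quotient (MulAction.orbitRel E Y)) := Fintype.ofFinite _
  have h := MulAction.sum_card_fixedBy_eq_card_orbits_mul_card_group (G := E) (X := Y)
  refine ⟨Fintype.card (Quotient (MulAction.orbitRel E Y)), ?_⟩
  rw [Nat.card_eq_fintype_card]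
  rw [← h]
  apply Finset.sum_congr rfl
  intro e _
  rw [fx, ← Nat.card_eq_fintype_card]
  apply Nat.card_congr
  refine ⟨fun w => ⟨⟨w.1, w.2.1⟩, ?_⟩, fun w => ⟨w.1.1, w.1.2, ?_⟩, fun w => rfl, fun w => rfl⟩
  · exact Subtype.ext w.2.2
  · exact congrArg Subtype.val w.2

/-- the main count -/
theorem main [Finite G] [Finite Ω] (Y : Set Ω) {z : G} (hz : z * z = 1) (R : Subgroup G) (hzR : z ∉ R)
    (hc : ∀ r ∈ R, r * z = z * r) (hYR : ∀ r ∈ R, ∀ ω ∈ Y, r • ω ∈ Y) (hYz : ∀ ω ∈ Y, z • ω ∈ Y)
    (hf : ∀ r ∈ R, r ≠ 1 → fx Y r = fx Y (r * z)) :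
    ∃ k : ℕ, Nat.card Y = 2 * Nat.card R * k + fx Y z := by
  classical
  have := Fintype.ofFinite Ω
  have := Fintype.ofFinite G
  let E : Subgroup G :=
    { carrier := {g | g ∈ R ∨ g * z ∈ R}
      one_mem' := Or.inl R.one_mem
      mul_mem' := by
        rintro a b (ha | ha) (hb | hb)
        · exact Or.inl (R.mul_mem ha hb)
        · exact Or.inr (by rw [mul_assoc]; exact R.mul_mem ha hb)
        · right
          have e : a * b * z = a * z * b := by rw [mul_assoc, hc b hb, mul_assoc]
          rw [e]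
          exact R.mul_mem ha hb
        · left
          have e : a * b = (a * z) * (b * z) := by
            have h1 : b = (b * z) * z := by rw [mul_assoc, hz, mul_one]
            have h2 := hc _ hb
            calc a * b = a * ((b * z) * z) := by rw [← h1]
              _ = a * (z * (b * z)) := by rw [h2]
              _ = (a * z) * (b * z) := by rw [mul_assoc]
          rw [e]
          exact R.mul_mem ha hb
      inv_mem' := by
        rintro a (ha | ha)
        · exact Or.inl (R.inv_mem ha)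
        · right
          have h1 := R.inv_mem ha
          have h2 := hc _ h1
          have hz' : z⁻¹ = z := by rw [inv_eq_iff_mul_eq_one]; exact hz
          rw [mul_inv_rev, hz'] at h1 h2
          have e : a⁻¹ * z = z * a⁻¹ := by
            calc a⁻¹ * z = z * (z * a⁻¹ * z) := by rw [← mul_assoc, ← mul_assoc, hz, one_mul]
              _ = z * (z * (z * a⁻¹)) := by rw [h2]
              _ = z * a⁻¹ := by rw [← mul_assoc z z, hz, one_mul]
          rw [e]
          exact h1 }
  have hRE : R ≤ E := fun r hr => Or.inl hr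
  have hzE : z ∈ E := Or.inr (by rw [hz]; exact R.one_mem)
  have hYE : ∀ e ∈ E, ∀ ω ∈ Y, e • ω ∈ Y := by
    rintro e (he | he) ω hω
    · exact hYR e he ω hω
    · have h1 : e = (e * z) * z := by rw [mul_assoc, hz, mul_one]
      rw [h1, mul_smul]
      exact hYR _ he _ (hYz ω hω)
  obtain ⟨a, ha⟩ := burnside Y R hYR
  obtain ⟨b, hb⟩ := burnside Y E hYE
  -- E = R ⊔ R z
  have hnot : ∀ r ∈ R, r * z ∉ R := by
    intro r hr h
    apply hzR
    have := R.mul_mem (R.inv_mem hr) h
    rwa [inv_mul_cancel_left] at this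
  let φ : (R ⊕ R) → E := fun s => match s with
    | .inl r => ⟨r.1, hRE r.2⟩
    | .inr r => ⟨r.1 * z, E.mul_mem (hRE r.2) hzE⟩
  have hφ : Function.Bijective φ := by
    constructor
    · rintro (r | r) (r' | r') h
      · have h1 : r.1 = r'.1 := congrArg (fun e : E => e.1) h
        rw [Subtype.ext h1]
      · have h1 : r.1 = r'.1 * z := congrArg (fun e : E => e.1) h
        exact absurd (h1 ▸ r.2) (hnot r'.1 r'.2)
      · have h1 : r.1 * z = r'.1 := congrArg (fun e : E => e.1) h
        exact absurd (h1 ▸ r'.2) (hnot r.1 r.2)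
      · have h1 : r.1 * z = r'.1 * z := congrArg (fun e : E => e.1) h
        rw [Subtype.ext (mul_right_cancel h1)]
    · rintro ⟨e, he⟩
      rcases he with he | he
      · exact ⟨.inl ⟨e, he⟩, rfl⟩
      · exact ⟨.inr ⟨e * z, he⟩, Subtype.ext (by change e * z * z = e; rw [mul_assoc, hz, mul_one])⟩
  let eq : (R ⊕ R) ≃ E := Equiv.ofBijective φ hφ
  have hcardE : Nat.card E = 2 * Nat.card R := by
    rw [← Nat.card_congr eq, Nat.card_sum, two_mul]
  have hs : ∑ e : E, fx Y (e : G) = ∑ r : R, fx Y (r : G) + ∑ r : R, fx Y ((r : G) * z) := by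
    rw [← Equiv.sum_comp eq, Fintype.sum_sum_type]
    rfl
  have h1 : ∑ r : R, fx Y (r : G) = fx Y (1 : G) + ∑ r ∈ Finset.univ.erase (1 : R), fx Y (r : G) := by
    rw [← Finset.add_sum_erase _ _ (Finset.mem_univ (1 : R))]
    rfl
  have h2 : ∑ r : R, fx Y ((r : G) * z) = fx Y z + ∑ r ∈ Finset.univ.erase (1 : R), fx Y (r : G) := by
    rw [← Finset.add_sum_erase _ _ (Finset.mem_univ (1 : R))]
    congr 1
    · rw [Subgroup.coe_one, one_mul]
    · apply Finset.sum_congr rfl
      intro r hr
      exact (hf r.1 r.2 (fun h => (Finset.ne_of_mem_erase hr) (Subtype.ext h))).symm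
  have h3 : fx Y (1 : G) = Nat.card Y := by
    rw [fx]
    apply Nat.card_congr
    exact ⟨fun w => ⟨w.1, w.2.1⟩, fun w => ⟨w.1, w.2, one_smul _ _⟩, fun w => rfl, fun w => rfl⟩
  have h4 : fx Y z ≤ Nat.card Y := by
    rw [fx]
    exact Nat.card_le_card_of_injective (fun w : {ω : Ω // ω ∈ Y ∧ z • ω = ω} => (⟨w.1, w.2.1⟩ : Y))
      (fun a b h => Subtype.ext (congrArg (fun w : Y => w.1) h))
  rw [hs, hcardE, h2] at hb
  rw [h1, h3] at ha
  rw [h1, h3] at hb
  set s := ∑ r ∈ Finset.univ.erase (1 : R), fx Y (r : G)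
  set n := Nat.card Y
  set f := fx Y z
  set c := Nat.card R
  have hc0 : 0 < c := Nat.card_pos
  -- n + s = a c, n + s + f + s = b (2 c)
  have h5 : n = 2 * c * (a - b) + f := by
    have e1 : n + s = a * c := ha
    have e2 : n + s + (f + s) = b * (2 * c) := hb
    have hle : b ≤ a := by
      by_contra hlt
      push Not at hlt
      have : a + 1 ≤ b := hlt
      have h6 : (a + 1) * (2 * c) ≤ b * (2 * c) := Nat.mul_le_mul_right _ this
      nlinarith
    obtain ⟨d, rfl⟩ := Nat.exists_eq_add_of_le hle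
    rw [Nat.add_sub_cancel_left]
    nlinarith
  exact ⟨_, h5⟩

end H41.Tt1
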