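import Mathlib
import Cfsg.Agent.Lib.H41.Tt1

/-! Double counting for a 2-transitive group and a class of involutions; the arithmetic. -/

set_option autoImplicit false

namespace H41.Tt2

open MulAction

variable {T Ω : Type*} [Group T] [MulAction T Ω]

theorem two_trans (h : IsMultiplyPretransitive T Ω 2) {a b c d : Ω} (hab : a ≠ b) (hcd : c ≠ d) :
    ∃ g : T, g • a = c ∧ g • b = d :=
  MulAction.is_two_pretransitive_iff.1 h hab hcd

/-- pairs of distinct points -/
abbrev P (Ω : Type*) : Type _ := {p : Ω × Ω // p.1 ≠ p.2}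

theorem card_P [Finite Ω] : Nat.card (P Ω) = Nat.card Ω * (Nat.card Ω - 1) := by
  classical
  have := Fintype.ofFinite Ω
  have h1 : Nat.card (P Ω) + Nat.card {p : Ω × Ω // p.1 = p.2} = Nat.card (Ω × Ω) := by
    rw [Nat.card_eq_fintype_card, Nat.card_eq_fintype_card, Nat.card_eq_fintype_card]
    rw [Fintype.card_subtype_compl (fun p : Ω × Ω => p.1 = p.2)]
    exact Nat.sub_add_cancel (Fintype.card_subtype_le _)
  have h2 : Nat.card {p : Ω × Ω // p.1 = p.2} = Nat.card Ω := by
    apply Nat.card_congr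
    exact ⟨fun p => p.1.1, fun ω => ⟨(ω, ω), rfl⟩, fun p => Subtype.ext (Prod.ext rfl p.2), fun ω => rfl⟩
  rw [h2, Nat.card_prod] at h1
  rw [Nat.mul_sub, mul_one]
  omega

instance actP : MulAction T (P Ω) where
  smul g p := ⟨(g • p.1.1, g • p.1.2), fun h => p.2 (MulAction.injective g h)⟩
  one_smul p := Subtype.ext (Prod.ext (one_smul _ _) (one_smul _ _))
  mul_smul g h p := Subtype.ext (Prod.ext (mul_smul _ _ _) (mul_smul _ _ _))

theorem smul_P (g : T) (p : P Ω) : (g • p).1 = (g • p.1.1, g • p.1.2) := rfl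

theorem card_P_dvd [Finite T] [Finite Ω] (h : IsMultiplyPretransitive T Ω 2) (hne : Nonempty (P Ω)) :
    Nat.card Ω * (Nat.card Ω - 1) ∣ Nat.card T := by
  rw [← card_P]
  have : IsPretransitive T (P Ω) := by
    refine ⟨fun p q => ?_⟩
    obtain ⟨g, h1, h2⟩ := two_trans h p.2 q.2
    exact ⟨g, Subtype.ext (Prod.ext h1 h2)⟩
  obtain ⟨p⟩ := hne
  have h1 := MulAction.index_stabilizer_of_transitive T p
  rw [← h1]
  exact Subgroup.index_dvd_card _

/-- moved points counted along a class -/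
theorem dcount [Finite T] [Finite Ω] (h : IsMultiplyPretransitive T Ω 2) (z : T) :
    Nat.card Ω * (Nat.card Ω - 1) ∣
      Nat.card {w : T // ∃ t : T, t * z * t⁻¹ = w} * (Nat.card Ω - Tt1.fx (Set.univ : Set Ω) z) := by
  classical
  have := Fintype.ofFinite Ω
  have := Fintype.ofFinite T
  set K := {w : T // ∃ t : T, t * z * t⁻¹ = w} with hK
  have hfix : ∀ w : K, (Finset.univ.filter (fun p : P Ω => w.1 • p.1.1 = p.1.2)).card =
      Nat.card Ω - Tt1.fx (Set.univ : Set Ω) z := by
    rintro ⟨w, t, rfl⟩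
    have h1 : (Finset.univ.filter (fun p : P Ω => (t * z * t⁻¹) • p.1.1 = p.1.2)).card =
        Nat.card {ω : Ω // ¬ z • ω = ω} := by
      rw [← Fintype.card_subtype, ← Nat.card_eq_fintype_card]
      apply Nat.card_congr
      refine ⟨fun p => ⟨t⁻¹ • p.1.1.1, ?_⟩, fun ω => ⟨⟨(t • ω.1, t • z • ω.1), ?_⟩, ?_⟩, fun p => ?_, fun ω => ?_⟩
      · intro e
        apply p.1.2
        rw [← p.2, mul_smul, mul_smul, e, smul_inv_smul]
      · intro e
        exact ω.2 (MulAction.injective t e).symm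
      · change (t * z * t⁻¹) • t • ω.1 = t • z • ω.1
        rw [mul_smul, mul_smul, inv_smul_smul]
      · apply Subtype.ext
        apply Subtype.ext
        apply Prod.ext
        · change t • t⁻¹ • p.1.1.1 = p.1.1.1
          rw [smul_inv_smul]
        · change t • z • t⁻¹ • p.1.1.1 = p.1.1.2
          rw [← p.2, mul_smul, mul_smul]
      · apply Subtype.ext
        change t⁻¹ • t • ω.1 = ω.1
        rw [inv_smul_smul]
    rw [h1, Nat.card_eq_fintype_card, Fintype.card_subtype_compl (fun ω : Ω => z • ω = ω)]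
    rw [Nat.card_eq_fintype_card (α := Ω)]
    congr 1
    rw [Tt1.fx, ← Nat.card_eq_fintype_card]
    apply Nat.card_congr
    exact ⟨fun w => ⟨w.1, Set.mem_univ _, w.2⟩, fun w => ⟨w.1, w.2.2⟩, fun w => rfl, fun w => rfl⟩
  have hsum : ∑ p : P Ω, (Finset.univ.filter (fun w : K => w.1 • p.1.1 = p.1.2)).card =
      Nat.card K * (Nat.card Ω - Tt1.fx (Set.univ : Set Ω) z) := by
    calc ∑ p : P Ω, (Finset.univ.filter (fun w : K => w.1 • p.1.1 = p.1.2)).card
        = ∑ p : P Ω, ∑ w : K, (if w.1 • p.1.1 = p.1.2 then 1 else 0) := by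
          apply Finset.sum_congr rfl
          intro p _
          rw [Finset.card_filter]
      _ = ∑ w : K, ∑ p : P Ω, (if w.1 • p.1.1 = p.1.2 then 1 else 0) := Finset.sum_comm
      _ = ∑ w : K, (Finset.univ.filter (fun p : P Ω => w.1 • p.1.1 = p.1.2)).card := by
          apply Finset.sum_congr rfl
          intro w _
          rw [Finset.card_filter]
      _ = ∑ w : K, (Nat.card Ω - Tt1.fx (Set.univ : Set Ω) z) := Finset.sum_congr rfl fun w _ => hfix w
      _ = _ := by rw [Finset.sum_const, Finset.card_univ, ← Nat.card_eq_fintype_card, smul_eq_mul]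
  rw [← hsum]
  by_cases hne : Nonempty (P Ω)
  · obtain ⟨p0⟩ := hne
    have hconst : ∀ p : P Ω, (Finset.univ.filter (fun w : K => w.1 • p.1.1 = p.1.2)).card =
        (Finset.univ.filter (fun w : K => w.1 • p0.1.1 = p0.1.2)).card := by
      intro p
      obtain ⟨g, h1, h2⟩ := two_trans h p0.2 p.2
      rw [← Fintype.card_subtype, ← Fintype.card_subtype]
      apply Fintype.card_congr
      refine ⟨fun w => ⟨⟨g⁻¹ * w.1.1 * g, ?_⟩, ?_⟩, fun w => ⟨⟨g * w.1.1 * g⁻¹, ?_⟩, ?_⟩, fun w => ?_, fun w => ?_⟩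
      · obtain ⟨t, ht⟩ := w.1.2
        exact ⟨g⁻¹ * t, by rw [← ht]; group⟩
      · change (g⁻¹ * w.1.1 * g) • p0.1.1 = p0.1.2
        rw [mul_smul, mul_smul, h1, w.2, ← h2, inv_smul_smul]
      · obtain ⟨t, ht⟩ := w.1.2
        exact ⟨g * t, by rw [← ht]; group⟩
      · change (g * w.1.1 * g⁻¹) • p.1.1 = p.1.2
        rw [← h1, ← h2, mul_smul, mul_smul, inv_smul_smul, w.2]
      · apply Subtype.ext; apply Subtype.ext
        change g * (g⁻¹ * w.1.1 * g) * g⁻¹ = w.1.1
        group
      · apply Subtype.ext; apply Subtype.ext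
        change g⁻¹ * (g * w.1.1 * g⁻¹) * g = w.1.1
        group
    rw [Finset.sum_congr rfl fun p _ => hconst p, Finset.sum_const, Finset.card_univ, ← Nat.card_eq_fintype_card,
      card_P, smul_eq_mul]
    exact Dvd.intro _ rfl
  · have : IsEmpty (P Ω) := not_nonempty_iff.1 hne
    rw [Finset.univ_eq_empty, Finset.sum_empty]
    exact dvd_zero _

/-- arithmetic check -/
def chk (n : ℕ) : Bool := (n * (n - 1) == 0) || (17971200 % (n * (n - 1)) != 0) || (n == 40) || (n == 65)

theorem chk_all : (List.range' 32 4300).all chk = true := by decide +kernel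

theorem deg_cases {n : ℕ} (h32 : 32 ≤ n) (h : n * (n - 1) ∣ 17971200) : n = 40 ∨ n = 65 := by
  have hn : n < 4332 := by
    by_contra hcon
    push Not at hcon
    have h1 := Nat.le_of_dvd (by norm_num) h
    have h2 : 4332 * 4331 ≤ n * (n - 1) := Nat.mul_le_mul hcon (by omega)
    omega
  have h1 := List.all_eq_true.1 chk_all n (by rw [List.mem_range']; exact ⟨n - 32, by omega, by omega⟩)
  rw [chk] at h1
  simp only [Bool.or_eq_true, beq_iff_eq, bne_iff_ne] at h1
  rcases h1 with ((h1 | h1) | h1) | h1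
  · exfalso
    rcases Nat.mul_eq_zero.1 h1 with h | h <;> omega
  · exact absurd (Nat.mod_eq_zero_of_dvd h) h1
  · exact Or.inl h1
  · exact Or.inr h1

end H41.Tt2
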