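import Mathlib
import Cfsg.Agent.Lib.H41.Tt2

/-! No 2-transitive action: abstract form for the Tits group. -/

set_option autoImplicit false

namespace H41.Tt3

open MulAction H41.Tt1 H41.Tt2

variable {T Ω : Type*} [Group T] [MulAction T Ω]

theorem fx_conj (z t : T) : fx (Set.univ : Set Ω) (t * z * t⁻¹) = fx (Set.univ : Set Ω) z := by
  apply Nat.card_congr
  refine ⟨fun w => ⟨t⁻¹ • w.1, trivial, ?_⟩, fun w => ⟨t • w.1, trivial, ?_⟩, fun w => ?_, fun w => ?_⟩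
  · have h := w.2.2
    rw [mul_smul, mul_smul] at h
    rw [smul_eq_iff_eq_inv_smul] at h
    exact h
  · rw [mul_smul, mul_smul, inv_smul_smul, w.2.2]
  · exact Subtype.ext (smul_inv_smul _ _)
  · exact Subtype.ext (inv_smul_smul _ _)

/-- the data inside `T` -/
structure Dat (z z' : T) (R R' : Subgroup T) : Prop where
  zz : z * z = 1
  z1 : z ≠ 1
  comm : z * z' = z' * z
  cR : Nat.card R = 16
  zR : z ∉ R
  Rz : ∀ r ∈ R, r * z = z * r
  Rd : ∀ r ∈ R, r ≠ 1 → ∃ d : T, d⁻¹ * r * d = r * z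
  cR' : Nat.card R' = 8
  zR' : z ∉ R'
  Rz' : ∀ r ∈ R', r * z = z * r
  Rzz' : ∀ r ∈ R', r * z' = z' * r
  Rd' : ∀ r ∈ R', r ≠ 1 → ∃ d : T, d * z' = z' * d ∧ d⁻¹ * r * d = r * z
  conj : ∃ t : T, t * z * t⁻¹ = z'
  odd : ¬ 2 ∣ Nat.card {w : T // ∃ t : T, t * z * t⁻¹ = w}

variable {z z' : T} {R R' : Subgroup T}

theorem fx_d (d r : T) (Y : Set Ω) (hd : ∀ ω, d • ω ∈ Y ↔ ω ∈ Y) : fx Y (d⁻¹ * r * d) = fx Y r := by
  apply Nat.card_congr
  refine ⟨fun w => ⟨d • w.1, (hd _).2 w.2.1, ?_⟩, fun w => ⟨d⁻¹ • w.1, ?_, ?_⟩, fun w => ?_, fun w => ?_⟩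
  · have h := w.2.2
    rw [mul_smul, mul_smul, inv_smul_eq_iff] at h
    exact h
  · rw [← hd, smul_inv_smul]; exact w.2.1
  · rw [mul_smul, mul_smul, smul_inv_smul, w.2.2]
  · exact Subtype.ext (inv_smul_smul _ _)
  · exact Subtype.ext (smul_inv_smul _ _)

variable [Finite T] [Finite Ω]

theorem count1 (D : Dat z z' R R') : ∃ k : ℕ, Nat.card Ω = 32 * k + fx (Set.univ : Set Ω) z := by
  obtain ⟨k, hk⟩ := Tt1.main (Set.univ : Set Ω) D.zz R D.zR D.Rz (fun _ _ _ _ => trivial) (fun _ _ => trivial) (by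
    intro r hr h1
    obtain ⟨d, hd⟩ := D.Rd r hr h1
    rw [← hd]
    exact (fx_d d r _ (fun _ => Iff.rfl)).symm)
  refine ⟨k, ?_⟩
  rw [D.cR, Nat.card_univ] at hk
  exact hk

theorem count2 (D : Dat z z' R R') : ∃ k : ℕ, fx (Set.univ : Set Ω) z' = 16 * k + fx {ω : Ω | z' • ω = ω} z := by
  obtain ⟨k, hk⟩ := Tt1.main {ω : Ω | z' • ω = ω} D.zz R' D.zR' D.Rz' (by
    intro r hr ω hω
    change z' • r • ω = r • ω
    rw [← mul_smul, ← D.Rzz' r hr, mul_smul, show z' • ω = ω from hω]) (by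
    intro ω hω
    change z' • z • ω = z • ω
    rw [← mul_smul, ← D.comm, mul_smul, show z' • ω = ω from hω]) (by
    intro r hr h1
    obtain ⟨d, hd1, hd⟩ := D.Rd' r hr h1
    rw [← hd]
    refine (fx_d d r _ (fun ω => ?_)).symm
    change z' • d • ω = d • ω ↔ z' • ω = ω
    rw [← mul_smul, ← hd1, mul_smul]
    exact ⟨fun h => MulAction.injective d h, fun h => by rw [h]⟩)
  refine ⟨k, ?_⟩
  rw [D.cR'] at hk
  rw [← hk, fx]
  apply Nat.card_congr
  exact ⟨fun w => ⟨w.1, w.2.2⟩, fun w => ⟨w.1, trivial, w.2⟩, fun w => rfl, fun w => rfl⟩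

theorem fx_eq (D : Dat z z' R R') : fx (Set.univ : Set Ω) z' = fx (Set.univ : Set Ω) z := by
  obtain ⟨t, ht⟩ := D.conj
  rw [← ht]
  exact fx_conj z t

theorem sub_of_card {A B : Set Ω} (h : Nat.card {ω : Ω // ω ∈ A ∧ ω ∈ B} = Nat.card {ω : Ω // ω ∈ A}) : A ⊆ B := by
  classical
  have := Fintype.ofFinite Ω
  let f : {ω : Ω // ω ∈ A ∧ ω ∈ B} → {ω : Ω // ω ∈ A} := fun w => ⟨w.1, w.2.1⟩
  have hf : Function.Injective f := fun a b e => Subtype.ext (congrArg (fun w : {ω : Ω // ω ∈ A} => w.1) e)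
  have hb := (Nat.bijective_iff_injective_and_card f).2 ⟨hf, h⟩
  intro ω hω
  obtain ⟨w, hw⟩ := hb.2 ⟨ω, hω⟩
  have : w.1 = ω := congrArg (fun w : {ω : Ω // ω ∈ A} => w.1) hw
  rw [← this]
  exact w.2.2

/-- the fixed points of `z` and `z'` agree and are few -/
theorem fix_eq [FaithfulSMul T Ω] (D : Dat z z' R R') (hcard : Nat.card T = 17971200) (hΩ : 3 ≤ Nat.card Ω)
    (h2 : IsMultiplyPretransitive T Ω 2) :
    (∃ ω : Ω, z • ω = ω) ∧ (∃ ω : Ω, z • ω ≠ ω) ∧ ∀ ω : Ω, z' • ω = ω ↔ z • ω = ω := by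
  classical
  have := Fintype.ofFinite Ω
  obtain ⟨k, hk⟩ := count1 (Ω := Ω) D
  -- z moves a point
  have hmv : ∃ ω : Ω, z • ω ≠ ω := by
    by_contra hcon
    push Not at hcon
    apply D.z1
    apply FaithfulSMul.eq_of_smul_eq_smul (α := Ω)
    intro ω
    rw [hcon ω, one_smul]
  have hk0 : k ≠ 0 := by
    rintro rfl
    obtain ⟨ω, hω⟩ := hmv
    apply hω
    have h1 : (Set.univ : Set Ω) ⊆ {ω | z • ω = ω} := by
      apply sub_of_card
      rw [mul_zero, zero_add] at hk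
      have h3 : Nat.card {ω : Ω // ω ∈ (Set.univ : Set Ω)} = Nat.card Ω := Nat.card_univ
      rw [h3, hk]
      rfl
    exact h1 (Set.mem_univ ω)
  have h32 : 32 ≤ Nat.card Ω := by omega
  have hne : Nonempty (P Ω) := by
    obtain ⟨ω, hω⟩ := hmv
    exact ⟨⟨(z • ω, ω), hω⟩⟩
  have hdvd := card_P_dvd h2 hne
  rw [hcard] at hdvd
  have hcases := deg_cases h32 hdvd
  have hz'eq := fx_eq (Ω := Ω) D
  have hA : ∀ (c : ℕ), fx (Set.univ : Set Ω) z = c → c ≠ 0 → ∃ ω : Ω, z • ω = ω := by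
    intro c hc hc0
    by_contra hcon
    push Not at hcon
    apply hc0
    rw [← hc, fx]
    have : IsEmpty {ω : Ω // ω ∈ (Set.univ : Set Ω) ∧ z • ω = ω} := ⟨fun w => hcon w.1 w.2.2⟩
    exact Nat.card_of_isEmpty
  -- once Fix z' ⊆ Fix z we are done
  have hB : (∀ ω : Ω, z' • ω = ω → z • ω = ω) → ∀ ω : Ω, z' • ω = ω ↔ z • ω = ω := by
    intro hsub ω
    refine ⟨hsub ω, fun h => ?_⟩
    have h1 : {ω : Ω | z • ω = ω} ⊆ {ω : Ω | z' • ω = ω} := by
      apply sub_of_card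
      have e1 : Nat.card {ω : Ω // ω ∈ {ω : Ω | z • ω = ω} ∧ ω ∈ {ω : Ω | z' • ω = ω}} =
          fx (Set.univ : Set Ω) z' := by
        rw [fx]
        apply Nat.card_congr
        exact ⟨fun w => ⟨w.1, trivial, w.2.2⟩, fun w => ⟨w.1, hsub w.1 w.2.2, w.2.2⟩, fun w => rfl, fun w => rfl⟩
      have e2 : Nat.card {ω : Ω // ω ∈ {ω : Ω | z • ω = ω}} = fx (Set.univ : Set Ω) z := by
        rw [fx]
        apply Nat.card_congr
        exact ⟨fun w => ⟨w.1, trivial, w.2⟩, fun w => ⟨w.1, w.2.2⟩, fun w => rfl, fun w => rfl⟩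
      rw [e1, e2, hz'eq]
    exact h1 h
  rcases hcases with h40 | h65
  · -- degree 40
    have hf : fx (Set.univ : Set Ω) z = 8 := by omega
    refine ⟨hA 8 hf (by norm_num), hmv, hB ?_⟩
    obtain ⟨j, hj⟩ := count2 (Ω := Ω) D
    have hj0 : j = 0 := by omega
    rw [hj0, mul_zero, zero_add] at hj
    have h1 : {ω : Ω | z' • ω = ω} ⊆ {ω : Ω | z • ω = ω} := by
      apply sub_of_card
      have e1 : Nat.card {ω : Ω // ω ∈ {ω : Ω | z' • ω = ω} ∧ ω ∈ {ω : Ω | z • ω = ω}} =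
          fx {ω : Ω | z' • ω = ω} z := rfl
      have e2 : Nat.card {ω : Ω // ω ∈ {ω : Ω | z' • ω = ω}} = fx (Set.univ : Set Ω) z' := by
        rw [fx]
        apply Nat.card_congr
        exact ⟨fun w => ⟨w.1, trivial, w.2⟩, fun w => ⟨w.1, w.2.2⟩, fun w => rfl, fun w => rfl⟩
      rw [e1, e2, hj]
    exact fun ω hω => h1 hω
  · -- degree 65
    have hf : fx (Set.univ : Set Ω) z = 33 ∨ fx (Set.univ : Set Ω) z = 1 := by omega
    rcases hf with hf | hf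
    · exfalso
      have h1 := dcount h2 z
      rw [hf, h65] at h1
      apply D.odd
      have h2 : 65 * (65 - 1) = 130 * 32 := by norm_num
      rw [h2, show 65 - 33 = 32 from rfl] at h1
      have h3 := Nat.dvd_of_mul_dvd_mul_right (by norm_num) h1
      exact Dvd.dvd.trans (by norm_num) h3
    · refine ⟨hA 1 hf (by norm_num), hmv, hB ?_⟩
      -- both fixed point sets are singletons, z fixes Fix z'
      intro ω hω
      have hf' := hz'eq.trans hf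
      rw [fx, Nat.card_eq_one_iff_unique] at hf'
      have hu := hf'.1
      have h1 : z' • z • ω = z • ω := by
        rw [← mul_smul, ← D.comm, mul_smul, hω]
      have h2 := hu.elim (⟨z • ω, trivial, h1⟩ : {ω : Ω // ω ∈ (Set.univ : Set Ω) ∧ z' • ω = ω}) ⟨ω, trivial, hω⟩
      exact congrArg (fun w : {ω : Ω // ω ∈ (Set.univ : Set Ω) ∧ z' • ω = ω} => w.1) h2

end H41.Tt3
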