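import Mathlib
import Cfsg.Agent.Lib.H41.Tt3

/-! No 2-transitive action: the connectedness argument. -/

set_option autoImplicit false

namespace H41.Tt4

open MulAction H41.Tt1 H41.Tt2 H41.Tt3

variable {Γ : Type*} [Group Γ]

/-- conjugate pairs -/
def Adj (z z' : Γ) (a b : Γ) : Prop :=
  ∃ g : Γ, (a = g * z * g⁻¹ ∧ b = g * z' * g⁻¹) ∨ (b = g * z * g⁻¹ ∧ a = g * z' * g⁻¹)

theorem Adj.symm {z z' a b : Γ} (h : Adj z z' a b) : Adj z z' b a := by
  obtain ⟨g, h | h⟩ := h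
  · exact ⟨g, Or.inr h⟩
  · exact ⟨g, Or.inl h⟩

theorem Adj.conj {z z' a b : Γ} (h : Adj z z' a b) (c : Γ) : Adj z z' (c * a * c⁻¹) (c * b * c⁻¹) := by
  obtain ⟨g, ⟨rfl, rfl⟩ | ⟨rfl, rfl⟩⟩ := h
  · exact ⟨c * g, Or.inl ⟨by group, by group⟩⟩
  · exact ⟨c * g, Or.inr ⟨by group, by group⟩⟩

/-- connected -/
def Conn (z z' : Γ) : Γ → Γ → Prop := Relation.ReflTransGen (Adj z z')

theorem Conn.conj {z z' a b : Γ} (h : Conn z z' a b) (c : Γ) : Conn z z' (c * a * c⁻¹) (c * b * c⁻¹) := by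
  induction h with
  | refl => exact Relation.ReflTransGen.refl
  | tail _ h ih => exact ih.tail (h.conj c)

theorem Conn.symm {z z' a b : Γ} (h : Conn z z' a b) : Conn z z' b a := by
  induction h with
  | refl => exact Relation.ReflTransGen.refl
  | tail _ h ih => exact Relation.ReflTransGen.head h.symm ih

/-- the stabiliser of the component of `z` -/
def Stab (z z' : Γ) : Subgroup Γ where
  carrier := {g | Conn z z' z (g * z * g⁻¹)}
  one_mem' := by
    change Conn z z' z (1 * z * 1⁻¹)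
    rw [one_mul, inv_one, mul_one]
    exact Relation.ReflTransGen.refl
  mul_mem' := by
    intro a b ha hb
    change Conn z z' z (a * b * z * (a * b)⁻¹)
    have h1 : Conn z z' (a * z * a⁻¹) (a * (b * z * b⁻¹) * a⁻¹) := hb.conj a
    have e : a * b * z * (a * b)⁻¹ = a * (b * z * b⁻¹) * a⁻¹ := by group
    rw [e]
    exact Relation.ReflTransGen.trans ha h1
  inv_mem' := by
    intro a ha
    change Conn z z' z (a⁻¹ * z * a⁻¹⁻¹)
    have h1 := Conn.conj ha a⁻¹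
    have e : a⁻¹ * (a * z * a⁻¹) * a⁻¹⁻¹ = z := by group
    rw [e] at h1
    exact h1.symm

variable (T : Subgroup Γ) {Ω : Type*} [MulAction T Ω]

/-- fixed points of an element of `Γ` -/
def Fx (Ω : Type*) [MulAction T Ω] (g : Γ) : Set Ω := {ω | ∃ h : g ∈ T, (⟨g, h⟩ : T) • ω = ω}

variable {T}

theorem mem_Fx {t : T} {ω : Ω} : ω ∈ Fx T Ω (t : Γ) ↔ t • ω = ω :=
  ⟨fun ⟨_, h⟩ => h, fun h => ⟨t.2, h⟩⟩

theorem main [Finite T] [Finite Ω] [FaithfulSMul T Ω] [IsSimpleGroup T] {z z' : T} {R R' : Subgroup T}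
    (D : Dat z z' R R') (hcard : Nat.card T = 17971200)
    (hpair : ∀ g : Γ, ∃ t : T, (t : Γ) * z * (t : Γ)⁻¹ = g * z * g⁻¹ ∧ (t : Γ) * z' * (t : Γ)⁻¹ = g * z' * g⁻¹)
    {n0 n1 : Γ} (hn1 : n1 * z * n1⁻¹ = z) (hn0 : n0 * z * n0⁻¹ = n1 * z' * n1⁻¹)
    (hgen : ∀ K : Subgroup Γ, (∀ g : Γ, g * z * g⁻¹ = z → g ∈ K) → n0 ∈ K → K = ⊤)
    (hΩ : 3 ≤ Nat.card Ω) : ¬ IsMultiplyPretransitive T Ω 2 := by
  intro h2
  obtain ⟨⟨α, hα⟩, ⟨β, hβ⟩, hfix⟩ := fix_eq D hcard hΩ h2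
  have hadj : ∀ a b : Γ, Adj (z : Γ) (z' : Γ) a b → Fx T Ω a = Fx T Ω b := by
    have key : ∀ g : Γ, Fx T Ω (g * z * g⁻¹) = Fx T Ω (g * z' * g⁻¹) := by
      intro g
      obtain ⟨t, h1, h2⟩ := hpair g
      rw [← h1, ← h2]
      ext ω
      have e1 := mem_Fx (t := t * z * t⁻¹) (ω := ω)
      have e2 := mem_Fx (t := t * z' * t⁻¹) (ω := ω)
      rw [Subgroup.coe_mul, Subgroup.coe_mul, Subgroup.coe_inv] at e1 e2
      have e3 : ∀ y : T, (t * y * t⁻¹) • ω = ω ↔ y • t⁻¹ • ω = t⁻¹ • ω := by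
        intro y
        rw [mul_smul, mul_smul, smul_eq_iff_eq_inv_smul]
      rw [e1, e2, e3, e3]
      exact (hfix _).symm
    rintro a b ⟨g, ⟨rfl, rfl⟩ | ⟨rfl, rfl⟩⟩
    · exact key g
    · exact (key g).symm
  have hconn : ∀ a b : Γ, Conn (z : Γ) (z' : Γ) a b → Fx T Ω a = Fx T Ω b := by
    intro a b h
    induction h with
    | refl => rfl
    | tail _ h ih => exact ih.trans (hadj _ _ h)
  have hK : Stab (z : Γ) (z' : Γ) = ⊤ := by
    apply hgen
    · intro g hg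
      change Conn _ _ _ _
      rw [hg]
      exact Relation.ReflTransGen.refl
    · change Conn _ _ _ _
      rw [hn0]
      apply Relation.ReflTransGen.single
      refine ⟨n1, Or.inl ⟨hn1.symm, rfl⟩⟩
  have hall : ∀ t : T, (t * z * t⁻¹) • α = α := by
    intro t
    have h1 : (t : Γ) ∈ Stab (z : Γ) (z' : Γ) := by rw [hK]; trivial
    have h3 := hconn _ _ h1
    have h4 : α ∈ Fx T Ω ((t * z * t⁻¹ : T) : Γ) := by
      rw [Subgroup.coe_mul, Subgroup.coe_mul, Subgroup.coe_inv, ← h3]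
      exact mem_Fx.2 hα
    exact mem_Fx.1 h4
  have hN : Subgroup.normalClosure {z} = ⊤ := by
    rcases (inferInstance : (Subgroup.normalClosure {z}).Normal).eq_bot_or_eq_top with h | h
    · exfalso
      apply D.z1
      have : z ∈ Subgroup.normalClosure {z} := Subgroup.subset_normalClosure (Set.mem_singleton z)
      rw [h] at this
      exact Subgroup.mem_bot.1 this
    · exact h
  have hle : Subgroup.normalClosure {z} ≤ MulAction.stabilizer T α := by
    rw [Subgroup.normalClosure, Subgroup.closure_le]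
    intro w hw
    obtain ⟨y, hy, hyw⟩ := Group.mem_conjugatesOfSet_iff.1 hw
    rw [Set.mem_singleton_iff] at hy
    subst hy
    obtain ⟨t, ht⟩ := isConj_iff.1 hyw
    change w • α = α
    rw [← ht]
    exact hall t
  rw [hN] at hle
  have hαβ : α ≠ β := by
    rintro rfl
    exact hβ hα
  obtain ⟨g, hg, -⟩ := two_trans h2 hαβ hαβ.symm
  have : g • α = α := hle (Subgroup.mem_top g)
  exact hαβ (this.symm.trans hg)

end H41.Tt4
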