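import Cfsg.Agent.Lib.H41.Tt4
import Cfsg.Agent.Lib.H41.Tt5

/-! The data for the Tits group. -/

set_option autoImplicit false
set_option linter.unusedVariables false
set_option linter.unusedSectionVars false
set_option maxRecDepth 10000

namespace H41.Tt6

open H22.Oct H22.Col2 H22.RGD H22.TwDat H22.TwDih H41.Tt5
open scoped commutatorElement

/-- size of a class -/
theorem class_odd {Γ : Type*} [Group Γ] [Finite Γ] (z : Γ) (U : Subgroup Γ) (hU : ∀ u ∈ U, u * z = z * u)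
    (hodd : ¬ 2 ∣ U.index) : ¬ 2 ∣ Nat.card {w : Γ // ∃ g : Γ, g * z * g⁻¹ = w} := by
  intro h
  apply hodd
  refine h.trans ?_
  have h1 := MulAction.index_stabilizer (ConjAct Γ) z
  have h2 : Nat.card {w : Γ // ∃ g : Γ, g * z * g⁻¹ = w} = (MulAction.orbit (ConjAct Γ) z).ncard := by
    rw [← Nat.card_coe_set_eq]
    apply Nat.card_congr
    refine Equiv.subtypeEquivRight fun w => ?_
    constructor
    · rintro ⟨g, hg⟩
      exact ⟨ConjAct.toConjAct g, hg⟩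
    · rintro ⟨g, hg⟩
      exact ⟨ConjAct.ofConjAct g, hg⟩
  rw [h2, ← h1]
  have h3 : (U.comap (ConjAct.ofConjAct : ConjAct Γ ≃* Γ).toMonoidHom).index = U.index :=
    Subgroup.index_comap_of_surjective U (ConjAct.ofConjAct : ConjAct Γ ≃* Γ).surjective
  rw [← h3]
  apply Subgroup.index_dvd_of_le
  intro g hg
  change ConjAct.ofConjAct g * z * (ConjAct.ofConjAct g)⁻¹ = z
  have h4 := hU (ConjAct.ofConjAct g) hg
  rw [h4, mul_assoc, mul_inv_cancel, mul_one]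

variable {G : Type*} [Group G] {S : Sys G C16} {K : Type*} [Field K] [CharP K 2] [Finite K] {ψ : K →+* K}
  {x : ℕ → K → G} (O : Oct S ψ x)

include O

theorem comm8 (a : K) : Xc x ψ 8 a 0 ∈ ⁅S.Γ, S.Γ⁆ := by
  apply comm_conj (nw_Γ [1, 0, 1])
  rw [nwX' O [1, 0, 1] 8 12 (by norm_num) (by norm_num) w8]
  exact x12_comm O a

theorem comm10 (a : K) : Xc x ψ 10 a 0 ∈ ⁅S.Γ, S.Γ⁆ := by
  apply comm_conj (nw_Γ [1])
  rw [nwX' O [1] 10 12 (by norm_num) (by norm_num) v10]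
  exact x12_comm O a

omit O [Finite K] [CharP K 2] [Field K] in
theorem w14 : C16.w [1, 0] 14 = 12 := by decide +kernel

theorem comm14 (a : K) : Xc x ψ 14 a 0 ∈ ⁅S.Γ, S.Γ⁆ := by
  apply comm_conj (nw_Γ [1, 0])
  rw [nwX' O [1, 0] 14 12 (by norm_num) (by norm_num) w14]
  exact x12_comm O a

theorem comm9 (a : K) : Xc x ψ 9 0 a ∈ ⁅S.Γ, S.Γ⁆ := by
  apply comm_conj (nw_Γ [0, 1])
  rw [nwX' O [0, 1] 9 11 (by norm_num) (by norm_num) v9]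
  exact x11_comm O a

theorem comm13 (a : K) : Xc x ψ 13 0 a ∈ ⁅S.Γ, S.Γ⁆ := by
  apply comm_conj (nw_Γ [0])
  rw [nwX' O [0] 13 11 (by norm_num) (by norm_num) u13]
  exact x11_comm O a

theorem comm_e (c2 a3 c4 a5 c6 : K) : e x ψ c2 a3 c4 a5 c6 ∈ ⁅S.Γ, S.Γ⁆ := by
  rw [← e_prod x ψ O.coll O.hψ]
  exact Subgroup.mul_mem _ (comm9 O _) (Subgroup.mul_mem _ (comm10 O _) (Subgroup.mul_mem _ (x11_comm O _)
    (Subgroup.mul_mem _ (x12_comm O _) (comm13 O _))))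

theorem comm9_11 (a : K) : Xc x ψ 9 a 0 * (Xc x ψ 11 a 0)⁻¹ ∈ ⁅S.Γ, S.Γ⁆ := by
  rw [← nwX' O [0, 1] 9 11 (by norm_num) (by norm_num) v9]
  have e1 : Xc x ψ 9 a 0 * (S.nw [0, 1] * Xc x ψ 9 a 0 * (S.nw [0, 1])⁻¹)⁻¹ = ⁅Xc x ψ 9 a 0, S.nw [0, 1]⁆ := by
    rw [commutatorElement_def]; group
  rw [e1]
  exact Subgroup.commutator_mem_commutator (X_Γ O 9 (by norm_num) _ _) (nw_Γ _)

theorem comm13_11 (a : K) : Xc x ψ 13 a 0 * (Xc x ψ 11 a 0)⁻¹ ∈ ⁅S.Γ, S.Γ⁆ := by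
  rw [← nwX' O [0] 13 11 (by norm_num) (by norm_num) u13]
  have e1 : Xc x ψ 13 a 0 * (S.nw [0] * Xc x ψ 13 a 0 * (S.nw [0])⁻¹)⁻¹ = ⁅Xc x ψ 13 a 0, S.nw [0]⁆ := by
    rw [commutatorElement_def]; group
  rw [e1]
  exact Subgroup.commutator_mem_commutator (X_Γ O 13 (by norm_num) _ _) (nw_Γ _)

/-- injectivity of `e` -/
theorem e_inj {c2 a3 c4 a5 c6 d2 b3 d4 b5 d6 : K} (h : e x ψ c2 a3 c4 a5 c6 = e x ψ d2 b3 d4 b5 d6) :
    c2 = d2 ∧ a3 = b3 ∧ c4 = d4 ∧ a5 = b5 ∧ c6 = d6 := by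
  have h1 := E_inj O h
  exact ⟨h1.2.2.1, h1.2.2.2.1, h1.2.2.2.2.2.1, h1.2.2.2.2.2.2.1, h1.2.2.2.2.2.2.2.2.1⟩

theorem e_zero : e x ψ (0 : K) 0 0 0 0 = 1 := E_zero O

/-- the element acting -/
theorem e_9_11 (c2 a3 c4 a5 c6 p : K) : e x ψ c2 a3 c4 a5 c6 * (Xc x ψ 9 p 0 * (Xc x ψ 11 p 0)⁻¹) =
    (Xc x ψ 9 p 0 * (Xc x ψ 11 p 0)⁻¹) * e x ψ c2 a3 (c4 + a5 * p) a5 c6 := by
  have h1 := e_9 x ψ O.coll O.hψ c2 a3 c4 a5 c6 p
  have h2 := e_11 x ψ O.coll O.hψ c2 a3 (c4 + a5 * p) a5 c6 p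
  have h3 : e x ψ c2 a3 (c4 + a5 * p) a5 c6 * (Xc x ψ 11 p 0)⁻¹ =
      (Xc x ψ 11 p 0)⁻¹ * e x ψ c2 a3 (c4 + a5 * p) a5 c6 := by
    have h4 : Commute (e x ψ c2 a3 (c4 + a5 * p) a5 c6) (Xc x ψ 11 p 0) := h2
    exact h4.inv_right
  rw [← mul_assoc, h1, mul_assoc, h3, mul_assoc]

theorem e_13_11 (c2 a3 c4 a5 c6 p : K) : e x ψ c2 a3 c4 a5 c6 * (Xc x ψ 13 p 0 * (Xc x ψ 11 p 0)⁻¹) =
    (Xc x ψ 13 p 0 * (Xc x ψ 11 p 0)⁻¹) * e x ψ c2 a3 (c4 + a3 * p) a5 c6 := by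
  have h1 := e_13 x ψ O.coll O.hψ c2 a3 c4 a5 c6 p
  have h2 := e_11 x ψ O.coll O.hψ c2 a3 (c4 + a3 * p) a5 c6 p
  have h3 : e x ψ c2 a3 (c4 + a3 * p) a5 c6 * (Xc x ψ 11 p 0)⁻¹ =
      (Xc x ψ 11 p 0)⁻¹ * e x ψ c2 a3 (c4 + a3 * p) a5 c6 := by
    have h4 : Commute (e x ψ c2 a3 (c4 + a3 * p) a5 c6) (Xc x ψ 11 p 0) := h2
    exact h4.inv_right
  rw [← mul_assoc, h1, mul_assoc, h3, mul_assoc]

/-- every coordinate vector is moved -/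
theorem exists_d (h2 : ∀ a : K, a = 0 ∨ a = 1) {c2 a3 a5 c6 : K} (hne : ¬ (c2 = 0 ∧ a3 = 0 ∧ a5 = 0 ∧ c6 = 0)) :
    ∃ d ∈ ⁅S.Γ, S.Γ⁆, e x ψ c2 a3 0 a5 c6 * d = d * (e x ψ c2 a3 0 a5 c6 * e x ψ 0 0 1 0 0) ∧
      (c2 = 0 → e x ψ 1 0 0 0 0 * d = d * e x ψ 1 0 0 0 0) := by
  have hz : e x ψ c2 a3 0 a5 c6 * e x ψ (0 : K) 0 1 0 0 = e x ψ c2 a3 1 a5 c6 := by
    rw [e_mul x ψ O.coll O.hψ]
    simp only [add_zero, zero_add]
  rw [hz]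
  rcases h2 c6 with rfl | rfl
  · rcases h2 a5 with rfl | rfl
    · rcases h2 a3 with rfl | rfl
      · rcases h2 c2 with rfl | rfl
        · exact absurd ⟨rfl, rfl, rfl, rfl⟩ hne
        · refine ⟨Xc x ψ 14 1 0, comm14 O 1, ?_, ?_⟩
          · have := e_14 x ψ O.coll O.hψ (1 : K) 0 0 0 0 1
            rwa [zero_add, mul_one] at this
          · intro h
            exact absurd h one_ne_zero
      · refine ⟨Xc x ψ 13 1 0 * (Xc x ψ 11 1 0)⁻¹, comm13_11 O 1, ?_, ?_⟩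
        · have := e_13_11 O c2 1 0 0 0 1
          rwa [zero_add, mul_one] at this
        · intro _
          have := e_13_11 O (1 : K) 0 0 0 0 1
          rwa [zero_add, mul_one] at this
    · refine ⟨Xc x ψ 9 1 0 * (Xc x ψ 11 1 0)⁻¹, comm9_11 O 1, ?_, ?_⟩
      · have := e_9_11 O c2 a3 0 1 0 1
        rwa [zero_add, mul_one] at this
      · intro _
        have := e_9_11 O (1 : K) 0 0 0 0 1
        rwa [zero_add, mul_one] at this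
  · refine ⟨Xc x ψ 8 1 0, comm8 O 1, ?_, ?_⟩
    · have := e_8 x ψ O.coll O.hψ c2 a3 0 a5 1 1
      rwa [zero_add, mul_one] at this
    · intro _
      have := e_8 x ψ O.coll O.hψ (1 : K) 0 0 0 0 1
      rwa [zero_add, mul_one] at this

/-- correction of elements of `Γ` -/
theorem corr (h2 : ∀ a : K, a = 0 ∨ a = 1) (hH : S.H = ⊥) (y : S.Γ) :
    ∃ t : commutator S.Γ, ∀ r : G, r * Xc x ψ 11 (1 : K) 0 = Xc x ψ 11 (1 : K) 0 * r →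
      ((t : S.Γ) : G) * r * ((t : S.Γ) : G)⁻¹ = y * r * (y : G)⁻¹ := by
  have hgen := gen2 O h2 hH
  have hz : Xc x ψ 11 (1 : K) 0 ∈ S.Γ := X_Γ O 11 (by norm_num) _ _
  have h1 := hgen y.2
  have hle : Subgroup.zpowers (Xc x ψ 11 (1 : K) 0) ≤ stabSub ⁅S.Γ, S.Γ⁆ := by
    apply le_stabSub_of_conj
    intro a ha g hg
    have ha' : a ∈ S.Γ := (Subgroup.zpowers_le.2 hz) ha
    have e : a * g * a⁻¹ = ⁅a, g⁆ * g := by rw [commutatorElement_def]; simp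
    rw [e]
    exact Subgroup.mul_mem _ (Subgroup.commutator_mem_commutator ha' (Subgroup.commutator_le_self _ hg)) hg
  obtain ⟨t, ht, k, hk, e⟩ := (mem_sup_of_normalizes hle).1 h1
  refine ⟨⟨⟨t, Subgroup.commutator_le_self _ ht⟩, memT ht _⟩, ?_⟩
  intro r hr
  have hc : k * r * k⁻¹ = r := by
    obtain ⟨n, rfl⟩ := Subgroup.mem_zpowers_iff.1 hk
    have : Commute r (Xc x ψ 11 (1 : K) 0 ^ n) := Commute.zpow_right hr n
    rw [← this.eq]; simp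
  rw [e]
  calc t * r * t⁻¹ = t * (k * r * k⁻¹) * t⁻¹ := by rw [hc]
    _ = t * k * r * (t * k)⁻¹ := by simp [mul_assoc]

end H41.Tt6
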