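import Cfsg.Agent.Lib.H41.Tt6
import Cfsg.Agent.Lib.H22.OctRes
import Cfsg.Agent.Lib.H22.OctSimple

/-! The Tits group has no 2-transitive action. -/

set_option autoImplicit false
set_option linter.unusedVariables false
set_option linter.unusedSectionVars false
set_option maxRecDepth 10000

namespace H41.Tt7

open H22.Oct H22.Col2 H22.RGD H22.TwDat H22.TwDih H41.Tt5 H41.Tt6
open scoped commutatorElement MatrixGroups

variable {G : Type*} [Group G] {S : Sys G C16} {K : Type*} [Field K] [CharP K 2] [Finite K] {ψ : K →+* K}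
  {x : ℕ → K → G} (O : Oct S ψ x)

/-- elements of the derived group -/
def tt {Γ : Subgroup G} (g : G) (hg : g ∈ ⁅Γ, Γ⁆) : commutator Γ :=
  ⟨⟨g, Subgroup.commutator_le_self _ hg⟩, memT hg _⟩

theorem tt_coe {Γ : Subgroup G} (g : G) (hg : g ∈ ⁅Γ, Γ⁆) : ((tt g hg : Γ) : G) = g := rfl

theorem ext {Γ : Subgroup G} {a b : commutator Γ} (h : ((a : Γ) : G) = ((b : Γ) : G)) : a = b :=
  Subtype.ext (Subtype.ext h)

omit [CharP K 2] in
theorem card_K (h2 : ∀ a : K, a = 0 ∨ a = 1) : Nat.card K = 2 := by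
  rw [Nat.card_eq_two_iff]
  refine ⟨0, 1, zero_ne_one, ?_⟩
  ext a
  simpa using h2 a

omit [Finite K] in
theorem neg_K (a : K) : -a = a := CharTwo.neg_eq a

include O

theorem e_inv (c2 a3 c4 a5 c6 : K) : (e x ψ c2 a3 c4 a5 c6)⁻¹ = e x ψ c2 a3 c4 a5 c6 := by
  rw [inv_eq_iff_mul_eq_one, e_mul x ψ O.coll O.hψ, CharTwo.add_self_eq_zero, CharTwo.add_self_eq_zero,
    CharTwo.add_self_eq_zero, CharTwo.add_self_eq_zero, CharTwo.add_self_eq_zero, e_zero O]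

/-- complement of order 16 -/
def R : Subgroup (commutator S.Γ) where
  carrier := {t | ∃ c2 a3 a5 c6 : K, ((t : S.Γ) : G) = e x ψ c2 a3 0 a5 c6}
  one_mem' := ⟨0, 0, 0, 0, (e_zero O).symm⟩
  mul_mem' := by
    rintro a b ⟨c2, a3, a5, c6, h⟩ ⟨c2', a3', a5', c6', h'⟩
    refine ⟨c2 + c2', a3 + a3', a5 + a5', c6 + c6', ?_⟩
    rw [Subgroup.coe_mul, Subgroup.coe_mul, h, h', e_mul x ψ O.coll O.hψ, add_zero]
  inv_mem' := by
    rintro a ⟨c2, a3, a5, c6, h⟩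
    refine ⟨c2, a3, a5, c6, ?_⟩
    rw [Subgroup.coe_inv, Subgroup.coe_inv, h, e_inv O]

/-- subgroup of order 8 -/
def R' : Subgroup (commutator S.Γ) where
  carrier := {t | ∃ a3 a5 c6 : K, ((t : S.Γ) : G) = e x ψ 0 a3 0 a5 c6}
  one_mem' := ⟨0, 0, 0, (e_zero O).symm⟩
  mul_mem' := by
    rintro a b ⟨a3, a5, c6, h⟩ ⟨a3', a5', c6', h'⟩
    refine ⟨a3 + a3', a5 + a5', c6 + c6', ?_⟩
    rw [Subgroup.coe_mul, Subgroup.coe_mul, h, h', e_mul x ψ O.coll O.hψ, add_zero]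
  inv_mem' := by
    rintro a ⟨a3, a5, c6, h⟩
    refine ⟨a3, a5, c6, ?_⟩
    rw [Subgroup.coe_inv, Subgroup.coe_inv, h, e_inv O]

theorem card_R (h2 : ∀ a : K, a = 0 ∨ a = 1) : Nat.card (R O) = 16 := by
  have h1 : Nat.card (K × K × K × K) = Nat.card (R O) := by
    apply Nat.card_congr
    apply Equiv.ofBijective (fun p : K × K × K × K =>
      (⟨tt (e x ψ p.1 p.2.1 0 p.2.2.1 p.2.2.2) (comm_e O _ _ _ _ _), p.1, p.2.1, p.2.2.1, p.2.2.2, rfl⟩ : R O))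
    constructor
    · rintro ⟨a, b, c, d⟩ ⟨a', b', c', d'⟩ h
      have h3 := e_inj O (congrArg (fun t : R O => ((t.1 : S.Γ) : G)) h)
      exact Prod.ext h3.1 (Prod.ext h3.2.1 (Prod.ext h3.2.2.2.1 h3.2.2.2.2))
    · rintro ⟨t, a, b, c, d, h⟩
      exact ⟨(a, b, c, d), Subtype.ext (ext h.symm)⟩
  rw [← h1, Nat.card_prod, Nat.card_prod, Nat.card_prod, card_K h2]

theorem card_R' (h2 : ∀ a : K, a = 0 ∨ a = 1) : Nat.card (R' O) = 8 := by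
  have h1 : Nat.card (K × K × K) = Nat.card (R' O) := by
    apply Nat.card_congr
    apply Equiv.ofBijective (fun p : K × K × K =>
      (⟨tt (e x ψ 0 p.1 0 p.2.1 p.2.2) (comm_e O _ _ _ _ _), p.1, p.2.1, p.2.2, rfl⟩ : R' O))
    constructor
    · rintro ⟨b, c, d⟩ ⟨b', c', d'⟩ h
      have h3 := e_inj O (congrArg (fun t : R' O => ((t.1 : S.Γ) : G)) h)
      exact Prod.ext h3.2.1 (Prod.ext h3.2.2.2.1 h3.2.2.2.2)
    · rintro ⟨t, b, c, d, h⟩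
      exact ⟨(b, c, d), Subtype.ext (ext h.symm)⟩
  rw [← h1, Nat.card_prod, Nat.card_prod, card_K h2]

/-- the central involution -/
def z : commutator S.Γ := tt (e x ψ (0 : K) 0 1 0 0) (comm_e O _ _ _ _ _)

/-- a commuting conjugate -/
def z' : commutator S.Γ := tt (e x ψ (1 : K) 0 0 0 0) (comm_e O _ _ _ _ _)

theorem e_comm (c2 a3 c4 a5 c6 d2 b3 d4 b5 d6 : K) : e x ψ c2 a3 c4 a5 c6 * e x ψ d2 b3 d4 b5 d6 =
    e x ψ d2 b3 d4 b5 d6 * e x ψ c2 a3 c4 a5 c6 := by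
  rw [e_mul x ψ O.coll O.hψ, e_mul x ψ O.coll O.hψ, add_comm c2, add_comm a3, add_comm c4, add_comm a5, add_comm c6]

theorem n_pair (h2 : ∀ a : K, a = 0 ∨ a = 1) (hH : S.H = ⊥) (y : S.Γ) : ∃ t : commutator S.Γ,
    (t : S.Γ) * (z O : S.Γ) * (t : S.Γ)⁻¹ = y * (z O : S.Γ) * y⁻¹ ∧
    (t : S.Γ) * (z' O : S.Γ) * (t : S.Γ)⁻¹ = y * (z' O : S.Γ) * y⁻¹ := by
  obtain ⟨t, ht⟩ := corr O h2 hH y
  exact ⟨t, Subtype.ext (ht _ (e_11 x ψ O.coll O.hψ _ _ _ _ _ _)), Subtype.ext (ht _ (e_11 x ψ O.coll O.hψ _ _ _ _ _ _))⟩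

omit O in
theorem nn (J : Fin 2) : S.n J ∈ S.Γ := by
  have := nw_Γ (S := S) [J]
  rwa [H22.RGD.Sys.nw_singleton] at this

theorem n1_z : S.n 1 * e x ψ (0 : K) 0 1 0 0 * (S.n 1)⁻¹ = e x ψ 0 0 1 0 0 := by
  rw [← e_z x ψ O.coll O.hψ]
  exact O.ncj 1 11 0 1

theorem n0_z : S.n 0 * e x ψ (0 : K) 0 1 0 0 * (S.n 0)⁻¹ = S.n 1 * e x ψ 1 0 0 0 0 * (S.n 1)⁻¹ := by
  rw [← e_z x ψ O.coll O.hψ, ← e_z' x ψ O.coll O.hψ]
  exact (O.ncj 0 11 0 1).trans (O.ncj 1 9 0 1).symm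

theorem z_conj (h2 : ∀ a : K, a = 0 ∨ a = 1) (hH : S.H = ⊥) : ∃ t : commutator S.Γ, t * z O * t⁻¹ = z' O := by
  obtain ⟨t, ht, -⟩ := n_pair O h2 hH (⟨S.n 1, nn 1⟩⁻¹ * ⟨S.n 0, nn 0⟩)
  refine ⟨t, Subtype.ext ?_⟩
  refine Eq.trans ht ?_
  apply Subtype.ext
  change (S.n 1)⁻¹ * S.n 0 * e x ψ (0 : K) 0 1 0 0 * ((S.n 1)⁻¹ * S.n 0)⁻¹ = e x ψ 1 0 0 0 0
  have h := n0_z O
  calc (S.n 1)⁻¹ * S.n 0 * e x ψ (0 : K) 0 1 0 0 * ((S.n 1)⁻¹ * S.n 0)⁻¹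
      = (S.n 1)⁻¹ * (S.n 0 * e x ψ (0 : K) 0 1 0 0 * (S.n 0)⁻¹) * S.n 1 := by group
    _ = _ := by rw [h]; group

theorem gen (hH : S.H = ⊥) (L : Subgroup S.Γ) (hL : ∀ g : S.Γ, g * (z O : S.Γ) * g⁻¹ = z O → g ∈ L)
    (h0 : (⟨S.n 0, nn 0⟩ : S.Γ) ∈ L) : L = ⊤ := by
  set M := L.map S.Γ.subtype with hM
  have hmem : ∀ {g : G} (hg : g ∈ S.Γ), g ∈ M ↔ (⟨g, hg⟩ : S.Γ) ∈ L := by
    intro g hg
    constructor
    · rintro ⟨y, hy, e⟩
      have : y = ⟨g, hg⟩ := Subtype.ext e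
      rw [← this]; exact hy
    · intro h
      exact ⟨_, h, rfl⟩
  have hc : ∀ g ∈ S.Γ, g * e x ψ (0 : K) 0 1 0 0 * g⁻¹ = e x ψ 0 0 1 0 0 → g ∈ M := by
    intro g hg h
    rw [hmem hg]
    apply hL
    exact Subtype.ext h
  have hn : ∀ J, S.n J ∈ M := by
    intro J
    rcases H22.TwF4.two J with rfl | rfl
    · exact (hmem (nn 0)).2 h0
    · exact hc _ (nn 1) (n1_z O)
  have hU : S.U ≤ M := by
    intro u hu
    apply hc u (H22.RGD.Sys.B_le_Γ S (S.U_le_B hu))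
    have h := center11 O hu 1
    rw [e_z x ψ O.coll O.hψ] at h
    rw [← h, mul_assoc, mul_inv_cancel, mul_one]
  have hnw : ∀ N : List (Fin 2), S.nw N ∈ M := by
    intro N
    induction N with
    | nil => rw [H22.RGD.Sys.nw_nil]; exact M.one_mem
    | cons i N ih => rw [H22.RGD.Sys.nw_cons]; exact M.mul_mem (hn i) ih
  have hle : S.Γ ≤ M := by
    have hB : S.B ≤ M := sup_le hU (by rw [hH]; exact bot_le)
    have hN : S.N ≤ M := by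
      refine sup_le (by rw [hH]; exact bot_le) ?_
      rw [Subgroup.closure_le]
      rintro _ ⟨J, rfl⟩
      exact hn J
    exact sup_le hB hN
  rw [eq_top_iff]
  intro g _
  exact (hmem g.2).1 (hle g.2)

theorem class_odd' [Finite G] (hodd : ∃ k, Nat.card S.Γ = Nat.card S.U * (2 * k + 1)) (h2 : ∀ a : K, a = 0 ∨ a = 1)
    (hH : S.H = ⊥) : ¬ 2 ∣ Nat.card {w : commutator S.Γ // ∃ t : commutator S.Γ, t * z O * t⁻¹ = w} := by
  have hUΓ : S.U ≤ S.Γ := fun u hu => H22.RGD.Sys.B_le_Γ S (S.U_le_B hu)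
  have h1 := class_odd (Γ := S.Γ) (z O : S.Γ) (S.U.subgroupOf S.Γ) (by
    intro u hu
    apply Subtype.ext
    have h := center11 O (Subgroup.mem_subgroupOf.1 hu) 1
    rw [e_z x ψ O.coll O.hψ] at h
    exact h.symm) (by
    intro h
    obtain ⟨k, hk⟩ := hodd
    have h3 := (S.U.subgroupOf S.Γ).card_mul_index
    rw [Nat.card_congr (Subgroup.subgroupOfEquivOfLe hUΓ).toEquiv, hk] at h3
    have h4 : (S.U.subgroupOf S.Γ).index = 2 * k + 1 := Nat.eq_of_mul_eq_mul_left Nat.card_pos h3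
    rw [h4] at h
    omega)
  intro h
  apply h1
  have h5 : Nat.card {w : commutator S.Γ // ∃ t : commutator S.Γ, t * z O * t⁻¹ = w} =
      Nat.card {w : S.Γ // ∃ g : S.Γ, g * (z O : S.Γ) * g⁻¹ = w} := by
    apply Nat.card_congr
    apply Equiv.ofBijective (fun w => (⟨(w.1 : S.Γ), by
      obtain ⟨t, ht⟩ := w.2
      exact ⟨t, congrArg Subtype.val ht⟩⟩ : {w : S.Γ // ∃ g : S.Γ, g * (z O : S.Γ) * g⁻¹ = w}))
    constructor
    · intro a b h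
      exact Subtype.ext (Subtype.ext (congrArg (fun w : {w : S.Γ // ∃ g : S.Γ, g * (z O : S.Γ) * g⁻¹ = w} => w.1) h))
    · rintro ⟨w, g, hg⟩
      obtain ⟨t, ht, -⟩ := n_pair O h2 hH g
      exact ⟨⟨t * z O * t⁻¹, t, rfl⟩, Subtype.ext (ht.trans hg)⟩
  rw [← h5]
  exact h

theorem dat [Finite G] (hodd : ∃ k, Nat.card S.Γ = Nat.card S.U * (2 * k + 1)) (h2 : ∀ a : K, a = 0 ∨ a = 1)
    (hH : S.H = ⊥) : Tt3.Dat (z O) (z' O) (R O) (R' O) where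
  zz := by
    apply ext
    change e x ψ (0 : K) 0 1 0 0 * e x ψ (0 : K) 0 1 0 0 = 1
    rw [← inv_eq_iff_mul_eq_one, e_inv O]
  z1 := by
    intro h
    have h1 : e x ψ (0 : K) 0 1 0 0 = e x ψ 0 0 0 0 0 :=
      (congrArg (fun t : commutator S.Γ => ((t : S.Γ) : G)) h).trans (e_zero O).symm
    exact one_ne_zero (e_inj O h1).2.2.1
  comm := ext (e_comm O _ _ _ _ _ _ _ _ _ _)
  cR := card_R O h2
  zR := by
    rintro ⟨c2, a3, a5, c6, h⟩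
    exact one_ne_zero (e_inj O h).2.2.1
  Rz := by
    rintro r ⟨c2, a3, a5, c6, h⟩
    apply ext
    rw [Subgroup.coe_mul, Subgroup.coe_mul, Subgroup.coe_mul, Subgroup.coe_mul, h]
    exact e_comm O _ _ _ _ _ _ _ _ _ _
  Rd := by
    rintro r ⟨c2, a3, a5, c6, h⟩ hr
    obtain ⟨d, hd, hd1, -⟩ := exists_d O h2 (c2 := c2) (a3 := a3) (a5 := a5) (c6 := c6) (by
      rintro ⟨rfl, rfl, rfl, rfl⟩
      exact hr (ext (h.trans (e_zero O))))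
    refine ⟨tt d hd, ?_⟩
    rw [mul_assoc, inv_mul_eq_iff_eq_mul]
    apply ext
    rw [Subgroup.coe_mul, Subgroup.coe_mul, Subgroup.coe_mul, Subgroup.coe_mul, Subgroup.coe_mul, Subgroup.coe_mul, h]
    exact hd1
  cR' := card_R' O h2
  zR' := by
    rintro ⟨a3, a5, c6, h⟩
    exact one_ne_zero (e_inj O h).2.2.1
  Rz' := by
    rintro r ⟨a3, a5, c6, h⟩
    apply ext
    rw [Subgroup.coe_mul, Subgroup.coe_mul, Subgroup.coe_mul, Subgroup.coe_mul, h]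
    exact e_comm O _ _ _ _ _ _ _ _ _ _
  Rzz' := by
    rintro r ⟨a3, a5, c6, h⟩
    apply ext
    rw [Subgroup.coe_mul, Subgroup.coe_mul, Subgroup.coe_mul, Subgroup.coe_mul, h]
    exact e_comm O _ _ _ _ _ _ _ _ _ _
  Rd' := by
    rintro r ⟨a3, a5, c6, h⟩ hr
    obtain ⟨d, hd, hd1, hd2⟩ := exists_d O h2 (c2 := 0) (a3 := a3) (a5 := a5) (c6 := c6) (by
      rintro ⟨-, rfl, rfl, rfl⟩
      exact hr (ext (h.trans (e_zero O))))
    refine ⟨tt d hd, ext (hd2 rfl).symm, ?_⟩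
    rw [mul_assoc, inv_mul_eq_iff_eq_mul]
    apply ext
    rw [Subgroup.coe_mul, Subgroup.coe_mul, Subgroup.coe_mul, Subgroup.coe_mul, Subgroup.coe_mul, Subgroup.coe_mul, h]
    exact hd1
  conj := z_conj O h2 hH
  odd := class_odd' O hodd h2 hH

theorem main [Finite G] (hodd : ∃ k, Nat.card S.Γ = Nat.card S.U * (2 * k + 1)) (h2 : ∀ a : K, a = 0 ∨ a = 1)
    (hH : S.H = ⊥) (hs : IsSimpleGroup (commutator S.Γ)) (hcard : Nat.card (commutator S.Γ) = 17971200)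
    {Ω : Type*} [Finite Ω] [MulAction (commutator S.Γ) Ω] [FaithfulSMul (commutator S.Γ) Ω] (hΩ : 3 ≤ Nat.card Ω) :
    ¬ MulAction.IsMultiplyPretransitive (commutator S.Γ) Ω 2 :=
  Tt4.main (dat O hodd h2 hH) hcard (n_pair O h2 hH) (n0 := ⟨S.n 0, nn 0⟩) (n1 := ⟨S.n 1, nn 1⟩)
    (Subtype.ext (n1_z O)) (Subtype.ext (n0_z O)) (gen O hH) hΩ

end H41.Tt7
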